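import Mathlib
import Cfsg.Agent.Chev.C2Form
import Cfsg.Agent.Chev.Good

/-!
`E₇(2)`: notation, gradings of the adjoint module, the invariant form, and the definitions used for separating
maximal subgroups.
-/

set_option autoImplicit false

namespace Cfsg.Agent.E72

open Cfsg.Lie Cfsg.Lie.ChevalleyDatum Cfsg.Agent.Chev Cfsg.Agent.Chev.Chk
open scoped Matrix

/-- The datum. -/
@[irreducible] def D : ChevalleyDatum := chevE7

theorem D_eq : D = chevE7 := by unfold D; rfl

instance goodD : D.Good := D_eq ▸ goodE7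

/-- The field. -/
abbrev F : Type := ZMod 2
/-- The adjoint module. -/
abbrev V : Type := D.Idx → F
/-- The ambient linear group. -/
abbrev Γ : Type := GL D.Idx F
/-- The group `E₇(2)`. -/
abbrev G : Subgroup Γ := D.group F
/-- The root involution. -/
abbrev xr (r : ℕ) : Γ := D.X F r 1
/-- The root vector. -/
abbrev er (r : ℕ) : V := D.eN F r
/-- A word in the root involutions. -/
abbrev wd (l : List ℕ) : Γ := D.word F l
/-- The vector with a bit pattern. -/
abbrev vc (m : ℕ) : V := D.vec F m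

theorem nroots_eq : D.nroots = 126 := by rw [D_eq]; rfl
theorem rank_eq : D.rank = 7 := by rw [D_eq]; rfl
theorem lt126 (r : D.Rt) : (r : ℕ) < 126 := nroots_eq ▸ r.2
theorem lt7 (i : D.Nd) : (i : ℕ) < 7 := rank_eq ▸ i.2
/-- The root with a given index. -/
abbrev mkR (r : ℕ) (h : r < 126) : D.Rt := ⟨r, nroots_eq ▸ h⟩
/-- The node with a given index. -/
abbrev mkN (i : ℕ) (h : i < 7) : D.Nd := ⟨i, rank_eq ▸ h⟩
theorem top_val : (D.top : ℕ) = 125 := by change D.nroots - 1 = 125; rw [nroots_eq]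
theorem F_cases (a : F) : a = 0 ∨ a = 1 := by revert a; decide
theorem F_unit (a : Fˣ) : (a : F) = 1 := (F_cases a).resolve_left a.ne_zero
theorem add_self (v : V) : v + v = 0 := funext fun a => CharTwo.add_self_eq_zero (v a)
theorem neg_eq' (v : V) : -v = v := funext fun a => CharTwo.neg_eq (v a)
theorem sub_eq' (v w : V) : v - w = v + w := by rw [sub_eq_add_neg, neg_eq']
theorem mul_mulVec (g h : Γ) (v : V) : (g * h).val *ᵥ v = g.val *ᵥ (h.val *ᵥ v) := by
  rw [Units.val_mul, Matrix.mulVec_mulVec]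
theorem one_mulVec' (v : V) : (1 : Γ).val *ᵥ v = v := by rw [Units.val_one, Matrix.one_mulVec]
theorem inv_mulVec (g : Γ) (v : V) : (g⁻¹).val *ᵥ (g.val *ᵥ v) = v := by
  rw [← mul_mulVec, inv_mul_cancel, one_mulVec']
theorem mulVec_inv (g : Γ) (v : V) : g.val *ᵥ ((g⁻¹).val *ᵥ v) = v := by
  rw [← mul_mulVec, mul_inv_cancel, one_mulVec']
theorem xr_mem (r : ℕ) : xr r ∈ G := D.X_mem_group F r 1
theorem xr_sq (r : ℕ) : xr r * xr r = 1 := X_mul_self r 1
theorem xr_inv (r : ℕ) : (xr r)⁻¹ = xr r := X_inv r 1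
theorem ng_val126 (r : D.Rt) : (D.ng r : ℕ) = 125 - r := by have := D.ng_val' r; have := nroots_eq; omega

/-- The subgroup generated by the root involutions with index satisfying `p`. -/
def XN (p : ℕ → Prop) : Subgroup Γ := D.XS F {r | p r}

theorem XN_eq (p : ℕ → Prop) : XN p = D.XS F {r | p r} := rfl

theorem xr_mem_XN {p : ℕ → Prop} {r : ℕ} (h : p r) : xr r ∈ XN p := by
  by_cases hr : r < D.nroots
  · exact D.X_mem_XS F (r := ⟨r, hr⟩) h 1
  · rw [show xr r = 1 from D.X_of_not_lt F hr 1]; exact one_mem _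

theorem XN_le_iff {p : ℕ → Prop} {K : Subgroup Γ} : XN p ≤ K ↔ ∀ r < 126, p r → xr r ∈ K := by
  refine ⟨fun h r _ hr => h (xr_mem_XN hr), fun h => XS_le_iff.2 fun r hr t => ?_⟩
  rcases F_cases t with rfl | rfl
  · rw [X_zero]; exact one_mem _
  · exact h r (lt126 r) hr

theorem XN_le_G (p : ℕ → Prop) : XN p ≤ G := XN_le_iff.2 fun r _ _ => xr_mem r

theorem XN_mono {p q : ℕ → Prop} (h : ∀ r < 126, p r → q r) : XN p ≤ XN q :=
  XN_le_iff.2 fun r hr hp => xr_mem_XN (h r hr hp)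

theorem wd_mem_XN {p : ℕ → Prop} {l : List ℕ} (h : ∀ r ∈ l, p r) : wd l ∈ XN p :=
  list_prod_mem fun g hg => by
    obtain ⟨r, hr, rfl⟩ := List.mem_map.1 hg
    exact xr_mem_XN (h r hr)

theorem XN_induction {p : ℕ → Prop} {P : Γ → Prop} (h1 : P 1)
    (hX : ∀ r < 126, p r → ∀ g ∈ XN p, P g → P (xr r * g)) {g : Γ} (hg : g ∈ XN p) : P g := by
  refine XS_induction h1 (fun r hr t g hg ih => ?_) hg
  rcases F_cases t with rfl | rfl
  · rwa [X_zero, one_mul]
  · exact hX r (lt126 r) hr g hg ih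

theorem G_le {K : Subgroup Γ} (h : ∀ r < 126, xr r ∈ K) : G ≤ K := by
  refine LJ_univ.ge.trans ?_
  exact (XN_le_iff (p := fun r => ∀ i, i ∉ Set.univ → D.cw r i = 0)).2 fun r hr _ => h r hr

/-! ### Gradings -/

/-- The level of a basis vector for the coweight `c`. -/
def lv (c : List ℤ) (a : D.Idx) : ℤ := D.dotF (fun i => c.getD i 0) (D.wtI a)

theorem lv_inl (c : List ℤ) (i : D.Nd) : lv c (Sum.inl i) = 0 := map_zero _
theorem lv_inr (c : List ℤ) (r : D.Rt) : lv c (Sum.inr r) = D.fl c r := D.dotF_wt c r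

/-- The vectors supported in levels `≥ k`. -/
def Fl (c : List ℤ) (k : ℤ) : Submodule F V where
  carrier := {v | ∀ a, lv c a < k → v a = 0}
  zero_mem' _ _ := rfl
  add_mem' hv hw a ha := by rw [Pi.add_apply, hv a ha, hw a ha, add_zero]
  smul_mem' t v hv a ha := by rw [Pi.smul_apply, hv a ha, smul_zero]

theorem mem_Fl {c : List ℤ} {k : ℤ} {v : V} : v ∈ Fl c k ↔ ∀ a, lv c a < k → v a = 0 := Iff.rfl

theorem Fl_anti {c : List ℤ} {k l : ℤ} (h : k ≤ l) : Fl c l ≤ Fl c k := fun _ hv a ha => hv a (ha.trans_le h)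

theorem er_mem_Fl {c : List ℤ} {k : ℤ} {r : ℕ} (h : k ≤ D.fl c r) : er r ∈ Fl c k := by
  rintro (i | s) ha
  · rfl
  · rw [lv_inr] at ha
    exact if_neg fun e => by rw [e] at ha; omega

/-- The projection on level `k`. -/
def pr (c : List ℤ) (k : ℤ) : V →ₗ[F] V where
  toFun v a := if lv c a = k then v a else 0
  map_add' v w := funext fun a => by by_cases h : lv c a = k <;> simp [h]
  map_smul' t v := funext fun a => by by_cases h : lv c a = k <;> simp [h]

theorem pr_apply (c : List ℤ) (k : ℤ) (v : V) (a : D.Idx) : pr c k v a = if lv c a = k then v a else 0 := rfl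

theorem pr_mem_Fl (c : List ℤ) (k : ℤ) (v : V) : pr c k v ∈ Fl c k := fun _ ha => if_neg ha.ne

theorem pr_pr (c : List ℤ) (k : ℤ) (v : V) : pr c k (pr c k v) = pr c k v :=
  funext fun a => by by_cases h : lv c a = k <;> simp [pr_apply, h]

theorem pr_eq_zero {c : List ℤ} {k l : ℤ} {v : V} (hv : v ∈ Fl c l) (h : k < l) : pr c k v = 0 :=
  funext fun a => by
    rw [pr_apply]; split_ifs with e
    · exact hv a (by omega)
    · rfl

theorem sub_pr_mem {c : List ℤ} {k : ℤ} {v : V} (hv : v ∈ Fl c k) : v - pr c k v ∈ Fl c (k + 1) := fun a ha => by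
  rw [Pi.sub_apply, pr_apply]; split_ifs with e
  · exact sub_self _
  · rw [hv a (by omega), sub_zero]

theorem pr_er (c : List ℤ) (k : ℤ) (r : ℕ) : pr c k (er r) = if D.fl c r = k then er r else 0 := by
  funext a
  rcases a with i | s
  · rw [pr_apply]; split_ifs <;> rfl
  · rw [pr_apply, lv_inr]
    by_cases e : (s : ℕ) = r
    · rw [e]; split_ifs <;> rfl
    · have : er r (Sum.inr s) = 0 := if_neg e
      split_ifs <;> first | rfl | exact this | exact this.symm

/-- Elements of positive level raise the level. -/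
theorem raise {c : List ℤ} {m k : ℤ} {p : ℕ → Prop} (hm : 0 < m) (hp : ∀ r < 126, p r → m ≤ D.fl c r) {g : Γ}
    (hg : g ∈ XN p) {v : V} (hv : v ∈ Fl c k) : g.val *ᵥ v - v ∈ Fl c (k + m) := by
  intro a ha
  have hS : ∀ s ∈ {r : D.Rt | p r}, m ≤ D.dotF (fun i => c.getD i 0) (D.wt s) := fun s hs => by
    rw [D.dotF_wt]; exact hp s (lt126 s) hs
  rw [Pi.sub_apply, Matrix.mulVec, dotProduct, Finset.sum_eq_single a, XS_diag _ (fun s hs => hm.trans_le (hS s hs)) hg,
    one_mul, sub_self]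
  · intro b _ hb
    by_cases h1 : lv c b < k
    · rw [hv b h1, mul_zero]
    by_cases h2 : lv c a ≤ lv c b
    · rw [D.XS_entry_of_pos F _ (fun s hs => hm.trans_le (hS s hs)) hg h2, if_neg hb.symm, zero_mul]
    · rw [XS_entry_eq_zero hg fun h => ?_, zero_mul]
      rcases D.cone_le _ hm hS h with h3 | h3
      · exact h2 (by rw [lv, lv, sub_eq_zero.1 h3])
      · rw [map_sub] at h3; unfold lv at *; omega
  · simp

/-- Elements of nonnegative level keep the filtration. -/
theorem keep {c : List ℤ} {k : ℤ} {p : ℕ → Prop} (hp : ∀ r < 126, p r → 0 ≤ D.fl c r) {g : Γ}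
    (hg : g ∈ XN p) {v : V} (hv : v ∈ Fl c k) : g.val *ᵥ v ∈ Fl c k := by
  intro a ha
  rw [Matrix.mulVec, dotProduct]
  refine Finset.sum_eq_zero fun b _ => ?_
  by_cases h1 : lv c b < k
  · rw [hv b h1, mul_zero]
  · rw [XS_entry_eq_zero hg fun h => ?_, zero_mul]
    have := D.cone_nonneg (D.dotF fun i => c.getD i 0) (fun s hs => by rw [D.dotF_wt]; exact hp s (lt126 s) hs) h
    rw [map_sub] at this; unfold lv at *; omega

/-- Elements of level zero commute with the projections. -/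
theorem pr_comm {c : List ℤ} {p : ℕ → Prop} (hp : ∀ r < 126, p r → D.fl c r = 0) {g : Γ}
    (hg : g ∈ XN p) (k : ℤ) (v : V) : pr c k (g.val *ᵥ v) = g.val *ᵥ pr c k v := by
  funext a
  have key : ∀ b, g.val a b ≠ 0 → lv c a = lv c b := fun b h => by
    have h1 := D.XS_entry F hg h
    have h2 := D.cone_nonneg (D.dotF fun i => c.getD i 0) (fun s hs => by rw [D.dotF_wt, hp s (lt126 s) hs]) h1
    have h3 := D.cone_nonneg (-D.dotF fun i => c.getD i 0)
      (fun s hs => by rw [AddMonoidHom.neg_apply, D.dotF_wt, hp s (lt126 s) hs, neg_zero]) h1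
    rw [AddMonoidHom.neg_apply] at h3
    rw [map_sub] at h2 h3; unfold lv; omega
  rw [pr_apply]
  simp only [Matrix.mulVec, dotProduct, pr_apply]
  split_ifs with e
  · refine Finset.sum_congr rfl fun b _ => ?_
    by_cases h : g.val a b = 0
    · rw [h, zero_mul, zero_mul]
    · rw [if_pos (by rw [← key b h, e])]
  · refine (Finset.sum_eq_zero fun b _ => ?_).symm
    by_cases h : g.val a b = 0
    · rw [h, zero_mul]
    · rw [if_neg (by rw [← key b h]; exact e), mul_zero]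

/-- The highest coroot. -/
def c1 : List ℤ := [2, 2, 3, 4, 3, 2, 1]
/-- Twice the second fundamental coweight. -/
def c2 : List ℤ := [4, 7, 8, 12, 9, 6, 3]

theorem fl_c1 : ∀ r < 126, D.fl c1 r =
    if r = 0 then -2 else if r ≤ 32 then -1 else if r ≤ 92 then 0 else if r ≤ 124 then 1 else 2 := by decide +kernel

theorem fl_c2 : ∀ r < 126, D.fl c2 r = 2 * D.co r 1 ∧ -4 ≤ D.fl c2 r ∧ D.fl c2 r ≤ 4 ∧ (D.fl c2 r = 4 ↔ 119 ≤ r) ∧
    (D.fl c2 r = -4 ↔ r ≤ 6) ∧ (0 < D.fl c2 r → 63 ≤ r) ∧ D.fl c2 (125 - r) = -D.fl c2 r := by decide +kernel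

/-! ### The invariant form -/

theorem formChk_E7 : D.formChk = true := by decide +kernel

/-- The invariant form. -/
def β : LinearMap.BilinForm F V := Matrix.toBilin' (D.Bm F)

theorem β_apply (v w : V) : β v w = v ⬝ᵥ (D.Bm F *ᵥ w) := Matrix.toBilin'_apply' _ _ _

theorem β_symm (v w : V) : β v w = β w v := by
  rw [β_apply, β_apply, Matrix.dotProduct_mulVec, ← Matrix.mulVec_transpose, Bm_symm formChk_E7, dotProduct_comm]

theorem β_inv {g : Γ} (hg : g ∈ G) (v w : V) : β (g.val *ᵥ v) (g.val *ᵥ w) = β v w := by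
  have h : g.valᵀ * D.Bm F * g.val = D.Bm F := group_le_PB formChk_E7 hg
  rw [β_apply, β_apply]
  conv_rhs => rw [← h]
  rw [← Matrix.mulVec_mulVec, ← Matrix.mulVec_mulVec, Matrix.dotProduct_mulVec v, Matrix.vecMul_transpose]

theorem β_inv' {g : Γ} (hg : g ∈ G) (v w : V) : β (g.val *ᵥ v) w = β v ((g⁻¹).val *ᵥ w) := by
  rw [← β_inv hg v, mulVec_inv]

theorem Bm_inr (a : D.Idx) (s : D.Rt) : D.Bm F a (Sum.inr s) = if a = Sum.inr (D.ng s) then 1 else 0 := by
  have h : D.dual (D.enc (Sum.inr s)) = [D.enc (Sum.inr (D.ng s))] := by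
    simp [dual, ChevalleyDatum.enc, s.2, ng_val]
  simp only [Bm, h, List.mem_singleton, enc_injective.eq_iff]

theorem β_er (v : V) (s : D.Rt) : β v (er s) = v (Sum.inr (D.ng s)) := by
  rw [β_apply, mulVec_eN]; simp [dotProduct, Bm_inr]

theorem β_Fl {c : List ℤ} {k l : ℤ} {v w : V} (hv : v ∈ Fl c k) (hw : w ∈ Fl c l) (h : 0 < k + l) : β v w = 0 := by
  have key : ∀ a b, D.Bm F a b ≠ 0 → lv c a + lv c b = 0 := by
    have h1 : ∀ a (s : D.Rt), D.Bm F a (Sum.inr s) ≠ 0 → lv c a + lv c (Sum.inr s) = 0 := fun a s h => by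
      rw [Bm_inr] at h
      rw [of_not_not fun e => h (if_neg e), lv, lv, ← map_add]; simp [wtI, wt_ng]
    rintro a (j | s) h
    · rcases a with i | r
      · rw [lv_inl, lv_inl, add_zero]
      · rw [add_comm]; exact h1 _ _ (by rwa [← Bm_symm formChk_E7] at h)
    · exact h1 a s h
  rw [β_apply, dotProduct]
  refine Finset.sum_eq_zero fun a _ => ?_
  by_cases h1 : lv c a < k
  · rw [hv a h1, zero_mul]
  rw [Matrix.mulVec, dotProduct, Finset.sum_eq_zero fun b _ => ?_, mul_zero]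
  by_cases h2 : D.Bm F a b = 0
  · rw [h2, zero_mul]
  · rw [hw b (by have := key a b h2; omega), mul_zero]

/-! ### Root involutions and the extraspecial group -/

/-- The extraspecial group `2^{1+32}`. -/
def Q : Subgroup Γ := XN fun r => 93 ≤ r
/-- The Levi factor `Ω₁₂⁺(2)`. -/
def L0 : Subgroup Γ := XN fun r => 33 ≤ r ∧ r ≤ 92
theorem Q_eq : Q = XN fun r => 93 ≤ r := rfl
theorem L0_eq : L0 = XN fun r => 33 ≤ r ∧ r ≤ 92 := rfl

/-- A root involution with its root vector. -/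
def Rt (a : Γ) (v : V) : Prop := ∃ g ∈ G, a = g * xr 125 * g⁻¹ ∧ v = g.val *ᵥ er 125
/-- The map `Q → Q/Z(Q)`. -/
def lam (q : Γ) : V := pr c1 (-1) (q.val *ᵥ er 0)
/-- The half-spin module. -/
def G1 : Submodule F V := LinearMap.range (pr c1 (-1))
/-- The symplectic form on the half-spin module. -/
def Bq : LinearMap.BilinForm F V := β.compl₂ (Matrix.toLin' (xr 125).val)
/-- The highest coroot as a vector. -/
def hθ : V := D.hN F 2 + D.hN F 4 + D.hN F 6
/-- The test for pure spinors. -/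
def Tst (u : V) : Prop := pr c1 0 u = 0 ∨ pr c1 0 u = hθ
/-- Pure spinors (and zero). -/
def Pure (v : V) : Prop := ∃ q ∈ Q, lam q = v ∧ Tst (q.val *ᵥ er 0)
/-- The number of pure spinors in a subspace. -/
noncomputable def cnt (W : Submodule F V) : ℕ := {v | v ∈ W ∧ Pure v}.ncard
/-- The orthogonal complement in the half-spin module. -/
def perp (W : Submodule F V) : Submodule F V := G1 ⊓ Bq.orthogonal W
/-- The invariant separating the cases. -/
noncomputable def key (W : Submodule F V) : ℕ × ℕ := (Module.finrank F W,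
  if Module.finrank F W = 16 then 0 else if Module.finrank F W = 20 then cnt (perp W) else cnt W)
/-- `W` is the image of `M ∩ Q`. -/
def IsW (M : Subgroup Γ) (W : Submodule F V) : Prop := ∀ v, v ∈ W ↔ ∃ q ∈ M, q ∈ Q ∧ lam q = v
/-- Nondegenerate subspaces. -/
def Nondeg (W : Submodule F V) : Prop := ∀ v ∈ W, v ≠ 0 → ∃ w ∈ W, Bq w v = 1
/-- The conjugates of `x` fix little. -/
def Fix26 (A : Subgroup Γ) : Prop := ∀ S : Submodule F V,
  (∀ w ∈ S, ∀ m ∈ A, (m * xr 125 * m⁻¹).val *ᵥ w = w) → Module.finrank F S ≤ 26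
/-- The root vectors of the conjugates of `x` span much. -/
def Big (A : Subgroup Γ) : Prop := 27 ≤ Module.finrank F (Submodule.span F {v | ∃ m ∈ A, v = m.val *ᵥ er 125})

theorem lam_eq (q : Γ) : lam q = pr c1 (-1) (q.val *ᵥ er 0) := rfl
theorem mem_G1 {v : V} : v ∈ G1 ↔ pr c1 (-1) v = v :=
  ⟨by rintro ⟨w, rfl⟩; exact pr_pr _ _ _, fun h => ⟨v, h⟩⟩
theorem lam_mem (q : Γ) : lam q ∈ G1 := ⟨_, rfl⟩
theorem Bq_apply (v w : V) : Bq v w = β v ((xr 125).val *ᵥ w) := by simp [Bq]
theorem Bq_symm (v w : V) : Bq v w = Bq w v := by rw [Bq_apply, Bq_apply, β_symm, β_inv' (xr_mem _), xr_inv]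
theorem mem_perp {W : Submodule F V} {v : V} : v ∈ perp W ↔ v ∈ G1 ∧ ∀ w ∈ W, Bq w v = 0 := Iff.rfl
theorem hθ_eq : hθ = D.hN F 2 + D.hN F 4 + D.hN F 6 := rfl
theorem cnt_eq (W : Submodule F V) : cnt W = {v | v ∈ W ∧ Pure v}.ncard := rfl
theorem key_eq (W : Submodule F V) : key W = (Module.finrank F W,
  if Module.finrank F W = 16 then 0 else if Module.finrank F W = 20 then cnt (perp W) else cnt W) := rfl

/-- The data of one case. -/
structure CaseOK (A : Subgroup Γ) (W : Submodule F V) : Prop where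
  le : A ≤ G
  ne : A ≠ G
  x_mem : xr 125 ∈ A
  y_mem : xr 0 ∈ A
  isW : ∀ M, A ≤ M → M ≤ G → M ≠ G → IsW M W
  nd : Nondeg W
  fix : Fix26 A

end Cfsg.Agent.E72
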