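import Mathlib
import Cfsg.Agent.E72.Defs

/-!
`E₇(2)`: the subgroup `L₂(128)`; definitions.
-/

set_option autoImplicit false

namespace Cfsg.Agent.E72

open Cfsg.Lie Cfsg.Lie.ChevalleyDatum Cfsg.Agent.Chev Cfsg.Agent.Chev.Chk
open scoped Matrix

/-- The word of a Singer cycle of `L₇(2)`. -/
def sW : List ℕ := [97, 98, 49, 76, 55, 70, 57, 68, 59, 28, 27, 53]
/-- The word of the longest element of the Weyl group. -/
def nW0 : List ℕ := [125, 0, 125, 92, 33, 92, 87, 38, 87, 78, 47, 78, 73, 52, 73, 66, 59, 66, 63, 62, 63]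
/-- The words of a basis of the Sylow subgroup. -/
def uW : List (List ℕ) := [[82, 83, 86, 89, 90, 99, 100, 101, 102, 103, 105, 106, 107, 108, 109, 113, 117, 119,
  125], [78, 80, 81, 84, 85, 87, 90, 91, 92, 102, 104, 105, 108, 109, 110, 112, 113, 114, 115, 117, 124, 125], [78,
  79, 82, 83, 86, 92, 100, 101, 103, 106, 107, 108, 109, 110, 111, 112, 116, 118, 121, 123], [78, 79, 81, 83, 85,
  88, 89, 92, 99, 103, 106, 108, 110, 122, 123], [79, 85, 89, 90, 91, 92, 101, 105, 107, 117, 118, 119, 122, 123,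
  125], [79, 85, 88, 92, 99, 100, 102, 103, 104, 105, 106, 107, 114, 117, 122, 124, 125], [79, 80, 82, 87, 88, 89,
  101, 103, 104, 107, 108, 110, 116, 117, 118, 119, 120, 123]]
/-- Addition table of the Sylow subgroup. -/
def z1L : List ℕ := [0, 7, 14, 63, 28, 54, 126, 1, 56, 90, 108, 87, 125, 55, 2, 31, 112, 43, 53, 29, 89, 57, 47, 82,
  123, 105, 110, 66, 4, 19, 62, 15, 97, 77, 86, 109, 106, 46, 58, 100, 51, 75, 114, 17, 94, 68, 37, 22, 119, 122,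
  83, 40, 93, 18, 5, 13, 8, 21, 38, 104, 124, 88, 30, 3, 67, 95, 27, 64, 45, 107, 91, 79, 85, 78, 92, 41, 116, 33,
  73, 71, 102, 118, 23, 50, 101, 72, 34, 11, 61, 20, 9, 70, 74, 52, 44, 65, 111, 32, 117, 103, 39, 84, 80, 99, 59,
  25, 36, 69, 10, 35, 26, 96, 16, 115, 42, 113, 76, 98, 81, 48, 121, 120, 49, 24, 60, 12, 6]
/-- Addition table of the natural module. -/
def z2L : List ℕ := [0, 31, 62, 7, 124, 82, 14, 3, 121, 44, 37, 34, 28, 91, 6, 63, 115, 69, 88, 106, 74, 40, 68,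
  116, 56, 86, 55, 117, 12, 101, 126, 1, 103, 84, 11, 118, 49, 10, 85, 57, 21, 66, 80, 76, 9, 50, 105, 89, 112, 36,
  45, 94, 110, 73, 107, 26, 24, 39, 75, 81, 125, 102, 2, 15, 79, 67, 41, 65, 22, 17, 109, 95, 98, 53, 20, 58, 43,
  122, 114, 64, 42, 59, 5, 92, 33, 38, 25, 108, 18, 47, 100, 13, 83, 104, 51, 71, 97, 96, 72, 111, 90, 29, 61, 32,
  93, 46, 19, 54, 87, 70, 52, 99, 48, 119, 78, 16, 23, 27, 35, 113, 123, 8, 77, 120, 4, 60, 30]

/-- The Singer cycle. -/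
def sg : Γ := wd sW
/-- The longest element. -/
def n0 : Γ := wd nW0
/-- The basis of the Sylow subgroup. -/
def ub (i : ℕ) : Γ := wd (uW.getD i [])
/-- The unipotent radical `2^{7+35}`. -/
def R2 : Subgroup Γ := XN fun r => 2 ≤ D.fl c2 r
/-- Its centre. -/
def Z2 : Subgroup Γ := XN fun r => 119 ≤ r
/-- The parabolic subgroup `2^{7+35} L₇(2)`. -/
def P2 : Subgroup Γ := XN fun r => 0 ≤ D.fl c2 r
/-- The Levi factor. -/
def L2 : Subgroup Γ := XN fun r => D.fl c2 r = 0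
/-- The Sylow subgroup. -/
def U0 : Subgroup Γ := Subgroup.closure {g | ∃ i < 7, g = ub i}
/-- Powers of the Singer cycle. -/
def sp (k : ZMod 127) : Γ := sg ^ k.val
/-- The involutions of `U0`. -/
def uk (k : ZMod 127) : Γ := sp k * ub 0 * (sp k)⁻¹
/-- The vector attached to `ub 0`. -/
def a0 : V := er 0 + er 3 + er 5 + er 6
/-- The vector attached to `uk k`. -/
def ak (k : ZMod 127) : V := (sp k).val *ᵥ a0
/-- First table. -/
def zA (d : ZMod 127) : ZMod 127 := (z1L.getD d.val 0 : ℕ)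
/-- Second table. -/
def zB (d : ZMod 127) : ZMod 127 := (z2L.getD d.val 0 : ℕ)
/-- `(g - 1) v`. -/
def dv (g : Γ) (v : V) : V := g.val *ᵥ v - v
/-- The relation between involutions of `U0` and vectors. -/
def Rel (g : Γ) (a : V) : Prop := a ∉ Fl c2 (-2) ∧ ∃ z ∈ Z2, ∃ z' ∈ Z2, z ≠ 1 ∧ z' ≠ 1 ∧ z ≠ z' ∧
  dv z (dv g a) ∈ Fl c2 4 ∧ dv z' (dv g a) ∈ Fl c2 4
/-- The subgroup `L₂(128)`. -/
def A12 : Subgroup Γ := Subgroup.closure {sg, ub 0, n0}

theorem sg_eq : sg = wd sW := rfl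
theorem n0_eq : n0 = wd nW0 := rfl
theorem ub_eq (i : ℕ) : ub i = wd (uW.getD i []) := rfl
theorem R2_eq : R2 = XN fun r => 2 ≤ D.fl c2 r := rfl
theorem Z2_eq : Z2 = XN fun r => 119 ≤ r := rfl
theorem P2_eq : P2 = XN fun r => 0 ≤ D.fl c2 r := rfl
theorem L2_eq : L2 = XN fun r => D.fl c2 r = 0 := rfl
theorem U0_eq : U0 = Subgroup.closure {g | ∃ i < 7, g = ub i} := rfl
theorem sp_eq (k : ZMod 127) : sp k = sg ^ k.val := rfl
theorem uk_eq (k : ZMod 127) : uk k = sp k * ub 0 * (sp k)⁻¹ := rfl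
theorem a0_eq : a0 = er 0 + er 3 + er 5 + er 6 := rfl
theorem ak_eq (k : ZMod 127) : ak k = (sp k).val *ᵥ a0 := rfl
theorem zA_eq (d : ZMod 127) : zA d = (z1L.getD d.val 0 : ℕ) := rfl
theorem zB_eq (d : ZMod 127) : zB d = (z2L.getD d.val 0 : ℕ) := rfl
theorem dv_eq (g : Γ) (v : V) : dv g v = g.val *ᵥ v - v := rfl
theorem A12_eq : A12 = Subgroup.closure {sg, ub 0, n0} := rfl
theorem sp_zero : sp 0 = 1 := pow_zero _
theorem uk_zero : uk 0 = ub 0 := by rw [uk, sp_zero, one_mul, inv_one, mul_one]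
theorem ak_zero : ak 0 = a0 := by rw [ak, sp_zero, one_mulVec']
theorem dv_add (g : Γ) (v w : V) : dv g (v + w) = dv g v + dv g w := by
  rw [dv, dv, dv, Matrix.mulVec_add]; abel
theorem dv_sub (g : Γ) (v w : V) : dv g (v - w) = dv g v - dv g w := by
  rw [dv, dv, dv, Matrix.mulVec_sub]; abel
theorem dv_conj (t g : Γ) (v : V) : dv (t * g * t⁻¹) (t.val *ᵥ v) = t.val *ᵥ dv g v := by
  rw [dv, dv, mul_mulVec, inv_mulVec, mul_mulVec, Matrix.mulVec_sub]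
theorem ub_mem_U0 {i : ℕ} (h : i < 7) : ub i ∈ U0 := Subgroup.subset_closure ⟨i, h, rfl⟩
theorem sg_mem_A12 : sg ∈ A12 := Subgroup.subset_closure (Or.inl rfl)
theorem ub_mem_A12 : ub 0 ∈ A12 := Subgroup.subset_closure (Or.inr (Or.inl rfl))
theorem n0_mem_A12 : n0 ∈ A12 := Subgroup.subset_closure (Or.inr (Or.inr rfl))
theorem A12_le : A12 ≤ G := (Subgroup.closure_le _).2 (by rintro _ (rfl | rfl | rfl) <;> exact word_mem_group _)
theorem sg_mem_L2 : sg ∈ L2 := wd_mem_XN (by decide +kernel)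
theorem U0_le_R2 : U0 ≤ R2 := (Subgroup.closure_le _).2 (by
  rintro _ ⟨i, hi, rfl⟩
  exact wd_mem_XN ((by decide +kernel : ∀ i < 7, ∀ r ∈ uW.getD i [], 2 ≤ D.fl c2 r) i hi))
theorem L2_le_P2 : L2 ≤ P2 := XN_mono fun _ _ h => h.ge
theorem R2_le_P2 : R2 ≤ P2 := XN_mono fun _ _ h => le_trans (by decide) h
theorem Z2_le_R2 : Z2 ≤ R2 := XN_mono fun r hr h => by have := fl_c2 r hr; omega
theorem R2_raise {g : Γ} (hg : g ∈ R2) {k : ℤ} {v : V} (hv : v ∈ Fl c2 k) : dv g v ∈ Fl c2 (k + 2) :=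
  raise (by decide) (fun _ _ h => h) hg hv
theorem Z2_raise {g : Γ} (hg : g ∈ Z2) {k : ℤ} {v : V} (hv : v ∈ Fl c2 k) : dv g v ∈ Fl c2 (k + 4) :=
  raise (by decide) (fun r hr h => by have := fl_c2 r hr; omega) hg hv
theorem P2_keep {g : Γ} (hg : g ∈ P2) {k : ℤ} {v : V} (hv : v ∈ Fl c2 k) : g.val *ᵥ v ∈ Fl c2 k :=
  keep (fun _ _ h => h) hg hv
theorem mem_Fl_bot (v : V) : v ∈ Fl c2 (-4) := by
  rintro (i | r) h
  · rw [lv_inl] at h; omega
  · rw [lv_inr] at h; have := fl_c2 r (lt126 r); omega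
theorem eq_zero_of_Fl {v : V} (h : v ∈ Fl c2 5) : v = 0 := by
  funext a
  rcases a with i | r
  · exact h _ (by rw [lv_inl]; decide)
  · exact h _ (by rw [lv_inr]; have := fl_c2 r (lt126 r); omega)

end Cfsg.Agent.E72
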