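import Mathlib
import Cfsg.Agent.E72.LDefs

set_option autoImplicit false

namespace Cfsg.Agent.E72

open Cfsg.Lie Cfsg.Lie.ChevalleyDatum Cfsg.Agent.Chev Cfsg.Agent.Chev.Chk
open scoped Matrix

namespace Gen

/-- The reflection in `r` sends `s` to `t`. -/
def valid (m : ℕ × ℕ × ℕ) : Prop := m.1 < 126 ∧ m.2.1 < 126 ∧ m.2.2 < 126 ∧
  ∀ i < 7, D.cartan i m.2.2 = D.cartan i m.2.1 - D.pairing m.1 m.2.1 * D.cartan i m.1

instance (m : ℕ × ℕ × ℕ) : Decidable (valid m) := inferInstanceAs (Decidable (_ ∧ _ ∧ _ ∧ _))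

/-- All moves use known roots. -/
def chain : List (ℕ × ℕ × ℕ) → List ℕ → Bool
  | [], _ => true
  | m :: ms, T => T.contains m.1 && T.contains (125 - m.1) && T.contains m.2.1 && chain ms (m.2.2 :: T)

theorem step {M : Subgroup Γ} {m : ℕ × ℕ × ℕ} (h : valid m) (h1 : xr m.1 ∈ M) (h2 : xr (125 - m.1) ∈ M)
    (h3 : xr m.2.1 ∈ M) : xr m.2.2 ∈ M := by
  obtain ⟨r, s, t⟩ := m
  obtain ⟨a, b, c, h⟩ := h
  have e : D.refl (mkR r a) (mkR s b) = mkR t c := D.wt_inj (by
    rw [D.wt_refl]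
    exact funext fun i => (h i (lt7 i)).symm)
  have e1 := nE_one_conj_X2 (F := F) (mkR r a) (mkR s b) 1
  rw [e] at e1
  have e2 : D.nE F r 1 ∈ M := by
    have e3 : D.neg r = 125 - r := ng_val126 (mkR r a)
    rw [ChevalleyDatum.nE, e3, inv_one, show -(1 : F) = 1 by decide]
    exact mul_mem (mul_mem h1 h2) h1
  change D.X F (mkR t c) 1 ∈ M
  rw [← e1]
  exact mul_mem (mul_mem e2 h3) (inv_mem e2)

theorem run {M : Subgroup Γ} (ms : List (ℕ × ℕ × ℕ)) {T : List ℕ} (hv : ∀ m ∈ ms, valid m)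
    (hc : chain ms T = true) (hT : ∀ r ∈ T, xr r ∈ M) : ∀ r ∈ ms.map (·.2.2) ++ T, xr r ∈ M := by
  induction ms generalizing T with
  | nil => exact hT
  | cons m ms ih =>
    simp only [chain, Bool.and_eq_true, List.contains_iff_mem] at hc
    obtain ⟨⟨⟨h1, h2⟩, h3⟩, h4⟩ := hc
    have h5 := step (hv m List.mem_cons_self) (hT _ h1) (hT _ h2) (hT _ h3)
    have h6 := ih (fun m' h => hv m' (List.mem_cons_of_mem _ h)) h4 (List.forall_mem_cons.2 ⟨h5, hT⟩)
    intro r hr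
    refine h6 r ?_
    simp only [List.map_cons, List.cons_append, List.mem_cons, List.mem_append] at hr ⊢
    tauto

/-- First list of moves. -/
def mQ : List (ℕ × ℕ × ℕ) :=
  [(0, 93, 1), (0, 94, 2), (0, 95, 3), (0, 96, 4), (0, 97, 5), (0, 98, 6), (0, 99, 7), (0, 100, 8), (0, 101,
  9), (0, 102, 10), (0, 103, 11), (0, 104, 12), (0, 105, 13), (0, 106, 14), (0, 107, 15), (0, 108, 16), (0,
  109, 17), (0, 110, 18), (0, 111, 19), (0, 112, 20), (0, 113, 21), (0, 114, 22), (0, 115, 23), (0, 116, 24),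
  (0, 117, 25), (0, 118, 26), (0, 119, 27), (0, 120, 28), (0, 121, 29), (0, 122, 30), (0, 123, 31), (0, 124,
  32), (93, 94, 73), (93, 95, 74), (93, 96, 75), (93, 97, 76), (93, 98, 77), (93, 99, 83), (93, 100, 84), (93,
  101, 85), (93, 102, 86), (93, 103, 87), (93, 104, 88), (93, 105, 89), (93, 106, 90), (93, 107, 91), (93,
  108, 92), (93, 17, 33), (93, 18, 34), (93, 19, 35), (93, 20, 36), (93, 21, 37), (93, 22, 38), (93, 23, 39),
  (93, 24, 40), (93, 25, 41), (93, 26, 42), (93, 27, 48), (93, 28, 49), (93, 29, 50), (93, 30, 51), (93, 31,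
  52), (94, 95, 69), (94, 96, 70), (94, 97, 71), (94, 98, 72), (94, 99, 79), (94, 100, 80), (94, 101, 81),
  (94, 102, 82), (94, 23, 43), (94, 24, 44), (94, 25, 45), (94, 26, 46), (94, 27, 53), (94, 28, 54), (94, 29,
  55), (94, 30, 56), (95, 96, 66), (95, 97, 67), (95, 98, 68), (95, 99, 78), (95, 26, 47), (95, 27, 57), (95,
  28, 58), (95, 29, 59), (96, 97, 64), (96, 98, 65), (96, 27, 60), (96, 28, 61), (97, 98, 63), (97, 27, 62)]

/-- Second list of moves. -/
def mA : List (ℕ × ℕ × ℕ) :=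
  [(0, 1, 93), (0, 2, 94), (0, 3, 95), (0, 4, 96), (0, 5, 97), (0, 6, 98), (0, 119, 27), (0, 120, 28), (0,
  121, 29), (0, 122, 30), (0, 123, 31), (0, 124, 32), (1, 2, 73), (1, 3, 74), (1, 4, 75), (1, 5, 76), (1, 6,
  77), (1, 119, 48), (1, 120, 49), (1, 121, 50), (1, 122, 51), (1, 123, 52), (2, 3, 69), (2, 4, 70), (2, 5,
  71), (2, 6, 72), (2, 119, 53), (2, 120, 54), (2, 121, 55), (2, 122, 56), (3, 4, 66), (3, 5, 67), (3, 6, 68),
  (3, 119, 57), (3, 120, 58), (3, 121, 59), (4, 5, 64), (4, 6, 65), (4, 119, 60), (4, 120, 61), (5, 6, 63),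
  (5, 119, 62)]

/-- Third list of moves. -/
def mB : List (ℕ × ℕ × ℕ) :=
  [(0, 107, 15), (1, 15, 91), (2, 107, 37), (2, 91, 21), (3, 107, 40), (3, 91, 24), (4, 15, 82), (4, 37, 102),
  (4, 21, 86), (4, 40, 105), (4, 24, 89), (5, 107, 42), (5, 91, 26), (5, 82, 16), (5, 102, 38), (5, 86, 22),
  (5, 105, 41), (5, 89, 25), (6, 15, 80), (6, 37, 100), (6, 21, 84), (6, 40, 103), (6, 24, 87), (6, 42, 106),
  (6, 26, 90), (6, 16, 81), (6, 38, 101), (6, 22, 85), (6, 41, 104), (6, 25, 88), (120, 80, 14), (120, 100,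
  36), (120, 84, 20), (120, 103, 39), (120, 87, 23), (121, 42, 108), (121, 26, 92), (122, 82, 13), (122, 102,
  35), (122, 86, 19), (122, 80, 11), (122, 100, 33), (122, 84, 17), (122, 81, 12), (122, 101, 34), (122, 85,
  18), (123, 82, 10), (123, 80, 8), (123, 81, 9), (124, 37, 113), (124, 40, 116), (124, 42, 118), (124, 38,
  114), (124, 41, 117), (124, 36, 112), (124, 39, 115), (124, 35, 111), (124, 33, 109), (124, 34, 110), (94,
  24, 44), (94, 26, 46), (94, 25, 45), (94, 23, 43), (95, 26, 47), (96, 100, 78), (96, 103, 79), (96, 33, 7),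
  (96, 109, 83), (30, 78, 99)]

/-- The first starting list. -/
def tQ : List ℕ := 0 :: List.range' 93 33
/-- The second starting list. -/
def tA : List ℕ := [0, 1, 2, 3, 4, 5, 6, 119, 120, 121, 122, 123, 124, 125]

theorem conj_word {M : Subgroup Γ} {r : ℕ} {u c : List ℕ} {k : ℕ} (h1 : xr r ∈ M) (h2 : wd u ∈ M)
    (h : D.collect k ([r] ++ u ++ [r] ++ u.reverse) = c) : wd c ∈ M := by
  rw [← h, wd, word_collect, word_append, word_append, word_append, word_reverse, word_cons, word_nil,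
    mul_one]
  exact mul_mem (mul_mem (mul_mem h1 h2) h1) (inv_mem h2)

end Gen

open Gen

theorem eq_G_of_Q {M : Subgroup Γ} (hM : M ≤ G) (hy : xr 0 ∈ M) (hQ : Q ≤ M) : M = G := by
  have h := run (M := M) mQ (T := tQ) (by decide +kernel) (by decide +kernel) (fun r hr => by
    rcases List.mem_cons.1 hr with rfl | hr
    · exact hy
    · exact hQ (xr_mem_XN (List.mem_range'_1.1 hr).1))
  have h2 : ∀ r < 126, r ∈ mQ.map (·.2.2) ++ tQ := by decide +kernel
  exact le_antisymm hM (G_le fun r hr => h r (h2 r hr))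
theorem eq_G_of_A7 {M : Subgroup Γ} (hM : M ≤ G) (h : ∀ r, 119 ≤ r → r ≤ 125 → xr r ∈ M ∧ xr (125 - r) ∈ M)
    (hu : ub 0 ∈ M) : M = G := by
  have h0 : ∀ r ∈ tA, r ≤ 6 ∨ 119 ≤ r ∧ r ≤ 125 := by decide
  have h1 := run (M := M) mA (T := tA) (by decide +kernel) (by decide +kernel) (fun r hr => by
    rcases h0 r hr with h2 | h2
    · have := (h (125 - r) (by omega) (by omega)).2
      rwa [show 125 - (125 - r) = r by omega] at this
    · exact (h r h2.1 h2.2).1)
  have h2 : wd [91, 102, 107, 122] ∈ M :=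
    conj_word (k := 1000) (h1 63 (by decide +kernel)) (ub_eq 0 ▸ hu) (by decide +kernel)
  have h3 : wd [107] ∈ M := conj_word (k := 1000) (h1 70 (by decide +kernel)) h2 (by decide +kernel)
  rw [wd, word_cons, word_nil, mul_one] at h3
  have h4 := run (M := M) mB (T := 107 :: (mA.map (·.2.2) ++ tA)) (by decide +kernel) (by decide +kernel)
    (List.forall_mem_cons.2 ⟨h3, h1⟩)
  have h5 : ∀ r < 126, r ∈ mB.map (·.2.2) ++ 107 :: (mA.map (·.2.2) ++ tA) := by decide +kernel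
  exact le_antisymm hM (G_le fun r hr => h4 r (h5 r hr))

end Cfsg.Agent.E72
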