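import Mathlib
import Cfsg.Agent.E72.Defs

set_option autoImplicit false

namespace Cfsg.Agent.E72

open Cfsg.Lie Cfsg.Lie.ChevalleyDatum Cfsg.Agent.Chev Cfsg.Agent.Chev.Chk
open scoped Matrix

namespace Qth

theorem er_bas (s : ℕ) : er s = D.bas F (7 + s) := by
  have := bas_add (D := D) (F := F) s
  rw [rank_eq] at this
  exact this.symm

theorem hN_bas {i : ℕ} (h : i < 7) : D.hN F i = D.bas F i := (bas_of_lt (rank_eq ▸ h)).symm

theorem act (r b : ℕ) : (xr r).val *ᵥ D.bas F b = ((D.actE r b).map fun p => D.bas F p.1).sum := by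
  rw [X_mulVec_bas]
  simp only [one_pow, one_smul]

theorem fix_er {r s : ℕ} (h : D.actE r (7 + s) = [(7 + s, 0)]) : (xr r).val *ᵥ er s = er s := by
  rw [er_bas, act, h]
  simp

theorem pos_iff (r : D.Rt) : D.IsPosRoot r ↔ 63 ≤ (r : ℕ) := by
  have := nroots_eq
  rw [D.isPos_iff_le]
  omega

theorem U_eq : D.posUnipotent F = XN fun r => 63 ≤ r := by
  rw [posUnipotent_eq_XS, XN_eq]
  congr 1
  ext r
  exact pos_iff r

theorem fix_XN {p : ℕ → Prop} {v : V} (h : ∀ r < 126, p r → (xr r).val *ᵥ v = v) {g : Γ}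
    (hg : g ∈ XN p) : g.val *ᵥ v = v :=
  XN_induction (P := fun g => g.val *ᵥ v = v) (one_mulVec' v)
    (fun r hr hp g _ ih => by rw [mul_mulVec, ih, h r hr hp]) hg

theorem comm_XN {p : ℕ → Prop} {t : Γ} (h : ∀ r < 126, p r → Commute (xr r) t) {g : Γ}
    (hg : g ∈ XN p) : Commute g t :=
  XN_induction (P := fun g => Commute g t) (Commute.one_left t)
    (fun r hr hp _ _ ih => (h r hr hp).mul_left ih) hg

theorem co_zero : ∀ r < 126, (D.co r 0 = 0 ↔ 33 ≤ r ∧ r ≤ 92) := by decide +kernel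

theorem fl0 : D.fl c1 0 = -2 := by rw [fl_c1 0 (by omega)]; rfl

theorem er0_mem : er 0 ∈ Fl c1 (-2) := er_mem_Fl fl0.ge

theorem pr_er0 : pr c1 (-1) (er 0) = 0 := by rw [pr_er, fl0, if_neg (by decide)]

theorem fl_pos {r : ℕ} (hr : r < 126) : 0 < D.fl c1 r ↔ 93 ≤ r := by
  rw [fl_c1 r hr]
  split_ifs <;> omega

theorem fl_zero {r : ℕ} (hr : r < 126) : D.fl c1 r = 0 ↔ 33 ≤ r ∧ r ≤ 92 := by
  have := fl_c1 r hr
  split_ifs at this <;> omega

theorem fl_neg {r : ℕ} (hr : r < 126) : D.fl c1 r = -1 ↔ 1 ≤ r ∧ r ≤ 32 := by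
  have := fl_c1 r hr
  split_ifs at this <;> omega

theorem pr_ers {s : ℕ} (h1 : 1 ≤ s) (h2 : s ≤ 32) : pr c1 (-1) (er s) = er s := by
  rw [pr_er, if_pos ((fl_neg (by omega)).2 ⟨h1, h2⟩)]

theorem er_apply (s : ℕ) (r : D.Rt) : er s (Sum.inr r) = if (r : ℕ) = s then 1 else 0 := rfl

theorem β_er' (v : V) {s : ℕ} (hs : s < 126) :
    β v (er s) = v (Sum.inr (mkR (125 - s) (by omega))) := by
  have := β_er v (mkR s hs)
  rw [show D.ng (mkR s hs) = mkR (125 - s) (by omega) from Fin.ext (ng_val126 _)] at this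
  exact this

theorem x_er0 : (xr 125).val *ᵥ er 0 = er 0 + hθ + er 125 := by
  have h : D.actE 125 (7 + 0) = [(7, 0), (132, 2), (2, 1), (4, 1), (6, 1)] := by decide +kernel
  rw [er_bas 0, er_bas 125, act, h, hθ_eq, hN_bas (by omega), hN_bas (by omega), hN_bas (by omega)]
  simp only [List.map_cons, List.map_nil, List.sum_cons, List.sum_nil, Nat.reduceAdd]
  abel

end Qth

open Qth

theorem Q_le_U : Q ≤ D.posUnipotent F := U_eq ▸ XN_mono fun r _ h => by omega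
theorem Q_le_G : Q ≤ G := XN_le_G _
theorem L0_le_G : L0 ≤ G := XN_le_G _
theorem x_mem_Q : xr 125 ∈ Q := xr_mem_XN (by omega)
theorem commute_x_U {u : Γ} (hu : u ∈ D.posUnipotent F) : Commute u (xr 125) := by
  have := commute_top_U hu (1 : F)
  rwa [top_val] at this
theorem U_er125 {u : Γ} (hu : u ∈ D.posUnipotent F) : u.val *ᵥ er 125 = er 125 := by
  have h : ∀ r < 126, 63 ≤ r → D.actE r (7 + 125) = [(7 + 125, 0)] := by decide +kernel
  rw [U_eq] at hu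
  exact fix_XN (fun r hr hp => fix_er (h r hr hp)) hu
theorem commute_x_L0 {l : Γ} (hl : l ∈ L0) : Commute l (xr 125) := by
  have h : ∀ r < 126, 33 ≤ r ∧ r ≤ 92 → D.pairing r 125 = 0 := by decide +kernel
  exact comm_XN (fun r hr hp =>
    commute_of_orth (r := mkR r hr) (s := mkR 125 (by omega)) (h r hr hp) 1 1) hl
theorem L0_er0 {l : Γ} (hl : l ∈ L0) : l.val *ᵥ er 0 = er 0 := by
  have h : ∀ r < 126, 33 ≤ r ∧ r ≤ 92 → D.actE r (7 + 0) = [(7 + 0, 0)] := by decide +kernel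
  exact fix_XN (fun r hr hp => fix_er (h r hr hp)) hl
theorem L0_er125 {l : Γ} (hl : l ∈ L0) : l.val *ᵥ er 125 = er 125 := by
  have h : ∀ r < 126, 33 ≤ r ∧ r ≤ 92 → D.actE r (7 + 125) = [(7 + 125, 0)] := by decide +kernel
  exact fix_XN (fun r hr hp => fix_er (h r hr hp)) hl
theorem L0_hθ {l : Γ} (hl : l ∈ L0) : l.val *ᵥ hθ = hθ := by
  have h : l.val *ᵥ ((xr 125).val *ᵥ er 0) = (xr 125).val *ᵥ er 0 := by
    rw [← mul_mulVec, (commute_x_L0 hl).eq, mul_mulVec, L0_er0 hl]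
  rw [x_er0, Matrix.mulVec_add, Matrix.mulVec_add, L0_er0 hl, L0_er125 hl] at h
  exact add_left_cancel (add_right_cancel h)
theorem cent_x {c : Γ} (hc : c ∈ G) (h : Commute c (xr 125)) : ∃ q ∈ Q, ∃ l ∈ L0, c = q * l := by
  have h0 : ∀ i < 7, i ≠ 0 → D.cartan i 125 = 0 ∧ D.pairing (125 - D.simple i) 125 = 0 := by
    decide +kernel
  have h1 : D.cartan 0 125 = 1 := by decide +kernel
  have e := centralizer_root (F := F) (θ := D.top) (i₀ := mkN 0 (by omega)) (by rw [top_val]; exact h1)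
    (fun i hi => by rw [top_val]; exact (h0 i (lt7 i) fun e => hi (Fin.ext e)).1)
    (fun r hr c => commute_top hr c 1)
    (fun j hj c => commute_of_orth (by
      rw [top_val, ng_val126]; exact (h0 j (lt7 j) fun e => hj (Fin.ext e)).2) c 1)
  have h2 : c ∈ D.group F ⊓ Subgroup.centralizer {D.X F D.top 1} :=
    ⟨hc, mem_centralizer_singleton.2 (by rw [top_val]; exact h)⟩
  rw [e] at h2
  have h3 : c ∈ (D.rootBN F).P {j | j ≠ mkN 0 (by omega)} :=
    sup_le (RootBN.U_le_B.trans (RootBN.B_le_P _)) ((LJ_le_L _).trans (RootBN.L_le_P _)) h2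
  obtain ⟨q, hq, l, hl, rfl⟩ := RootBN.mem_P_iff_QL.1 h3
  obtain ⟨t, l', hl', rfl⟩ := mem_L_iff.1 hl
  have ht : t = 1 := funext fun i => Units.ext (F_unit _)
  rw [ht, map_one, one_mul]
  rw [rootBN_Q_eq] at hq
  refine ⟨q, XS_mono' ?_ hq, l', XS_mono' ?_ hl', rfl⟩
  · rintro r ⟨h4, i, hi, h5⟩
    have h6 : i = mkN 0 (by omega) := by simpa using hi
    subst h6
    have h7 := (pos_iff r).1 h4
    have h8 := (co_zero r (lt126 r)).not.1 h5
    change 93 ≤ (r : ℕ)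
    omega
  · intro r hr
    exact (co_zero r (lt126 r)).1 (hr (mkN 0 (by omega)) (by simp))
theorem conj_L0_Q {l q : Γ} (hl : l ∈ L0) (hq : q ∈ Q) : l * q * l⁻¹ ∈ Q := by
  refine XN_induction (P := fun l => l * q * l⁻¹ ∈ Q) (by simpa using hq) (fun r hr hp g _ ih => ?_) hl
  rw [show xr r * g * q * (xr r * g)⁻¹ = xr r * (g * q * g⁻¹) * (xr r)⁻¹ by group]
  refine D.X_conj_mem_XS F (r := mkR r hr) subset_rfl ?_ (fun s hs u i j hi hj e => ?_) 1 ih
  · change ¬ 93 ≤ (D.ng (mkR r hr) : ℕ)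
    rw [ng_val126]
    change ¬ 93 ≤ 125 - r
    omega
  · have h := congrArg (D.dotF fun i => c1.getD i 0) e
    rw [map_add, map_zsmul, map_zsmul, D.dotF_wt, D.dotF_wt, D.dotF_wt,
      (fl_zero hr).2 hp, smul_zero, zero_add, smul_eq_mul] at h
    refine (fl_pos (lt126 u)).1 ?_
    rw [h]
    exact mul_pos (by exact_mod_cast hj) ((fl_pos (lt126 s)).2 hs)
theorem conj_cent_Q {c q : Γ} (hc : c ∈ G) (h : Commute c (xr 125)) (hq : q ∈ Q) : c * q * c⁻¹ ∈ Q := by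
  obtain ⟨q0, h0, l, hl, rfl⟩ := cent_x hc h
  rw [show q0 * l * q * (q0 * l)⁻¹ = q0 * (l * q * l⁻¹) * q0⁻¹ by group]
  exact mul_mem (mul_mem h0 (conj_L0_Q hl hq)) (inv_mem h0)
theorem Q_raise {q : Γ} (hq : q ∈ Q) {k : ℤ} {v : V} (hv : v ∈ Fl c1 k) : q.val *ᵥ v - v ∈ Fl c1 (k + 1) :=
  raise (by decide) (fun _ hr h => (fl_pos hr).2 h) hq hv
theorem L0_pr {l : Γ} (hl : l ∈ L0) (k : ℤ) (v : V) : pr c1 k (l.val *ᵥ v) = l.val *ᵥ pr c1 k v :=
  pr_comm (fun _ hr h => (fl_zero hr).2 h) hl k v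
theorem Fl_two {v : V} (hv : v ∈ Fl c1 2) : v = β v (er 0) • er 125 := by
  rw [β_er' v (by omega)]
  funext a
  rcases a with i | s
  · rw [hv _ (by rw [lv_inl]; decide), Pi.smul_apply]
    exact (smul_zero _).symm
  · rw [Pi.smul_apply, er_apply, smul_eq_mul]
    split_ifs with e
    · rw [mul_one]
      exact congrArg (fun s => v (Sum.inr s)) (Fin.ext e)
    · rw [mul_zero]
      refine hv _ ?_
      have := lt126 s
      rw [lv_inr, fl_c1 s this]
      split_ifs <;> omega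
theorem lam_one : lam 1 = 0 := by rw [lam_eq, one_mulVec', pr_er0]
theorem lam_mul {q q' : Γ} (hq : q ∈ Q) (hq' : q' ∈ Q) : lam (q * q') = lam q + lam q' := by
  have h1 := Q_raise hq' er0_mem
  have h2 := pr_eq_zero (Q_raise hq h1) (show (-1 : ℤ) < -2 + 1 + 1 by decide)
  rw [Matrix.mulVec_sub, map_sub, map_sub, map_sub, pr_er0, sub_zero, sub_sub, sub_eq_zero] at h2
  rw [lam_eq, mul_mulVec, h2, lam_eq, lam_eq]
theorem lam_inv {q : Γ} (hq : q ∈ Q) : lam q⁻¹ = lam q := by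
  have h := lam_mul hq (inv_mem hq)
  rw [mul_inv_cancel, lam_one] at h
  rw [← neg_eq' (lam q)]
  exact eq_neg_of_add_eq_zero_right h.symm
theorem lam_x : lam (xr 125) = 0 := by
  have h : (xr 125).val *ᵥ er 0 - er 0 ∈ Fl c1 (-2 + 2) :=
    raise (p := fun r => r = 125) (by decide)
      (fun r hr h => by rw [h, fl_c1 125 (by omega)]; decide) (xr_mem_XN rfl) er0_mem
  have h2 := pr_eq_zero h (show (-1 : ℤ) < -2 + 2 by decide)
  rwa [map_sub, pr_er0, sub_zero] at h2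
theorem lam_xr {r : ℕ} (h1 : 93 ≤ r) (h2 : r ≤ 124) : lam (xr r) = er (r - 92) := by
  have h : ∀ r < 125, 93 ≤ r → D.actE r (7 + 0) = [(7 + 0, 0), (7 + (r - 92), 1)] := by decide +kernel
  rw [lam_eq, er_bas 0, act, h r (by omega) h1]
  simp only [List.map_cons, List.map_nil, List.sum_cons, List.sum_nil, add_zero (er _), ← er_bas]
  rw [map_add, pr_er0, zero_add, pr_ers (by omega) (by omega)]
theorem lam_wd {l : List ℕ} (h : ∀ r ∈ l, 93 ≤ r ∧ r ≤ 124) : lam (wd l) = (l.map fun r => er (r - 92)).sum := by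
  induction l with
  | nil => exact lam_one
  | cons r l ih =>
    have h1 := h r List.mem_cons_self
    have h2 : ∀ s ∈ l, 93 ≤ s ∧ s ≤ 124 := fun s hs => h s (List.mem_cons_of_mem _ hs)
    rw [List.map_cons, List.sum_cons, ← ih h2, ← lam_xr h1.1 h1.2,
      ← lam_mul (xr_mem_XN h1.1) (wd_mem_XN fun s hs => (h2 s hs).1)]
    rfl
theorem x_er {r : ℕ} (h1 : 93 ≤ r) (h2 : r ≤ 124) : (xr 125).val *ᵥ er (r - 92) = er (r - 92) + er r := by
  have h : ∀ r < 125, 93 ≤ r → D.actE 125 (7 + (r - 92)) = [(7 + (r - 92), 0), (7 + r, 1)] := by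
    decide +kernel
  rw [er_bas (r - 92), act, h r (by omega) h1]
  simp only [List.map_cons, List.map_nil, List.sum_cons, List.sum_nil, add_zero (er _), ← er_bas]
theorem eq_of_lam {q : Γ} (hq : q ∈ Q) (h : lam q = 0) : q = 1 ∨ q = xr 125 := by
  refine or_iff_not_imp_left.2 fun h1 => ?_
  have hcl : Closed {r : D.Rt | 93 ≤ (r : ℕ)} := fun r hr s hs u i j hi hj e => by
    have h := congrArg (D.dotF fun i => c1.getD i 0) e
    rw [map_add, map_zsmul, map_zsmul, D.dotF_wt, D.dotF_wt, D.dotF_wt, smul_eq_mul, smul_eq_mul] at h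
    refine (fl_pos (lt126 u)).1 ?_
    rw [h]
    exact add_pos (mul_pos (by exact_mod_cast hi) ((fl_pos (lt126 r)).2 hr))
      (mul_pos (by exact_mod_cast hj) ((fl_pos (lt126 s)).2 hs))
  have hpos : ∀ r ∈ {r : D.Rt | 93 ≤ (r : ℕ)}, D.IsPosRoot r := fun r hr => by
    rw [pos_iff]
    change 93 ≤ (r : ℕ) at hr
    omega
  obtain ⟨r, hr, c, hc, z, hz, rfl⟩ := exists_min_root hcl hpos hq h1
  obtain rfl : c = 1 := (F_cases c).resolve_left hc
  change 93 ≤ (r : ℕ) at hr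
  have hr' := lt126 r
  by_cases e : (r : ℕ) = 125
  · have : D.XS F {s | s ∈ {r : D.Rt | 93 ≤ (r : ℕ)} ∧ r < s} ≤ ⊥ := XS_le_iff.2 fun s hs => by
      have h2 : (r : ℕ) < s := hs.2
      have := lt126 s
      omega
    rw [Subgroup.mem_bot.1 (this hz), mul_one, e]
  exfalso
  have hzQ : z ∈ Q := XS_mono' (fun s hs => hs.1) hz
  rw [lam_mul (xr_mem_XN hr) hzQ, lam_xr hr (by omega)] at h
  have h2 := congrFun h (Sum.inr (mkR (r - 92) (by omega)))
  rw [Pi.add_apply, er_apply, if_pos rfl, lam_eq, pr_apply, lv_inr,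
    if_pos ((fl_neg (r := r - 92) (by omega)).2 ⟨by omega, by omega⟩),
    show er 0 = D.eN F (mkR 0 (by omega)) from rfl, eN_eq_single, Matrix.mulVec_single_one,
    Matrix.col_apply, XS_entry_eq_zero hz, add_zero] at h2
  · exact one_ne_zero h2
  · have hw : ∀ r < 125, 93 ≤ r → ∀ i < 7, D.cartan i (r - 92) - D.cartan i 0 = D.cartan i r := by
      decide +kernel
    have e2 : D.wtI (Sum.inr (mkR (r - 92) (by omega))) - D.wtI (Sum.inr (mkR 0 (by omega))) = D.wt r :=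
      funext fun i => hw r (by omega) hr i (lt7 i)
    rw [e2]
    intro hm
    have h3 := (D.isPos_iff_ht r).1 (hpos r hr)
    rcases D.cone_le D.ht (m := D.ht (D.wt r) + 1) (by omega)
      (fun s hs => D.ht_lt_iff.2 hs.2) hm with h4 | h4
    · exact D.wt_ne_zero r h4
    · omega
theorem lam_conj_L0 {l q : Γ} (hl : l ∈ L0) : lam (l * q * l⁻¹) = l.val *ᵥ lam q := by
  rw [lam_eq, mul_mulVec, L0_er0 (inv_mem hl), mul_mulVec, L0_pr hl, lam_eq]
theorem G1_eq : G1 = Submodule.span F {v | ∃ s, 1 ≤ s ∧ s ≤ 32 ∧ v = er s} := by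
  refine le_antisymm (fun v hv => ?_) (Submodule.span_le.2 ?_)
  · rw [pi_eq_sum_univ' v]
    refine Submodule.sum_mem _ fun a _ => ?_
    by_cases h : v a = 0
    · rw [h, zero_smul]
      exact zero_mem _
    refine Submodule.smul_mem _ _ (Submodule.subset_span ?_)
    rw [← mem_G1.1 hv, pr_apply] at h
    have h1 : lv c1 a = -1 := of_not_not fun e => h (if_neg e)
    rcases a with i | s
    · rw [lv_inl] at h1
      omega
    · rw [lv_inr, fl_neg (lt126 s)] at h1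
      exact ⟨s, h1.1, h1.2, (D.eN_eq_single F s).symm⟩
  · rintro _ ⟨s, h1, h2, rfl⟩
    exact mem_G1.2 (pr_ers h1 h2)
theorem L0_G1 {l : Γ} (hl : l ∈ L0) {v : V} (hv : v ∈ G1) : l.val *ᵥ v ∈ G1 := by
  rw [mem_G1, L0_pr hl, mem_G1.1 hv]
theorem Bq_inv {l : Γ} (hl : l ∈ L0) (v w : V) : Bq (l.val *ᵥ v) (l.val *ᵥ w) = Bq v w := by
  rw [Bq_apply, Bq_apply, ← mul_mulVec, ← (commute_x_L0 hl).eq, mul_mulVec, β_inv (L0_le_G hl)]
theorem Bq_nondeg {v : V} (hv : v ∈ G1) (h : ∀ w ∈ G1, Bq w v = 0) : v = 0 := by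
  have h0 : ∀ a, lv c1 a ≠ -1 → v a = 0 := fun a ha => by rw [← mem_G1.1 hv, pr_apply, if_neg ha]
  funext a
  by_cases ha : lv c1 a = -1
  swap
  · exact h0 a ha
  rcases a with i | s
  · rw [lv_inl] at ha
    omega
  rw [lv_inr, fl_neg (lt126 s)] at ha
  have h1 := h (er (125 - s - 92)) (mem_G1.2 (pr_ers (by omega) (by omega)))
  rw [Bq_symm, Bq_apply, x_er (by omega) (by omega), map_add, β_er' v (by omega), β_er' v (by omega),
    h0 _ (by rw [lv_inr, Ne, fl_neg (lt126 _)]; change ¬ (1 ≤ 125 - _ ∧ 125 - _ ≤ 32); omega),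
    zero_add] at h1
  rw [Pi.zero_apply, ← h1]
  exact congrArg (fun s => v (Sum.inr s)) (Fin.ext (by change (s : ℕ) = 125 - (125 - s); omega))
theorem exists_isW (M : Subgroup Γ) : ∃ W, IsW M W := by
  refine ⟨{ carrier := {v | ∃ q ∈ M, q ∈ Q ∧ lam q = v}
            zero_mem' := ⟨1, one_mem _, one_mem _, lam_one⟩
            add_mem' := ?_
            smul_mem' := ?_ }, fun v => Iff.rfl⟩
  · rintro _ _ ⟨q, h1, h2, rfl⟩ ⟨q', h1', h2', rfl⟩
    exact ⟨q * q', mul_mem h1 h1', mul_mem h2 h2', lam_mul h2 h2'⟩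
  · intro c v hv
    rcases F_cases c with rfl | rfl
    · rw [zero_smul]
      exact ⟨1, one_mem _, one_mem _, lam_one⟩
    · rwa [one_smul]
theorem IsW.le {M : Subgroup Γ} {W : Submodule F V} (h : IsW M W) : W ≤ G1 := fun v hv => by
  obtain ⟨q, -, -, rfl⟩ := (h v).1 hv
  exact lam_mem q
theorem IsW.inv {M : Subgroup Γ} {W : Submodule F V} (h : IsW M W) {l : Γ} (hl : l ∈ L0) (hM : l ∈ M) {v : V}
    (hv : v ∈ W) : l.val *ᵥ v ∈ W := by
  obtain ⟨q, h1, h2, rfl⟩ := (h v).1 hv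
  exact (h _).2 ⟨_, mul_mem (mul_mem hM h1) (inv_mem hM), conj_L0_Q hl h2, lam_conj_L0 hl⟩
theorem IsW.Q_le {M : Subgroup Γ} (h : IsW M G1) (hx : xr 125 ∈ M) : Q ≤ M := by
  refine XN_le_iff.2 fun r _ hr => ?_
  obtain ⟨q, h1, h2, e⟩ := (h _).1 (lam_mem (xr r))
  have h3 : xr r ∈ Q := xr_mem_XN hr
  have h4 : lam (q⁻¹ * xr r) = 0 := by rw [lam_mul (inv_mem h2) h3, lam_inv h2, e, add_self]
  rcases eq_of_lam (mul_mem (inv_mem h2) h3) h4 with h5 | h5
  · rw [inv_mul_eq_one] at h5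
    exact h5 ▸ h1
  · rw [inv_mul_eq_iff_eq_mul] at h5
    rw [h5]
    exact mul_mem h1 hx

end Cfsg.Agent.E72
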