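import Mathlib
import Cfsg.Agent.E72.Qth

set_option autoImplicit false

namespace Cfsg.Agent.E72

open Cfsg.Lie Cfsg.Lie.ChevalleyDatum Cfsg.Agent.Chev Cfsg.Agent.Chev.Chk
open scoped Matrix

namespace Key

theorem hθ_pr : pr c1 0 hθ = hθ := by
  funext a
  rcases a with i | s
  · rw [pr_apply, lv_inl, if_pos rfl]
  · rw [pr_apply]
    split_ifs
    · rfl
    · rw [hθ_eq]
      exact (add_zero _).symm.trans (congrArg₂ (· + ·) (add_zero _).symm rfl)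

theorem pr_x {q : Γ} (hq : q ∈ Q) :
    pr c1 0 ((xr 125 * q).val *ᵥ er 0) = pr c1 0 (q.val *ᵥ er 0) + hθ := by
  have h1 := Q_raise hq Qth.er0_mem
  have h2 : (xr 125).val *ᵥ (q.val *ᵥ er 0 - er 0) - (q.val *ᵥ er 0 - er 0) ∈ Fl c1 (-2 + 1 + 2) :=
    raise (p := fun r => r = 125) (by decide)
      (fun r hr h => by rw [h, fl_c1 125 (by omega)]; decide) (xr_mem_XN rfl) h1
  have h3 := pr_eq_zero h2 (show (0 : ℤ) < -2 + 1 + 2 by decide)
  have h4 : pr c1 0 (er 125) = 0 := by rw [pr_er, fl_c1 125 (by omega), if_neg (by decide)]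
  rw [Matrix.mulVec_sub, Qth.x_er0, map_sub, map_sub, map_sub, map_add, map_add, hθ_pr, h4,
    sub_eq_zero, sub_eq_iff_eq_add] at h3
  rw [mul_mulVec, h3]
  abel

theorem tst_x {q : Γ} (hq : q ∈ Q) (h : Tst (q.val *ᵥ er 0)) : Tst ((xr 125 * q).val *ᵥ er 0) := by
  rcases h with h | h
  · right
    rw [pr_x hq, h, zero_add]
  · left
    rw [pr_x hq, h, add_self]

theorem pure_map {l : Γ} (hl : l ∈ L0) {v : V} (h : Pure v) : Pure (l.val *ᵥ v) := by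
  obtain ⟨q, hq, rfl, ht⟩ := h
  refine ⟨_, conj_L0_Q hl hq, lam_conj_L0 hl, ?_⟩
  rw [mul_mulVec, L0_er0 (inv_mem hl), mul_mulVec]
  rcases ht with h | h
  · left
    rw [L0_pr hl, h, Matrix.mulVec_zero]
  · right
    rw [L0_pr hl, h, L0_hθ hl]

theorem mem_map {l : Γ} {W : Submodule F V} {v : V} :
    v ∈ W.map (Matrix.toLin' l.val) ↔ (l⁻¹).val *ᵥ v ∈ W := by
  constructor
  · rintro ⟨w, hw, rfl⟩
    rwa [Matrix.toLin'_apply, inv_mulVec]
  · exact fun h => ⟨_, h, by rw [Matrix.toLin'_apply, mulVec_inv]⟩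

theorem inj (l : Γ) : Function.Injective (Matrix.toLin' l.val) := fun v w h => by
  rw [Matrix.toLin'_apply, Matrix.toLin'_apply] at h
  rw [← inv_mulVec l v, h, inv_mulVec]

theorem cnt_map {l : Γ} (hl : l ∈ L0) (W : Submodule F V) :
    cnt (W.map (Matrix.toLin' l.val)) = cnt W := by
  rw [cnt_eq, cnt_eq, ← Set.ncard_image_of_injective {v | v ∈ W ∧ Pure v} (inj l)]
  congr 1
  ext v
  constructor
  · rintro ⟨h1, h2⟩
    exact ⟨_, ⟨mem_map.1 h1, pure_map (inv_mem hl) h2⟩, by rw [Matrix.toLin'_apply, mulVec_inv]⟩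
  · rintro ⟨w, ⟨h1, h2⟩, rfl⟩
    exact ⟨⟨w, h1, rfl⟩, pure_map hl h2⟩

theorem perp_map {l : Γ} (hl : l ∈ L0) (W : Submodule F V) :
    perp (W.map (Matrix.toLin' l.val)) = (perp W).map (Matrix.toLin' l.val) := by
  ext v
  rw [mem_map, mem_perp, mem_perp]
  constructor
  · rintro ⟨h1, h2⟩
    refine ⟨L0_G1 (inv_mem hl) h1, fun w hw => ?_⟩
    rw [← Bq_inv hl, mulVec_inv]
    exact h2 _ ⟨w, hw, rfl⟩
  · rintro ⟨h1, h2⟩
    refine ⟨mulVec_inv l v ▸ L0_G1 hl h1, fun w hw => ?_⟩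
    rw [← Bq_inv (inv_mem hl)]
    exact h2 _ (mem_map.1 hw)

theorem key_map' {l : Γ} (hl : l ∈ L0) (W : Submodule F V) :
    key (W.map (Matrix.toLin' l.val)) = key W := by
  have h : Module.finrank F (W.map (Matrix.toLin' l.val)) = Module.finrank F W :=
    (LinearEquiv.finrank_eq (Submodule.equivMapOfInjective _ (inj l) W)).symm
  rw [key_eq, key_eq, h, perp_map hl, cnt_map hl, cnt_map hl]

end Key

open Key

theorem pure_iff {q : Γ} (hq : q ∈ Q) : Pure (lam q) ↔ Tst (q.val *ᵥ er 0) := by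
  refine ⟨?_, fun h => ⟨q, hq, rfl, h⟩⟩
  rintro ⟨q', hq', e, ht⟩
  have h4 : lam (q * q'⁻¹) = 0 := by rw [lam_mul hq (inv_mem hq'), lam_inv hq', e, add_self]
  rcases eq_of_lam (mul_mem hq (inv_mem hq')) h4 with h5 | h5
  · rw [mul_inv_eq_one] at h5
    exact h5 ▸ ht
  · rw [mul_inv_eq_iff_eq_mul] at h5
    rw [h5]
    exact tst_x hq' ht
theorem key_map {l : Γ} (hl : l ∈ L0) {W : Submodule F V} (hW : W ≤ G1) :
    key (W.map (Matrix.toLin' l.val)) = key W := (fun _ => key_map' hl W) hW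
theorem key_eq_of_conj {M M' : Subgroup Γ} {W W' : Submodule F V} {c : Γ} (hc : c ∈ G) (hcx : Commute c (xr 125))
    (hM : ∀ a, a ∈ M' ↔ c * a * c⁻¹ ∈ M) (h : IsW M W) (h' : IsW M' W') : key W = key W' := by
  obtain ⟨q0, h0, l, hl, e⟩ := cent_x hc hcx
  have key1 : ∀ q ∈ Q, lam (c * q * c⁻¹) = l.val *ᵥ lam q := fun q hq => by
    have h1 := conj_L0_Q hl hq
    rw [e, show q0 * l * q * (q0 * l)⁻¹ = q0 * (l * q * l⁻¹ * q0⁻¹) by group,
      lam_mul h0 (mul_mem h1 (inv_mem h0)), lam_mul h1 (inv_mem h0), lam_inv h0, lam_conj_L0 hl,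
      add_comm, add_assoc, add_self, add_zero]
  have e2 : W = W'.map (Matrix.toLin' l.val) := by
    ext v
    rw [h v]
    constructor
    · rintro ⟨q, h1, h2, rfl⟩
      have h3 : c⁻¹ * q * c⁻¹⁻¹ ∈ Q := conj_cent_Q (inv_mem hc) hcx.inv_left h2
      have h4 : c * (c⁻¹ * q * c⁻¹⁻¹) * c⁻¹ = q := by group
      exact ⟨_, (h' _).2 ⟨_, (hM _).2 (h4.symm ▸ h1), h3, rfl⟩, by
        rw [Matrix.toLin'_apply, ← key1 _ h3, h4]⟩
    · rintro ⟨w, hw, rfl⟩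
      obtain ⟨q, h1, h2, rfl⟩ := (h' w).1 hw
      exact ⟨_, (hM q).1 h1, conj_cent_Q hc hcx h2, key1 q h2⟩
  rw [e2, key_map' hl]

end Cfsg.Agent.E72
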