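import Mathlib
import Cfsg.Agent.E72.Defs
import Cfsg.Agent.E72.Tab

/-!
`E₇(2)`: computing with bit vectors.
-/

set_option autoImplicit false

namespace Cfsg.Agent.E72

open Cfsg.Lie Cfsg.Lie.ChevalleyDatum Cfsg.Agent.Chev Cfsg.Agent.Chev.Chk
open scoped Matrix

/-- A bit. -/
def tb (v k : ℕ) : ℕ := Nat.land (Nat.shiftRight v k) 1
/-- Selection by a number. -/
noncomputable def sel {α : Type} (n : ℕ) (a b : α) : α := Nat.rec a (fun _ _ => b) n
/-- Sparse action. -/
noncomputable def appT (T : List (ℕ × ℕ)) (v : ℕ) : ℕ :=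
  List.rec v (fun p _ ih => sel (tb v p.1) ih (Nat.xor ih p.2)) T
/-- Map. -/
noncomputable def mp (f : ℕ → ℕ) (L : List ℕ) : List ℕ := List.rec [] (fun a _ ih => f a :: ih) L
/-- The table of a root involution. -/
def tab (r : ℕ) : List (ℕ × ℕ) := Tab.tabs.getD r []
/-- A word acting on a vector. -/
noncomputable def wordV (w : List ℕ) (v : ℕ) : ℕ := List.rec v (fun r _ ih => force ih (appT (tab r))) w
/-- The keys are in range. -/
noncomputable def keysOK (T : List (ℕ × ℕ)) : Bool := allL T fun p => Nat.ble 64 p.1 && Nat.ble p.1 196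
/-- A table agrees with a word. -/
noncomputable def matChk (w : List ℕ) (T : List (ℕ × ℕ)) : Bool :=
  keysOK T && allLt 133 fun k => force (sbit k) fun v => Nat.beq (appT T v) (wordV w v)
/-- Dot product. -/
noncomputable def dotB (a b : ℕ) : ℕ :=
  force (Nat.land a b) fun x => Nat.rec 0 (fun k ih => Nat.add ih (tb x (k + 64))) 133
/-- The invariant form. -/
noncomputable def bb (a b : ℕ) : ℕ := force b fun b => dotB a (appT Tab.tB b) % 2
/-- The symplectic form. -/
noncomputable def bq (a b : ℕ) : ℕ := force b fun b => bb a (appT (tab 125) b)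
/-- Evaluating a list of pairs. -/
noncomputable def fB {α : Type} (B : List (ℕ × ℕ)) (f : List (ℕ × ℕ) → α) : α :=
  List.rec (f []) (fun p t _ => f (p :: t)) B
/-- All of `L'` lie in the span of `L`. -/
noncomputable def subChk (L' L : List ℕ) : Bool :=
  fB (gauss L []) fun B => allL L' fun v => force v fun v => Nat.beq (gred B v) 0
/-- The rank. -/
noncomputable def rk (L : List ℕ) (k : ℕ) : Bool :=
  fB (gauss L []).reverse fun B => triChk 133 B && Nat.beq B.length k
/-- Spinning. -/
noncomputable def spin (Ts : List (List (ℕ × ℕ))) (st : List (ℕ × ℕ)) : List ℕ → List ℕ :=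
  List.rec (fun L => L) (fun p _ ih L => force (L.getD p.2 0) fun v =>
    force (appT (Ts.getD p.1 []) v) fun x => ih (x :: L)) st
/-- The level of a basis vector. -/
def lvN (c : List ℤ) (k : ℕ) : ℤ := if k < 7 then 0 else D.fl c (k - 7)
/-- The span of a list. -/
def spn (L : List ℕ) : Submodule F V := Submodule.span F {v | ∃ m ∈ L, v = vc m}
/-- The table computes the map. -/
def IsT (f : V → V) (T : List (ℕ × ℕ)) : Prop := ∀ v, vc (appT T v) = f (vc v)

theorem dim_eq : D.rank + D.nroots = 133 := by rw [rank_eq, nroots_eq]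
theorem enc_lt' (a : D.Idx) : D.enc a < 133 := dim_eq ▸ enc_lt a
theorem tb_eq (v k : ℕ) : tb v k = (v.testBit k).toNat := by
  rw [Nat.toNat_testBit, ← Nat.shiftRight_eq_div_pow]; exact Nat.and_one_is_mod _
theorem sel_tb {α : Type} (v k : ℕ) (a b : α) : sel (tb v k) a b = if v.testBit k then b else a := by
  rw [tb_eq]; cases v.testBit k <;> rfl
theorem sel_zero {α : Type} (a b : α) : sel 0 a b = a := rfl
theorem sel_succ {α : Type} (n : ℕ) (a b : α) : sel (n + 1) a b = b := rfl
theorem appT_nil (v : ℕ) : appT [] v = v := rfl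
theorem appT_cons (p : ℕ × ℕ) (T : List (ℕ × ℕ)) (v : ℕ) :
    appT (p :: T) v = if v.testBit p.1 then Nat.xor (appT T v) p.2 else appT T v := sel_tb _ _ _ _
theorem mp_eq (f : ℕ → ℕ) (L : List ℕ) : mp f L = L.map f := by
  induction L with
  | nil => rfl
  | cons a L ih => exact congrArg (f a :: ·) ih
theorem fB_eq {α : Type} (B : List (ℕ × ℕ)) (f : List (ℕ × ℕ) → α) : fB B f = f B := by cases B <;> rfl
theorem vc_apply (m : ℕ) (a : D.Idx) : vc m a = if m.testBit (D.enc a + 64) then 1 else 0 := rfl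
theorem vc_xor (a b : ℕ) : vc (Nat.xor a b) = vc a + vc b := vec_xor a b
theorem vc_zero : vc 0 = 0 := vec_zero
theorem vc_er (r : ℕ) : vc (sbit (7 + r)) = er r := by rw [vc, vec_sbit, ← rank_eq, bas_add]
theorem vc_sel (n a : ℕ) (hn : n < 2) : vc (sel n 0 a) = (n : F) • vc a := by
  interval_cases n
  · simp [sel_zero, vc_zero]
  · simp [sel_succ]
theorem spn_eq (L : List ℕ) : spn L = Submodule.span F {v | ∃ m ∈ L, v = vc m} := rfl
theorem mem_spn {L : List ℕ} {m : ℕ} (h : m ∈ L) : vc m ∈ spn L := Submodule.subset_span ⟨m, h, rfl⟩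
theorem spn_le {L : List ℕ} {U : Submodule F V} : spn L ≤ U ↔ ∀ m ∈ L, vc m ∈ U :=
  ⟨fun h _ hm => h (mem_spn hm), fun h => Submodule.span_le.2 (by rintro _ ⟨m, hm, rfl⟩; exact h m hm)⟩
theorem spn_nil : spn [] = ⊥ := le_bot_iff.1 (spn_le.2 (by simp))
theorem spn_append (L L' : List ℕ) : spn (L ++ L') = spn L ⊔ spn L' :=
  le_antisymm (spn_le.2 fun _ hm => (List.mem_append.1 hm).elim (fun h => Submodule.mem_sup_left (mem_spn h))
    fun h => Submodule.mem_sup_right (mem_spn h))
    (sup_le (spn_le.2 fun _ h => mem_spn (List.mem_append_left _ h))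
      (spn_le.2 fun _ h => mem_spn (List.mem_append_right _ h)))
theorem spn_cons (m : ℕ) (L : List ℕ) : spn (m :: L) = spn L ⊔ Submodule.span F {vc m} := by
  rw [spn, spn, ← Submodule.span_union]; congr 1; ext v; simp
theorem finrank_spn_le (L : List ℕ) : Module.finrank F (spn L) ≤ L.length := by
  induction L with
  | nil => rw [spn_nil]; simp
  | cons m L ih =>
    rw [spn_cons]
    refine (Submodule.finrank_add_le_finrank_add_finrank _ _).trans (Nat.add_le_add ih ?_)
    exact (finrank_span_le_card _).trans (by simp)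
theorem spn_map (f : V →ₗ[F] V) {g : ℕ → ℕ} {L : List ℕ} (h : ∀ m ∈ L, vc (g m) = f (vc m)) :
    (spn L).map f = spn (L.map g) := by
  rw [spn, spn, Submodule.map_span]; congr 1; ext v
  simp only [Set.mem_image, Set.mem_ofPred_eq, List.mem_map]
  exact ⟨by rintro ⟨_, ⟨m, hm, rfl⟩, rfl⟩; exact ⟨_, ⟨m, hm, rfl⟩, (h m hm).symm⟩,
    by rintro ⟨_, ⟨m, hm, rfl⟩, rfl⟩; exact ⟨_, ⟨m, hm, rfl⟩, (h m hm).symm⟩⟩

theorem spn_gauss (L : List ℕ) : Submodule.span F {v | ∃ p ∈ gauss L [], v = vc p.2} = spn L := by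
  rw [span_gauss, spn]; simp

theorem le_of_subChk {L' L : List ℕ} (h : subChk L' L = true) : spn L' ≤ spn L := by
  simp only [subChk, fB_eq, allL_iff, force_eq, Nat.beq_eq] at h
  refine spn_le.2 fun m hm => ?_
  have := vec_gred (D := D) (F := F) (gauss L []) m
  rwa [h m hm, vec_zero, zero_sub, neg_mem_iff, spn_gauss] at this

theorem finrank_of_rk {L : List ℕ} {k : ℕ} (h : rk L k = true) : Module.finrank F (spn L) = k := by
  simp only [rk, fB_eq, Bool.and_eq_true, Nat.beq_eq] at h
  rw [← h.2, ← finrank_of_triChk (D := D) (F := F) (dim_eq ▸ h.1), ← spn_gauss,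
    show {v | ∃ p ∈ (gauss L []).reverse, v = D.vec F p.2} = {v | ∃ p ∈ gauss L [], v = vc p.2} by ext v; simp]

theorem exists_lin {T : List (ℕ × ℕ)} (h : keysOK T = true) : ∃ f : V →ₗ[F] V, IsT f T := by
  induction T with
  | nil => exact ⟨LinearMap.id, fun _ => rfl⟩
  | cons p T ih =>
    simp only [keysOK, allL_iff, List.forall_mem_cons, Bool.and_eq_true, Nat.ble_eq] at h ih
    obtain ⟨f, hf⟩ := ih h.2
    obtain ⟨a, ha⟩ := exists_enc (D := D) (k := p.1 - 64) (by rw [dim_eq]; omega)
    refine ⟨f + (LinearMap.proj a).smulRight (vc p.2), fun v => ?_⟩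
    rw [appT_cons, LinearMap.add_apply, LinearMap.smulRight_apply, LinearMap.proj_apply, vc_apply, ← hf,
      show D.enc a + 64 = p.1 by omega]
    split_ifs
    · rw [vc_xor, one_smul]
    · rw [zero_smul, add_zero]

theorem isT_of_basis {T : List (ℕ × ℕ)} (h : keysOK T = true) {g : Matrix D.Idx D.Idx F}
    (hg : ∀ k < 133, vc (appT T (sbit k)) = g *ᵥ D.bas F k) : IsT (g *ᵥ ·) T := by
  obtain ⟨f, hf⟩ := exists_lin h
  have : f = Matrix.toLin' g := LinearMap.pi_ext' fun a => LinearMap.ext_ring (by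
    have := hg _ (enc_lt' a)
    rw [hf, vc, vec_sbit, bas_enc] at this
    simpa using this)
  intro v; rw [hf, this, Matrix.toLin'_apply]

/-- Checking the tables. -/
noncomputable def tabChk (a : ℕ) : Bool := allLt 21 fun r => force (21 * a + r) fun r => keysOK (tab r) &&
  allLt 133 fun k => force k fun k => force (sbit k) fun v =>
    Nat.beq (appT (tab r) v) (mask ((D.actE r k).map Prod.fst))

theorem tabChk0 : tabChk 0 = true := by decide +kernel
theorem tabChk1 : tabChk 1 = true := by decide +kernel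
theorem tabChk2 : tabChk 2 = true := by decide +kernel
theorem tabChk3 : tabChk 3 = true := by decide +kernel
theorem tabChk4 : tabChk 4 = true := by decide +kernel
theorem tabChk5 : tabChk 5 = true := by decide +kernel

theorem tab_chk {r : ℕ} (hr : r < 126) : keysOK (tab r) = true ∧
    ∀ k < 133, appT (tab r) (sbit k) = mask ((D.actE r k).map Prod.fst) := by
  have h : tabChk (r / 21) = true := by
    have : r / 21 < 6 := by omega
    interval_cases r / 21
    exacts [tabChk0, tabChk1, tabChk2, tabChk3, tabChk4, tabChk5]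
  simp only [tabChk, allLt_iff, force_eq, Bool.and_eq_true, Nat.beq_eq] at h
  simpa only [Nat.div_add_mod] using h (r % 21) (Nat.mod_lt _ (by decide))

theorem isT_tab (r : ℕ) : IsT ((xr r).val *ᵥ ·) (tab r) := by
  by_cases hr : r < 126
  · refine isT_of_basis (tab_chk hr).1 fun k hk => ?_
    rw [(tab_chk hr).2 k hk, vc, vec_mask, X_mulVec_bas, List.map_map]
    simp [Function.comp_def]
  · intro v
    rw [show xr r = 1 from D.X_of_not_lt F (nroots_eq ▸ hr) 1, tab, List.getD_eq_default _ _ (not_lt.1 hr)]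
    exact (one_mulVec' _).symm

theorem vc_wordV (w : List ℕ) (v : ℕ) : vc (wordV w v) = (wd w).val *ᵥ vc v := by
  induction w with
  | nil => exact (one_mulVec' _).symm
  | cons r w ih => rw [wd, word_cons, mul_mulVec, ← ih]; exact (congrArg vc (force_eq _ _)).trans (isT_tab r _)

theorem isT_of_matChk {w : List ℕ} {T : List (ℕ × ℕ)} (h : matChk w T = true) : IsT ((wd w).val *ᵥ ·) T := by
  simp only [matChk, allLt_iff, force_eq, Bool.and_eq_true, Nat.beq_eq] at h
  exact isT_of_basis h.1 fun k hk => by rw [h.2 k hk, vc_wordV, vc, vec_sbit]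

/-- Equality of group elements is checked on the basis. -/
theorem eq_of_basis {g h : Γ} (e : ∀ k < 133, g.val *ᵥ vc (sbit k) = h.val *ᵥ vc (sbit k)) : g = h := by
  refine Units.ext (Matrix.toLin'.injective (LinearMap.pi_ext' fun a => LinearMap.ext_ring ?_))
  have := e _ (enc_lt' a)
  rw [vc, vec_sbit, bas_enc] at this
  simpa using this

theorem isT_tB : IsT (D.Bm F *ᵥ ·) Tab.tB := by
  have h : (keysOK Tab.tB && allLt 133 fun k => Nat.beq (appT Tab.tB (sbit k)) (mask (D.dual k))) = true := by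
    decide +kernel
  simp only [allLt_iff, Bool.and_eq_true, Nat.beq_eq] at h
  refine isT_of_basis h.1 fun k hk => funext fun a => ?_
  rw [h.2 k hk, Bm_mulVec_bas, vc_apply, testBit_mask]
  rcases Nat.mod_two_eq_zero_or_one ((D.dual k).count (D.enc a)) with e | e
  · rw [(ZMod.natCast_eq_zero_iff_even).2 (Nat.even_iff.2 e)]; simp [e]
  · rw [(ZMod.natCast_eq_one_iff_odd).2 (Nat.odd_iff.2 e)]; simp [e]

theorem sum_enc (f : ℕ → F) : ∑ a : D.Idx, f (D.enc a) = ∑ k ∈ Finset.range 133, f k := by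
  rw [← dim_eq, Finset.sum_range_add, Fintype.sum_sum_type, ← Fin.sum_univ_eq_sum_range,
    ← Fin.sum_univ_eq_sum_range fun k => f (D.rank + k)]
  rfl

theorem dotB_eq (a b : ℕ) : (dotB a b : F) = vc a ⬝ᵥ vc b := by
  have key : ∀ (x n : ℕ), ((Nat.rec 0 (fun k ih => Nat.add ih (tb x (k + 64))) n : ℕ) : F) =
      ∑ k ∈ Finset.range n, if x.testBit (k + 64) then (1 : F) else 0 := fun x n => by
    induction n with
    | zero => simp
    | succ n ih =>
      rw [Finset.sum_range_succ, ← ih]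
      refine (Nat.cast_add _ _).trans (congrArg _ ?_)
      rw [tb_eq]; cases x.testBit (n + 64) <;> simp
  rw [dotB, force_eq, key, ← sum_enc fun k => if (Nat.land a b).testBit (k + 64) then (1 : F) else 0]
  refine Finset.sum_congr rfl fun i _ => ?_
  rw [show (Nat.land a b).testBit _ = _ from Nat.testBit_and a b _, vc_apply, vc_apply]
  cases a.testBit (D.enc i + 64) <;> cases b.testBit (D.enc i + 64) <;> simp

theorem bb_eq (a b : ℕ) : (bb a b : F) = β (vc a) (vc b) := by
  rw [bb, force_eq, ZMod.natCast_mod, dotB_eq, isT_tB, β_apply]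
theorem bb_lt (a b : ℕ) : bb a b < 2 := by rw [bb, force_eq]; exact Nat.mod_lt _ two_pos
theorem bq_eq (a b : ℕ) : (bq a b : F) = Bq (vc a) (vc b) := by rw [bq, force_eq, bb_eq, isT_tab, Bq_apply]
theorem bq_lt (a b : ℕ) : bq a b < 2 := by rw [bq, force_eq]; exact bb_lt _ _

theorem spin_le {Ts : List (List (ℕ × ℕ))} {U : Submodule F V} (h : ∀ T ∈ Ts, ∀ v, vc v ∈ U → vc (appT T v) ∈ U)
    (st : List (ℕ × ℕ)) {L : List ℕ} (hL : spn L ≤ U) : spn (spin Ts st L) ≤ U := by
  induction st generalizing L with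
  | nil => exact hL
  | cons p st ih =>
    rw [show spin Ts (p :: st) L = force (L.getD p.2 0) fun v => force (appT (Ts.getD p.1 []) v) fun x =>
      spin Ts st (x :: L) from rfl, force_eq, force_eq]
    have h1 : vc (L.getD p.2 0) ∈ U := by
      by_cases hp : p.2 < L.length
      · rw [List.getD_eq_getElem _ _ hp]; exact hL (mem_spn (List.getElem_mem hp))
      · rw [List.getD_eq_default _ _ (not_lt.1 hp), vc_zero]; exact zero_mem _
    refine ih (spn_le.2 (List.forall_mem_cons.2 ⟨?_, spn_le.1 hL⟩))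
    by_cases hp : p.1 < Ts.length
    · rw [List.getD_eq_getElem _ _ hp]; exact h _ (List.getElem_mem hp) _ h1
    · rw [List.getD_eq_default _ _ (not_lt.1 hp)]; exact h1

/-! ### Masks -/

theorem lv_eq (c : List ℤ) (a : D.Idx) : lv c a = lvN c (D.enc a) := by
  rcases a with i | r
  · rw [lv_inl, lvN, if_pos (show D.enc (Sum.inl i) < 7 from lt7 i)]
  · have e : D.enc (Sum.inr r) = 7 + r := by rw [← rank_eq]; rfl
    rw [lv_inr, lvN, e, if_neg (by omega), Nat.add_sub_cancel_left]

theorem vc_land (m M : ℕ) (a : D.Idx) : vc (Nat.land m M) a = if M.testBit (D.enc a + 64) then vc m a else 0 := by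
  rw [vc_apply, vc_apply, show (Nat.land m M).testBit _ = _ from Nat.testBit_and m M _]
  cases m.testBit (D.enc a + 64) <;> cases M.testBit (D.enc a + 64) <;> simp

theorem pr_vc {c : List ℤ} {k : ℤ} {M : ℕ} (h : ∀ j < 133, M.testBit (j + 64) = decide (lvN c j = k)) (m : ℕ) :
    pr c k (vc m) = vc (Nat.land m M) := funext fun a => by
  rw [pr_apply, vc_land, h _ (enc_lt' a), lv_eq]; simp

theorem vc_land_eq_iff {M : ℕ} (h1 : M < 2 ^ 197) (h2 : M % 2 ^ 64 = 0) (m m' : ℕ) :
    vc (Nat.land m M) = vc (Nat.land m' M) ↔ Nat.land m M = Nat.land m' M := by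
  refine ⟨fun h => Nat.eq_of_testBit_eq fun i => ?_, congrArg vc⟩
  by_cases hi : M.testBit i = true
  · have h3 : 64 ≤ i := by
      by_contra h3
      have := Nat.testBit_mod_two_pow M 64 i
      rw [h2, hi, decide_eq_true (not_le.1 h3)] at this
      simp at this
    have h4 : i < 197 := by
      by_contra h4
      rw [Nat.testBit_lt_two_pow (h1.trans_le (Nat.pow_le_pow_right two_pos (not_lt.1 h4)))] at hi
      exact absurd hi (by simp)
    obtain ⟨a, ha⟩ := exists_enc (D := D) (k := i - 64) (by rw [dim_eq]; omega)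
    have h5 := congrFun h a
    rw [vc_apply, vc_apply, show D.enc a + 64 = i by omega] at h5
    revert h5
    cases (Nat.land m M).testBit i <;> cases (Nat.land m' M).testBit i <;> simp
  · rw [show (Nat.land m M).testBit _ = _ from Nat.testBit_and m M _,
      show (Nat.land m' M).testBit _ = _ from Nat.testBit_and m' M _]
    simp [hi]

theorem vc_mem_Fl {c : List ℤ} {k : ℤ} {M : ℕ} (h : ∀ j < 133, M.testBit (j + 64) = decide (lvN c j < k))
    (h1 : M < 2 ^ 197) (h2 : M % 2 ^ 64 = 0) (m : ℕ) : vc m ∈ Fl c k ↔ Nat.land m M = 0 := by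
  rw [show (0 : ℕ) = Nat.land 0 M from (Nat.zero_and M).symm, ← vc_land_eq_iff h1 h2, funext_iff, mem_Fl]
  refine forall_congr' fun a => ?_
  rw [vc_land, vc_land, h _ (enc_lt' a), lv_eq, vc_zero]
  by_cases e : lvN c (D.enc a) < k <;> simp [e]

/-- The stabiliser of a subspace. -/
def stab (Y : Submodule F V) : Subgroup Γ where
  carrier := {g | ∀ v ∈ Y, g.val *ᵥ v ∈ Y}
  one_mem' v hv := by rwa [one_mulVec']
  mul_mem' ha hb v hv := by rw [mul_mulVec]; exact ha _ (hb v hv)
  inv_mem' {g} hg := by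
    have key : ∀ n : ℕ, ∀ v ∈ Y, (g ^ n).val *ᵥ v ∈ Y := fun n => by
      induction n with
      | zero => intro v hv; rwa [pow_zero, one_mulVec']
      | succ n ih => intro v hv; rw [pow_succ, mul_mulVec]; exact ih _ (hg v hv)
    rw [show g⁻¹ = g ^ (orderOf g - 1) from inv_eq_of_mul_eq_one_right (by
      rw [← pow_succ', Nat.sub_add_cancel (orderOf_pos g), pow_orderOf_eq_one])]
    exact key _

theorem mem_stab {Y : Submodule F V} {g : Γ} : g ∈ stab Y ↔ ∀ v ∈ Y, g.val *ᵥ v ∈ Y := Iff.rfl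

theorem mem_stab_spn {L : List ℕ} {g : Γ} {f : ℕ → ℕ} (hf : ∀ m, vc (f m) = g.val *ᵥ vc m)
    (h : spn (L.map f) ≤ spn L) : g ∈ stab (spn L) := fun v hv =>
  h (spn_map (Matrix.toLin' g.val) (g := f) (fun m _ => by rw [hf, Matrix.toLin'_apply]) ▸
    Submodule.mem_map.2 ⟨v, hv, Matrix.toLin'_apply _ _⟩)

end Cfsg.Agent.E72
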