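import Mathlib
import Cfsg.Agent.E72.Kit
import Cfsg.Agent.E72.Key
import Cfsg.Agent.E72.Gen

/-!
`E₇(2)`: from kernel checks to the data of a case.
-/

set_option autoImplicit false

namespace Cfsg.Agent.E72

open Cfsg.Lie Cfsg.Lie.ChevalleyDatum Cfsg.Agent.Chev Cfsg.Agent.Chev.Chk
open scoped Matrix

/-- Generators: words with their tables. -/
abbrev Gens : Type := List (List ℕ × List (ℕ × ℕ))
/-- The tables are correct. -/
def Valid (g : Gens) : Prop := ∀ p ∈ g, IsT ((wd p.1).val *ᵥ ·) p.2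
/-- The group generated. -/
def grp (g : Gens) : Subgroup Γ := Subgroup.closure {x | ∃ p ∈ g, x = wd p.1}
/-- The image of a word in the half-spin module. -/
noncomputable def lm (l : List ℕ) : ℕ := mask (l.map (· - 85))
/-- The letters are in a range. -/
noncomputable def okR (a b : ℕ) (L : List (List ℕ)) : Bool := allL L fun l => allL l fun r => Nat.ble a r && Nat.ble r b
/-- The basis of the half-spin module. -/
def g1L : List ℕ := (List.range 32).map fun s => sbit (7 + (s + 1))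
/-- A word in the generators. -/
noncomputable def appW (Ts : List (List (ℕ × ℕ))) (w : List ℕ) (v : ℕ) : ℕ :=
  List.rec v (fun i _ ih => force ih (appT (Ts.getD i []))) w
/-- A sum of words. -/
noncomputable def thetaA (Ts : List (List (ℕ × ℕ))) (ws : List (List ℕ)) (v : ℕ) : ℕ :=
  List.rec 0 (fun w _ ih => Nat.xor (appW Ts w v) ih) ws
/-- A polynomial in a table. -/
noncomputable def horner (T : List (ℕ × ℕ)) (p : List ℕ) (v : ℕ) : ℕ :=
  List.rec 0 (fun c _ ih => force ih fun r => Nat.xor (appT T r) (sel c 0 v)) p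
/-- The decomposition of the half-spin module. -/
noncomputable def decChk (CS EX : Gens) (qs bl bl' : List (List ℕ)) (st : List (ℕ × ℕ)) : Bool :=
  okR 33 92 (CS.map Prod.fst) && okR 93 124 (qs ++ bl ++ bl') && allL ([125] :: [0] :: qs) (EX.map Prod.fst).contains &&
  forceL (bl.map lm) fun W => forceL (bl'.map lm) fun W' => rk W bl.length && rk W' bl'.length &&
    subChk g1L (W ++ W') && (allL W fun a => allL W' fun b => Nat.beq (bq a b) 0) &&
    subChk W (spin (CS.map Prod.snd) st (qs.map lm))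
/-- The irreducibility test. -/
noncomputable def norChk (CS : Gens) (bl bl' ws : List (List ℕ)) (T : List (ℕ × ℕ)) (p : List ℕ) (v0 u0 : ℕ)
    (s1 s2 : List (ℕ × ℕ)) : Bool :=
  keysOK T && (allL g1L fun b => force b fun b => Nat.beq (appT T b) (thetaA (CS.map Prod.snd) ws b)) &&
  subChk (mp (fun b => force b fun b => Nat.xor (horner T p b) (sel (bq b u0) 0 v0)) g1L) (bl.map lm) &&
  subChk (bl'.map lm) (spin (CS.map Prod.snd) s1 [v0]) && subChk (bl'.map lm) (spin (CS.map Prod.snd) s2 [u0])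
/-- An invariant subspace. -/
noncomputable def proChk (g : Gens) (Y0 : List ℕ) (st : List (ℕ × ℕ)) (r : ℕ) : Bool :=
  forceL (spin (g.map Prod.snd) st Y0) fun Y => subChk (g.flatMap fun p => mp (appT p.2) Y) Y &&
    force (Y.getD 0 0) fun y => rk (appT (tab r) y :: Y) (Y.length + 1)
/-- The bound for the fixed space. -/
noncomputable def fixChk (g : Gens) (ks : List ℕ) (st : List (ℕ × ℕ)) : Bool :=
  rk (mp (appT Tab.tB) (spin (g.map Prod.snd) st
    (ks.map fun k => force (sbit k) fun v => Nat.xor (appT (tab 125) v) v))) 107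
/-- The bound for the span. -/
noncomputable def bigChk (g : Gens) (st : List (ℕ × ℕ)) : Bool := rk (spin (g.map Prod.snd) st [sbit (7 + 125)]) 27
/-- The mask of level zero. -/
def m10 : ℕ := 2 ^ 64 * (127 + 2 ^ 40 * (2 ^ 60 - 1))
/-- The test for pure spinors. -/
noncomputable def tstB (u : ℕ) : Bool := force (Nat.land u m10) fun x => Nat.beq x 0 || Nat.beq x (2 ^ 64 * 84)
/-- Counting pure spinors. -/
noncomputable def cntT (ls : List (List ℕ)) : ℕ → ℕ :=
  List.rec (fun u => cond (tstB u) 1 0) (fun l _ ih u => Nat.add (ih u) (force (wordV l u) ih)) ls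

theorem cntT_cons (l : List ℕ) (ls : List (List ℕ)) (u : ℕ) :
    cntT (l :: ls) u = cntT ls u + cntT ls (wordV l u) := congrArg (cntT ls u + ·) (force_eq _ _)

theorem okR_iff {a b : ℕ} {L : List (List ℕ)} : okR a b L = true ↔ ∀ l ∈ L, ∀ r ∈ l, a ≤ r ∧ r ≤ b := by
  simp only [okR, allL_iff, Bool.and_eq_true, Nat.ble_eq]

theorem mem_grp {g : Gens} {p : List ℕ × List (ℕ × ℕ)} (h : p ∈ g) : wd p.1 ∈ grp g := Subgroup.subset_closure ⟨p, h, rfl⟩
theorem grp_le {g : Gens} {K : Subgroup Γ} (h : ∀ p ∈ g, wd p.1 ∈ K) : grp g ≤ K :=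
  (Subgroup.closure_le _).2 (by rintro _ ⟨p, hp, rfl⟩; exact h p hp)
theorem grp_le_G (g : Gens) : grp g ≤ G := grp_le fun _ _ => word_mem_group _
theorem wd_single (r : ℕ) : wd [r] = xr r := by rw [wd, word_cons, word_nil, mul_one]
theorem isT_single (r : ℕ) : IsT ((wd [r]).val *ᵥ ·) (tab r) := wd_single r ▸ isT_tab r
theorem wd_mem_Q {l : List ℕ} (h : ∀ r ∈ l, 93 ≤ r ∧ r ≤ 124) : wd l ∈ Q := wd_mem_XN fun r hr => (h r hr).1

theorem vc_lm {l : List ℕ} (h : ∀ r ∈ l, 93 ≤ r ∧ r ≤ 124) : vc (lm l) = lam (wd l) := by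
  rw [lam_wd h, lm, vc, vec_mask, List.map_map]
  refine congrArg _ (List.map_congr_left fun r hr => ?_)
  rw [Function.comp, show r - 85 = D.rank + (r - 92) by have := h r hr; rw [rank_eq]; omega, bas_add]

theorem spn_g1L : spn g1L = G1 := by
  rw [G1_eq, spn_eq]; congr 1; ext v
  simp only [g1L, List.mem_map, List.mem_range, Set.mem_ofPred_eq]
  exact ⟨by rintro ⟨_, ⟨s, hs, rfl⟩, rfl⟩; exact ⟨s + 1, by omega, by omega, vc_er _⟩,
    by rintro ⟨s, h1, h2, rfl⟩; exact ⟨_, ⟨s - 1, by omega, rfl⟩, by rw [vc_er, Nat.sub_add_cancel h1]⟩⟩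

theorem Valid.spin_le {g : Gens} (hg : Valid g) {U : Submodule F V} (h : ∀ p ∈ g, wd p.1 ∈ stab U)
    (st : List (ℕ × ℕ)) {L : List ℕ} (hL : spn L ≤ U) : spn (spin (g.map Prod.snd) st L) ≤ U :=
  E72.spin_le (fun T hT v hv => by
    obtain ⟨p, hp, rfl⟩ := List.mem_map.1 hT
    rw [hg p hp]; exact h p hp _ hv) st hL

theorem Valid.left {g g' : Gens} (h : Valid (g ++ g')) : Valid g := fun p hp => h p (List.mem_append_left _ hp)

theorem vc_getD_mem (L : List ℕ) (i : ℕ) : vc (L.getD i 0) ∈ spn L := by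
  by_cases hp : i < L.length
  · rw [List.getD_eq_getElem _ _ hp]; exact mem_spn (List.getElem_mem hp)
  · rw [List.getD_eq_default _ _ (not_lt.1 hp), vc_zero]; exact zero_mem _

theorem ne_of_proChk {g : Gens} (hg : Valid g) {Y0 : List ℕ} {st : List (ℕ × ℕ)} {r : ℕ}
    (h : proChk g Y0 st r = true) : grp g ≠ G := fun e => by
  simp only [proChk, forceL_eq, force_eq, Bool.and_eq_true] at h
  generalize spin (g.map Prod.snd) st Y0 = Y at h
  have h1 : grp g ≤ stab (spn Y) := grp_le fun p hp => mem_stab_spn (hg p hp)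
    ((spn_le.2 fun m hm => mem_spn (List.mem_flatMap.2 ⟨p, hp, by rwa [mp_eq]⟩)).trans (le_of_subChk h.1))
  have h2 : spn (appT (tab r) (Y.getD 0 0) :: Y) ≤ spn Y := spn_le.2 (List.forall_mem_cons.2
    ⟨by rw [isT_tab]; exact h1 (e ▸ xr_mem r) _ (vc_getD_mem Y 0), fun _ => mem_spn⟩)
  have h3 := (Submodule.finrank_mono h2).trans (finrank_spn_le Y)
  rw [finrank_of_rk h.2] at h3
  omega

theorem big_of_chk {g : Gens} (hg : Valid g) {st : List (ℕ × ℕ)} (h : bigChk g st = true) : Big (grp g) := by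
  refine (finrank_of_rk h).ge.trans (Submodule.finrank_mono (hg.spin_le (fun p hp v hv => ?_) st ?_))
  · rw [← Matrix.toLin'_apply, ← Submodule.mem_comap]
    refine Submodule.span_le.2 ?_ hv
    rintro _ ⟨m, hm, rfl⟩
    exact Submodule.subset_span ⟨_, mul_mem (mem_grp hp) hm, by rw [mul_mulVec, Matrix.toLin'_apply]⟩
  · exact spn_le.2 fun m hm => Submodule.subset_span ⟨1, one_mem _, by
      rw [List.mem_singleton.1 hm, vc_er, one_mulVec']⟩

theorem fix_of_chk {g : Gens} (hg : Valid g) {ks : List ℕ} {st : List (ℕ × ℕ)} (h : fixChk g ks st = true) :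
    Fix26 (grp g) := fun S hS => by
  let U : Submodule F V := ⨅ m ∈ grp g, ⨅ w ∈ S, LinearMap.ker ((β w).comp (Matrix.toLin' m.val))
  have hU : ∀ u, u ∈ U ↔ ∀ m ∈ grp g, ∀ w ∈ S, β w (m.val *ᵥ u) = 0 := fun u => by simp [U, Submodule.mem_iInf]
  have h1 := hg.spin_le (U := U) (fun p hp u hu => (hU _).2 fun m hm w hw => by
    rw [← mul_mulVec]; exact (hU u).1 hu _ (mul_mem hm (mem_grp hp)) w hw) st
    (L := ks.map fun k => force (sbit k) fun v => Nat.xor (appT (tab 125) v) v) (spn_le.2 fun m hm => by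
      obtain ⟨k, -, rfl⟩ := List.mem_map.1 hm
      refine (hU _).2 fun m hm w hw => ?_
      have h2 := grp_le_G g hm
      rw [force_eq, vc_xor, isT_tab, Matrix.mulVec_add, map_add]
      conv_lhs => arg 1; rw [← hS w hw m hm, mul_mulVec, mul_mulVec, β_inv h2, β_inv (xr_mem _), ← β_inv h2,
        mulVec_inv]
      exact CharTwo.add_self_eq_zero _)
  have h2 := finrank_of_rk h
  generalize spin (g.map Prod.snd) st _ = L at h1 h2
  have hB : (Matrix.toBilin' (1 : Matrix D.Idx D.Idx F)).Nondegenerate :=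
    LinearMap.BilinForm.nondegenerate_toBilin'_of_det_ne_zero' _ (by simp)
  have h3 : S ≤ (Matrix.toBilin' (1 : Matrix D.Idx D.Idx F)).orthogonal (spn (mp (appT Tab.tB) L)) := fun w hw v hv => by
    refine (Submodule.span_le (p := LinearMap.ker ((Matrix.toBilin' (1 : Matrix D.Idx D.Idx F)).flip w))).2 ?_ hv
    rintro _ ⟨m, hm, rfl⟩
    rw [mp_eq] at hm
    obtain ⟨i, hi, rfl⟩ := List.mem_map.1 hm
    have := (hU _).1 (h1 (mem_spn hi)) 1 (one_mem _) w hw
    rw [one_mulVec', β_apply, dotProduct_comm, ← show _ = D.Bm F *ᵥ vc i from isT_tB i] at this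
    simpa [Matrix.toBilin'_apply'] using this
  have h4 := Submodule.finrank_mono h3
  rw [LinearMap.BilinForm.finrank_orthogonal hB, h2, Module.finrank_fintype_fun_eq_card, Fintype.card_sum,
    Fintype.card_fin, Fintype.card_fin, dim_eq] at h4
  exact h4

theorem exists_horner {CS : Gens} (hg : Valid CS) {ws : List (List ℕ)} {T : List (ℕ × ℕ)} (hT : keysOK T = true)
    (h : ∀ b ∈ g1L, appT T b = thetaA (CS.map Prod.snd) ws b) (p : List ℕ) : ∃ H : V →ₗ[F] V,
    (∀ v, vc (horner T p v) = H (vc v)) ∧ ∀ U ≤ G1, (∀ p ∈ CS, wd p.1 ∈ stab U) → ∀ u ∈ U, H u ∈ U := by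
  have h1 : ∀ w : List ℕ, ∃ g ∈ grp CS, ∀ v, vc (appW (CS.map Prod.snd) w v) = g.val *ᵥ vc v := fun w => by
    induction w with
    | nil => exact ⟨1, one_mem _, fun v => (one_mulVec' _).symm⟩
    | cons i w ih =>
      obtain ⟨g, hg', e⟩ := ih
      have e' : ∀ v, appW (CS.map Prod.snd) (i :: w) v = appT ((CS.map Prod.snd).getD i [])
        (appW (CS.map Prod.snd) w v) := fun v => force_eq _ _
      by_cases hi : i < (CS.map Prod.snd).length
      · obtain ⟨p, hp, e''⟩ := List.mem_map.1 (List.getElem_mem hi)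
        exact ⟨_, mul_mem (mem_grp hp) hg', fun v => by
          rw [e', List.getD_eq_getElem _ _ hi, ← e'', hg p hp, mul_mulVec, e]⟩
      · exact ⟨g, hg', fun v => by rw [e', List.getD_eq_default _ _ (not_lt.1 hi), appT_nil, e]⟩
  have h2 : ∃ Θ : V →ₗ[F] V, (∀ v, vc (thetaA (CS.map Prod.snd) ws v) = Θ (vc v)) ∧
      ∀ U, (∀ p ∈ CS, wd p.1 ∈ stab U) → ∀ u ∈ U, Θ u ∈ U := by
    clear h
    induction ws with
    | nil => exact ⟨0, fun _ => vc_zero, fun U _ _ _ => zero_mem U⟩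
    | cons w ws ih =>
      obtain ⟨Θ, e, hΘ⟩ := ih
      obtain ⟨g, hg', e'⟩ := h1 w
      exact ⟨Matrix.toLin' g.val + Θ, fun v => (vc_xor _ _).trans (by rw [e', ← Matrix.toLin'_apply]; exact congrArg _ (e v)),
        fun U hU u hu => add_mem (grp_le hU hg' u hu) (hΘ U hU u hu)⟩
  obtain ⟨Θ, e, hΘ⟩ := h2
  obtain ⟨f, hf⟩ := exists_lin hT
  have h3 : G1 ≤ LinearMap.eqLocus f Θ := spn_g1L ▸ spn_le.2 fun b hb => by
    rw [LinearMap.mem_eqLocus, ← hf b, h b hb, e]
  induction p with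
  | nil => exact ⟨0, fun _ => vc_zero, fun U _ _ _ _ => zero_mem U⟩
  | cons c p ih =>
    obtain ⟨H, e', hH⟩ := ih
    have e'' : ∀ v, vc (horner T (c :: p) v) = f (H (vc v)) + vc (sel c 0 v) := fun v => by
      rw [← e', ← hf, ← vc_xor]; exact congrArg vc (force_eq _ fun r => Nat.xor (appT T r) (sel c 0 v))
    have h4 : ∀ U ≤ G1, (∀ p ∈ CS, wd p.1 ∈ stab U) → ∀ u ∈ U, f (H u) ∈ U := fun U h1 hU u hu => by
      rw [h3 (h1 (hH U h1 hU u hu))]; exact hΘ U hU _ (hH U h1 hU u hu)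
    rcases c with _ | c
    · exact ⟨f.comp H, fun v => by rw [e'', sel_zero, vc_zero, add_zero]; rfl, h4⟩
    · exact ⟨f.comp H + LinearMap.id, fun v => e'' v, fun U h1 hU u hu => add_mem (h4 U h1 hU u hu) hu⟩

theorem tstB_iff (u : ℕ) : tstB u = true ↔ Tst (vc u) := by
  have h0 : ∀ j < 133, m10.testBit (j + 64) = decide (lvN c1 j = 0) := by decide +kernel
  have h1 : m10 < 2 ^ 197 := by decide +kernel
  have h2 : m10 % 2 ^ 64 = 0 := by decide +kernel
  have h3 : Nat.land (mask [2, 4, 6]) m10 = 2 ^ 64 * 84 := by decide +kernel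
  have h4 : vc (mask [2, 4, 6]) = hθ := by
    rw [vc, vec_mask, hθ_eq]
    simp [bas_of_lt (D := D) (F := F) (rank_eq ▸ (by decide : 2 < 7)), bas_of_lt (D := D) (F := F) (rank_eq ▸ (by decide : 4 < 7)),
      bas_of_lt (D := D) (F := F) (rank_eq ▸ (by decide : 6 < 7)), add_assoc]
  have h5 : pr c1 0 hθ = hθ := funext fun a => by
    rw [pr_apply]
    rcases a with i | r
    · rw [if_pos (lv_inl _ _)]
    · split_ifs
      · rfl
      · simp [hθ_eq, hN]
  rw [Tst, pr_vc h0, ← h5, ← h4, pr_vc h0, vc_land_eq_iff h1 h2, ← vc_zero,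
    show vc 0 = vc (Nat.land 0 m10) from congrArg vc (Nat.zero_and _).symm, vc_land_eq_iff h1 h2, h3,
    show Nat.land 0 m10 = 0 from Nat.zero_and _, tstB, force_eq, Bool.or_eq_true, Nat.beq_eq, Nat.beq_eq]

theorem indep_cons {m : ℕ} {L : List ℕ} (h : Module.finrank F (spn (m :: L)) = L.length + 1) :
    vc m ∉ spn L ∧ Module.finrank F (spn L) = L.length := by
  have h1 : vc m ∉ spn L := fun hm => by
    have := (Submodule.finrank_mono (spn_le.2 (List.forall_mem_cons.2 ⟨hm, fun _ => mem_spn⟩))).trans (finrank_spn_le L)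
    omega
  rw [spn_cons, Submodule.finrank_sup_span_singleton h1] at h
  exact ⟨h1, by omega⟩

theorem cntT_spec {ls : List (List ℕ)} (h : ∀ l ∈ ls, ∀ r ∈ l, 93 ≤ r ∧ r ≤ 124)
    (hr : Module.finrank F (spn (ls.map lm)) = ls.length) {q : Γ} (hq : q ∈ Q) {u : ℕ} (hu : vc u = q.val *ᵥ er 0) :
    {v | v - lam q ∈ spn (ls.map lm) ∧ Pure v}.ncard = cntT ls u := by
  induction ls generalizing q u with
  | nil =>
    simp only [List.map_nil, spn_nil, Submodule.mem_bot, sub_eq_zero]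
    have h1 := (tstB_iff u).trans (hu ▸ (pure_iff hq).symm)
    change _ = cond (tstB u) 1 0
    cases e : tstB u
    · rw [cond_false, Set.ncard_eq_zero, Set.eq_empty_iff_forall_notMem]
      rintro _ ⟨rfl, h2⟩
      rw [h1.2 h2] at e; exact absurd e (by simp)
    · rw [cond_true, Set.ncard_eq_one]
      exact ⟨lam q, Set.ext fun v => ⟨fun h => h.1, fun h => ⟨h, by rw [show v = _ from h]; exact h1.1 e⟩⟩⟩
  | cons l ls ih =>
    obtain ⟨hl, h⟩ := List.forall_mem_cons.1 h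
    obtain ⟨h1, h2⟩ := indep_cons (m := lm l) (L := ls.map lm) (by rw [List.length_map]; exact hr)
    rw [List.length_map] at h2
    have h3 : ∀ v, v - lam (wd l * q) = v - lam q + vc (lm l) := fun v => by
      rw [lam_mul (wd_mem_Q hl) hq, vc_lm hl, sub_eq', sub_eq']; abel
    rw [cntT_cons, ← ih h h2 hq hu, ← ih h h2 (mul_mem (wd_mem_Q hl) hq) (by rw [vc_wordV, hu, mul_mulVec]),
      ← Set.ncard_union_eq]
    · congr 1; ext v
      simp only [Set.mem_ofPred_eq, Set.mem_union, ← or_and_right, h3, List.map_cons, spn_cons]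
      refine and_congr_left fun _ => ⟨fun hv => ?_, ?_⟩
      · obtain ⟨y, hy, z, hz, e⟩ := Submodule.mem_sup.1 hv
        obtain ⟨a, rfl⟩ := Submodule.mem_span_singleton.1 hz
        rcases F_cases a with rfl | rfl
        · left; rwa [← e, zero_smul, add_zero]
        · right; rwa [← e, one_smul, add_assoc, add_self, add_zero]
      · rintro (hv | hv)
        · exact Submodule.mem_sup_left hv
        · have := Submodule.add_mem_sup hv (Submodule.mem_span_singleton_self (R := F) (vc (lm l)))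
          rwa [add_assoc, add_self, add_zero] at this
    · refine Set.disjoint_left.2 fun v hv hv' => h1 ?_
      have := sub_mem hv'.1 hv.1
      rwa [h3, add_sub_cancel_left] at this

theorem cnt_spn {ls : List (List ℕ)} (h : ∀ l ∈ ls, ∀ r ∈ l, 93 ≤ r ∧ r ≤ 124)
    (hr : Module.finrank F (spn (ls.map lm)) = ls.length) : cnt (spn (ls.map lm)) = cntT ls (sbit (7 + 0)) := by
  rw [← cntT_spec h hr (one_mem Q) (by rw [vc_er, one_mulVec']), cnt_eq, lam_one]; simp only [sub_zero]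

theorem case_of_chk {CS EX : Gens} (hg : Valid (CS ++ EX)) {qs bl bl' ws : List (List ℕ)} {T st s1 s2 : List (ℕ × ℕ)}
    {p : List ℕ} {v0 u0 : ℕ} (hd : decChk CS EX qs bl bl' st = true)
    (hn : norChk CS bl bl' ws T p v0 u0 s1 s2 = true) (hne : grp (CS ++ EX) ≠ G) (hf : Fix26 (grp (CS ++ EX))) :
    CaseOK (grp (CS ++ EX)) (spn (bl.map lm)) ∧ key (spn (bl.map lm)) = (bl.length, if bl.length = 16 then 0 else
      if bl.length = 20 then cntT bl' (sbit (7 + 0)) else cntT bl (sbit (7 + 0))) := by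
  simp only [decChk, forceL_eq, Bool.and_eq_true, okR_iff, allL_iff, List.contains_iff_mem, Nat.beq_eq,
    List.forall_mem_append, List.forall_mem_cons, List.forall_mem_map] at hd
  obtain ⟨⟨⟨hL, ⟨hq, hb⟩, hb'⟩, hx, hy, hqs⟩, ⟨⟨⟨r1, r2⟩, hs⟩, ho⟩, hw⟩ := hd
  simp only [norChk, Bool.and_eq_true, allL_iff, force_eq, Nat.beq_eq, mp_eq] at hn
  obtain ⟨⟨⟨⟨hT, hθ'⟩, n1⟩, n2⟩, n3⟩ := hn
  have hE : ∀ l ∈ EX.map Prod.fst, wd l ∈ grp (CS ++ EX) := fun l hl => by
    obtain ⟨p, hp, rfl⟩ := List.mem_map.1 hl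
    exact mem_grp (List.mem_append_right _ hp)
  have hG1 : ∀ {L : List (List ℕ)}, (∀ l ∈ L, ∀ r ∈ l, 93 ≤ r ∧ r ≤ 124) → spn (L.map lm) ≤ G1 := fun h =>
    spn_le.2 (List.forall_mem_map.2 fun l hl => by rw [vc_lm (h l hl)]; exact lam_mem _)
  have hsum := le_of_subChk hs
  rw [spn_g1L, spn_append] at hsum
  have horth : ∀ a ∈ spn (bl.map lm), ∀ b ∈ spn (bl'.map lm), Bq a b = 0 := fun a ha b hb =>
    (spn_le (U := LinearMap.ker (Bq.flip b))).2 (List.forall_mem_map.2 fun l hl =>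
      (spn_le (U := LinearMap.ker (Bq (vc (lm l))))).2 (List.forall_mem_map.2 fun l' hl' => by
        rw [LinearMap.mem_ker, ← bq_eq, ho l hl l' hl', Nat.cast_zero]) hb) ha
  replace r1 := finrank_of_rk r1
  replace r2 := finrank_of_rk r2
  have c1 := cnt_spn hb r1
  have c2 := cnt_spn hb' r2
  have w1 := hG1 hb
  have w2 := hG1 hb'
  replace hw := le_of_subChk hw
  replace n1 := le_of_subChk n1
  replace n2 := le_of_subChk n2
  replace n3 := le_of_subChk n3
  generalize spn (bl.map lm) = W at *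
  generalize spn (bl'.map lm) = W' at *
  have hz : ∀ v ∈ G1, (∀ w ∈ W, Bq w v = 0) → (∀ w ∈ W', Bq w v = 0) → v = 0 := fun v hv h1 h2 =>
    Bq_nondeg hv fun w hw => by
      obtain ⟨a, ha, b, hb, rfl⟩ := Submodule.mem_sup.1 (hsum hw)
      rw [map_add, LinearMap.add_apply, h1 a ha, h2 b hb, add_zero]
  have hnd : ∀ v ∈ W, (∀ w ∈ W, Bq w v = 0) → v = 0 := fun v hv h =>
    hz v (w1 hv) h fun w hw => by rw [Bq_symm]; exact horth v hv w hw
  have hp : perp W = W' := le_antisymm (fun v hv => by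
    obtain ⟨a, ha, b, hb, rfl⟩ := Submodule.mem_sup.1 (hsum (mem_perp.1 hv).1)
    rw [hnd a ha fun w hw => by simpa [horth w hw b hb] using (mem_perp.1 hv).2 w hw, zero_add]
    exact hb) fun v hv => mem_perp.2 ⟨w2 hv, fun w hw => horth w hw v hv⟩
  refine ⟨⟨grp_le_G _, hne, wd_single 125 ▸ hE _ hx, wd_single 0 ▸ hE _ hy, fun M hA hM hMne => ?_,
    fun v hv h0 => ?_, hf⟩, by rw [key_eq, r1, hp, c1, c2]⟩
  swap
  · by_contra h
    exact h0 (hnd v hv fun w hw => (F_cases _).resolve_right fun e => h ⟨w, hw, e⟩)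
  obtain ⟨U, hU⟩ := exists_isW M
  have hC : ∀ p ∈ CS, wd p.1 ∈ L0 ∧ wd p.1 ∈ M := fun p hp =>
    ⟨wd_mem_XN (hL p hp), hA (mem_grp (List.mem_append_left _ hp))⟩
  have hinv : ∀ p ∈ CS, wd p.1 ∈ stab U := fun p hp v hv => hU.inv (hC p hp).1 (hC p hp).2 hv
  have hWU : W ≤ U := hw.trans (hg.left.spin_le hinv st (spn_le.2 (List.forall_mem_map.2 fun l hl =>
    (hU _).2 ⟨wd l, hA (hE l (hqs l hl)), wd_mem_Q (hq l hl), (vc_lm (hq l hl)).symm⟩)))
  obtain ⟨H, eH, hH⟩ := exists_horner hg.left hT hθ' p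
  suffices h : U ≤ W by rwa [le_antisymm hWU h]
  by_cases h0 : ∃ v ∈ U, Bq v (vc u0) = 1
  · obtain ⟨v, hv, e⟩ := h0
    have h1 : G1 ≤ W.comap (H + (Bq.flip (vc u0)).smulRight (vc v0)) := spn_g1L ▸ spn_le.2 fun b hb => by
      have := n1 (mem_spn (List.mem_map.2 ⟨b, hb, rfl⟩))
      rwa [vc_xor, eH, vc_sel _ _ (bq_lt _ _), bq_eq] at this
    have h2 : H v + Bq v (vc u0) • vc v0 ∈ W := h1 (hU.le hv)
    rw [e, one_smul] at h2
    have h3 : vc v0 ∈ U := by simpa using sub_mem (hWU h2) (hH U hU.le hinv v hv)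
    have h4 : G1 ≤ U := hsum.trans (sup_le hWU (n2.trans (hg.left.spin_le hinv s1 (spn_le.2 (by simpa using h3)))))
    exact absurd (eq_G_of_Q hM (hA (wd_single 0 ▸ hE _ hy))
      (IsW.Q_le (le_antisymm hU.le h4 ▸ hU) (hA (wd_single 125 ▸ hE _ hx)))) hMne
  · have h1 : W' ≤ Bq.orthogonal U := n3.trans (hg.left.spin_le (U := Bq.orthogonal U) (fun p hp w hw v hv => by
      have := hw _ (hU.inv (inv_mem (hC p hp).1) (inv_mem (hC p hp).2) hv)
      rwa [← Bq_inv (hC p hp).1, mulVec_inv] at this) s2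
      (spn_le.2 fun m hm v hv => List.mem_singleton.1 hm ▸ (F_cases _).resolve_right fun e => h0 ⟨v, hv, e⟩))
    intro v hv
    obtain ⟨a, ha, b, hb, rfl⟩ := Submodule.mem_sup.1 (hsum (hU.le hv))
    have h2 : b ∈ U := by simpa using sub_mem hv (hWU ha)
    rwa [hz b (w2 hb) (fun w hw => horth w hw b hb) fun w hw => by rw [Bq_symm]; exact h1 hw b h2, add_zero]

end Cfsg.Agent.E72
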