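import Mathlib
import Cfsg.Agent.E72.Defs
import Cfsg.Agent.E72.CG2
import Cfsg.Agent.E72.CTA7
import Cfsg.Agent.E72.CTE6
import Cfsg.Agent.E72.CTA5
import Cfsg.Agent.E72.CTD4
import Cfsg.Agent.E72.CT37
import Cfsg.Agent.E72.CD6
import Cfsg.Agent.E72.CA7
import Cfsg.Agent.E72.CA5
import Cfsg.Agent.E72.CE6
import Cfsg.Agent.E72.CD4

/-!
`E₇(2)`: the eleven cases containing root involutions.
-/

set_option autoImplicit false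

namespace Cfsg.Agent.E72

open Cfsg.Lie Cfsg.Lie.ChevalleyDatum Cfsg.Agent.Chev Cfsg.Agent.Chev.Chk
open scoped Matrix

theorem cases_all : ∃ (A : Fin 11 → Subgroup Γ) (W : Fin 11 → Submodule F V), (∀ i, CaseOK (A i) (W i)) ∧
    (∀ i j, key (W i) = key (W j) → i = j) ∧ ∀ i, i ≠ 0 → Big (A i) := by
  let ks : Fin 11 → ℕ × ℕ := ![(4, 4), (12, 1), (20, 1), (8, 1), (8, 10), (0, 1), (16, 0), (12, 127), (8, 31), (20, 127), (8, 28)]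
  have hk : ∀ i j, ks i = ks j → i = j := by decide
  have h : ∀ i : Fin 11, ∃ A W, CaseOK A W ∧ key W = ks i ∧ (i ≠ 0 → Big A) := fun i => by
    fin_cases i
    exacts [⟨_, _, CG2.ok.1, CG2.ok.2, fun h => absurd rfl h⟩,
      ⟨_, _, CTA7.ok.1, CTA7.ok.2, fun _ => CTA7.big⟩,
      ⟨_, _, CTE6.ok.1, CTE6.ok.2, fun _ => CTE6.big⟩,
      ⟨_, _, CTA5.ok.1, CTA5.ok.2, fun _ => CTA5.big⟩,
      ⟨_, _, CTD4.ok.1, CTD4.ok.2, fun _ => CTD4.big⟩,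
      ⟨_, _, CT37.ok.1, CT37.ok.2, fun _ => CT37.big⟩,
      ⟨_, _, CD6.ok.1, CD6.ok.2, fun _ => CD6.big⟩,
      ⟨_, _, CA7.ok.1, CA7.ok.2, fun _ => CA7.big⟩,
      ⟨_, _, CA5.ok.1, CA5.ok.2, fun _ => CA5.big⟩,
      ⟨_, _, CE6.ok.1, CE6.ok.2, fun _ => CE6.big⟩,
      ⟨_, _, CD4.ok.1, CD4.ok.2, fun _ => CD4.big⟩]
  choose A W h1 h2 h3 using h
  exact ⟨A, W, h1, fun i j e => hk i j (by rw [← h2, ← h2, e]), h3⟩

end Cfsg.Agent.E72
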