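import Mathlib
import Cfsg.Agent.E72.Qth

/-! The geometry of root involutions in `E₇(2)`. -/

set_option autoImplicit false

namespace Cfsg.Agent.E72

open Cfsg.Lie Cfsg.Lie.ChevalleyDatum Cfsg.Agent.Chev Cfsg.Agent.Chev.Chk
open scoped Matrix

namespace Geo

theorem mono {n : Γ} (hn : n ∈ D.monomialSubgroup F) (s : D.Rt) :
    n * xr s * n⁻¹ = xr (D.wOf F n s) ∧ n.val *ᵥ er s = er (D.wOf F n s) := by
  obtain ⟨a, ha, -⟩ := D.exists_conj_X_wOf F hn s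
  obtain ⟨b, hb⟩ := monomial_mulVec_eN hn s
  exact ⟨by rw [ha, F_unit, one_mul], by rw [hb, F_unit, one_smul]⟩

/-- The reflection in `r` sends `s` to `t`. -/
def RF (r s t : ℕ) : Prop := ∀ i < 7, D.cartan i t = D.cartan i s - D.pairing r s * D.cartan i r

instance (r s t : ℕ) : Decidable (RF r s t) := inferInstanceAs (Decidable (∀ i < 7, _))

theorem nE_mem (r : ℕ) : D.nE F r 1 ∈ G :=
  mul_mem (mul_mem (D.X_mem_group F _ _) (D.X_mem_group F _ _)) (D.X_mem_group F _ _)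

theorem nr {r s t : ℕ} (hr : r < 126) (hs : s < 126) (ht : t < 126) (h : RF r s t) :
    D.nE F r 1 * xr s * (D.nE F r 1)⁻¹ = xr t ∧ (D.nE F r 1).val *ᵥ er s = er t := by
  have k := mono (D.nE_mem_monomial F (mkR r hr) one_ne_zero) (mkR s hs)
  rwa [D.wOf_nE F _ one_ne_zero, show D.refl (mkR r hr) (mkR s hs) = mkR t ht from
    D.wt_inj ((D.wt_refl _ _).trans (funext fun i => (h i (lt7 i)).symm))] at k

theorem rf_swap : ∀ r < 125, 93 ≤ r → RF (217 - r) 125 r ∧ RF (217 - r) r 125 := by decide +kernel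

theorem rf_y : RF 125 125 0 ∧ D.neg 125 = 0 := by decide +kernel

theorem rf_low : ∀ r < 33, 1 ≤ r → RF r (r + 92) 125 ∧ RF r r (125 - r) ∧ D.cm r 125 = [r + 92] := by
  decide +kernel

theorem act_x : ∀ r < 126, 33 ≤ r → D.actE 125 (D.rank + r) = [(D.rank + r, 0)] := by decide +kernel

theorem β_er' {r s : ℕ} (hs : s < 126) : β (er r) (er s) = if 125 - s = r then 1 else 0 := by
  rw [β_er _ (mkR s hs), ← show (D.ng (mkR s hs) : ℕ) = 125 - s from ng_val126 _]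
  rfl

theorem braid : xr 125 * xr 0 * xr 125 * (xr 125 * xr 0)⁻¹ = xr 0 := by
  have k := (nr (by omega) (by omega) (by omega) rf_y.1).1
  rw [nE, rf_y.2, inv_one, CharTwo.neg_eq] at k
  refine Eq.trans ?_ k
  group

theorem U_le_G {u : Γ} (hu : u ∈ D.posUnipotent F) : u ∈ G := U_le_group hu

end Geo

open Geo

theorem Rt.conj {a g : Γ} {v : V} (h : Rt a v) (hg : g ∈ G) : Rt (g * a * g⁻¹) (g.val *ᵥ v) := by
  obtain ⟨k, hk, rfl, rfl⟩ := h
  exact ⟨g * k, mul_mem hg hk, by group, (mul_mulVec _ _ _).symm⟩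

theorem Rt_x : Rt (xr 125) (er 125) := ⟨1, one_mem _, by group, (one_mulVec' _).symm⟩

theorem Rt_y : Rt (xr 0) (er 0) :=
  let ⟨h1, h2⟩ := nr (by omega) (by omega) (by omega) rf_y.1
  ⟨_, nE_mem 125, h1.symm, h2.symm⟩

theorem exists_swap {r : ℕ} (h1 : 93 ≤ r) (h2 : r ≤ 124) : ∃ n ∈ G, n * xr 125 * n⁻¹ = xr r ∧
    n * xr r * n⁻¹ = xr 125 ∧ n.val *ᵥ er 125 = er r :=
  let ⟨k1, k2⟩ := rf_swap r (by omega) h1
  let ⟨k3, k4⟩ := nr (by omega) (by omega) (by omega) k1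
  ⟨_, nE_mem _, k3, (nr (by omega) (by omega) (by omega) k2).1, k4⟩

theorem Rt_xr {r : ℕ} (h1 : 93 ≤ r) (h2 : r ≤ 124) : Rt (xr r) (er r) :=
  let ⟨n, hn, k1, _, k2⟩ := exists_swap h1 h2
  ⟨n, hn, k1.symm, k2.symm⟩

theorem Rt.bruhat {b : Γ} {w : V} (h : Rt b w) :
    ∃ u ∈ D.posUnipotent F, ∃ r < 126, b = u * xr r * u⁻¹ ∧ w = u.val *ᵥ er r := by
  obtain ⟨g, hg, rfl, rfl⟩ := h
  obtain ⟨u, hu, n, hn, u', hu', rfl⟩ := RootBN.bruhat (R := D.rootBN F) hg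
  obtain ⟨k1, k2⟩ := mono hn (mkR 125 (by omega))
  refine ⟨u, hu, _, lt126 (D.wOf F n (mkR 125 (by omega))), ?_, ?_⟩
  · rw [← k1, mul_assoc (u * n), (commute_x_U hu').eq]
    group
  · rw [← k2, mul_mulVec, mul_mulVec, U_er125 hu']

theorem Rt.order3 {a b : Γ} {v w : V} (ha : Rt a v) (hb : Rt b w) (h : β v w = 1) :
    (a * b) * a * (a * b)⁻¹ = b := by
  obtain ⟨g, hg, rfl, rfl⟩ := ha
  obtain ⟨u, hu, r, hr, e1, e2⟩ := (hb.conj (inv_mem hg)).bruhat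
  rw [β_inv' hg, e2, ← U_er125 hu, β_inv (U_le_G hu), β_er' hr] at h
  obtain rfl : r = 0 := by
    by_contra k
    rw [if_neg (by omega)] at h
    exact zero_ne_one h
  have e3 : b = g * u * xr 0 * (g * u)⁻¹ := by
    rw [mul_inv_rev, mul_assoc g, mul_assoc g, ← mul_assoc (u * _), ← e1]; group
  have e4 : g * xr 125 * g⁻¹ = g * u * xr 125 * (g * u)⁻¹ := by
    rw [mul_assoc g u, (commute_x_U hu).eq]; group
  rw [e3, e4]
  conv_rhs => rw [← braid]
  group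

theorem Geo.conjx {M : Subgroup Γ} (hx : xr 125 ∈ M) (hy : xr 0 ∈ M) {b : Γ} {w : V} (h : Rt b w)
    (hb : b ∈ M) (e : β (er 0) w = 1) : ∃ m ∈ M, m * b * m⁻¹ = xr 125 := by
  have k1 := Rt_y.order3 h e
  have k2 := Rt_y.order3 Rt_x ((β_er' (by omega)).trans (if_pos rfl))
  refine ⟨xr 0 * xr 125 * (xr 0 * b)⁻¹, mul_mem (mul_mem hy hx) (inv_mem (mul_mem hy hb)), ?_⟩
  generalize xr 0 * b = s at k1
  rw [← k1]
  conv_rhs => rw [← k2]
  group

theorem col {M : Subgroup Γ} {W : Submodule F V} (hM : M ≤ G) (hx : xr 125 ∈ M) (hy : xr 0 ∈ M) (hW : IsW M W)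
    (hn : Nondeg W) {c : Γ} {r : ℕ} (hc : c ∈ G) (hcx : Commute c (xr 125)) (h1 : 93 ≤ r) (h2 : r ≤ 124)
    (hb : c * xr r * c⁻¹ ∈ M) : ∃ m ∈ M, m * (c * xr r * c⁻¹) * m⁻¹ = xr 125 := by
  have hr : xr r ∈ Q := xr_mem_XN (p := fun r => 93 ≤ r) h1
  have hR := (Rt_xr h1 h2).conj hc
  have hQ := conj_cent_Q hc hcx hr
  obtain ⟨q0, hq0, l, hl, rfl⟩ := cent_x hc hcx
  have hl' := conj_L0_Q hl hr
  have e1 : lam (q0 * l * xr r * (q0 * l)⁻¹) = l.val *ᵥ er (r - 92) := by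
    rw [show q0 * l * xr r * (q0 * l)⁻¹ = q0 * (l * xr r * l⁻¹) * q0⁻¹ by group,
      lam_mul (mul_mem hq0 hl') (inv_mem hq0), lam_mul hq0 hl', lam_inv hq0, lam_conj_L0 hl,
      lam_xr h1 h2, add_right_comm, add_self, zero_add]
  obtain ⟨_, hw, e2⟩ := hn _ ((hW _).2 ⟨_, hb, hQ, e1⟩) fun e => by
    have k := β_er' (r := 217 - r) (s := r - 92) (by omega)
    rw [if_pos (by omega), ← inv_mulVec l (er (r - 92)), e, Matrix.mulVec_zero, map_zero] at k
    exact zero_ne_one k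
  obtain ⟨q, hq, hq', rfl⟩ := (hW _).1 hw
  have f0 : D.fl c1 0 = -2 := fl_c1 0 (by omega)
  have f1 : D.fl c1 r = 1 := by
    rw [fl_c1 r (by omega), if_neg (by omega), if_neg (by omega), if_neg (by omega), if_pos h2]
  have m1 : l.val *ᵥ er r ∈ Fl c1 1 := by
    have := pr_mem_Fl c1 1 (l.val *ᵥ er r)
    rwa [L0_pr hl, pr_er, if_pos f1] at this
  have m2 := Q_raise hq0 m1
  have m3 : q0.val *ᵥ (l.val *ᵥ er r) ∈ Fl c1 1 := by
    simpa using add_mem (Fl_anti (by omega) m2) m1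
  have m4 := sub_pr_mem (Q_raise hq' (er_mem_Fl f0.ge))
  rw [map_sub, pr_er, if_neg (by omega), sub_zero] at m4
  have e3 : β (lam q) (l.val *ᵥ er (r - 92)) = 0 := by
    have k := lam_conj_L0 (q := q) (inv_mem hl)
    rw [β_symm, β_inv' (L0_le_G hl), β_symm, ← k, β_er _ (mkR (r - 92) (by omega)), lam_eq, pr_apply,
      if_neg]
    rw [lv_inr, ng_val126, fl_c1 _ (by omega)]
    change (if 125 - (r - 92) = 0 then -2 else if 125 - (r - 92) ≤ 32 then -1 else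
      if 125 - (r - 92) ≤ 92 then 0 else if 125 - (r - 92) ≤ 124 then 1 else 2 : ℤ) ≠ -1
    rw [if_neg (by omega), if_neg (by omega), if_neg (by omega), if_pos (by omega)]
    decide
  rw [Bq_apply, ← mul_mulVec, ← (commute_x_L0 hl).eq, mul_mulVec, x_er h1 h2, Matrix.mulVec_add,
    map_add, e3, zero_add, β_symm] at e2
  have e4 := β_Fl m2 (pr_mem_Fl c1 (-1) (q.val *ᵥ er 0)) (by omega)
  have e5 := β_Fl m3 m4 (by omega)
  rw [map_sub, LinearMap.sub_apply, ← lam_eq, e2, sub_eq_zero] at e4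
  rw [map_sub, map_sub, show pr c1 (-2 + 1) (q.val *ᵥ er 0) = lam q from rfl, e4] at e5
  rw [← mul_mulVec] at e5
  generalize (q0 * l).val *ᵥ er r = w at hR e5
  generalize q0 * l * xr r * (q0 * l)⁻¹ = b at hR hb
  rcases F_cases (β w (er 0)) with k | k
  · obtain ⟨m, hm, e⟩ := conjx hx hy (hR.conj (inv_mem (hM hq)))
      (mul_mem (mul_mem (inv_mem hq) hb) (inv_mem (inv_mem hq))) (by
        rw [← β_inv' (hM hq), β_symm, ← sub_eq_zero, ← e5, k, sub_zero])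
    exact ⟨m * q⁻¹, mul_mem hm (inv_mem hq), by rw [← e]; group⟩
  · exact conjx hx hy hR hb ((β_symm _ _).trans k)

theorem lemK {M : Subgroup Γ} {W : Submodule F V} (hM : M ≤ G) (hx : xr 125 ∈ M) (hy : xr 0 ∈ M) (hW : IsW M W)
    (hn : Nondeg W) {b : Γ} {w : V} (h : Rt b w) (hb : b ∈ M) :
    (xr 125).val *ᵥ w = w ∨ ∃ m ∈ M, m * b * m⁻¹ = xr 125 := by
  obtain ⟨u, hu, r, hr, e1, e2⟩ := h.bruhat
  have cu := commute_x_U hu
  by_cases h1 : 33 ≤ r
  · refine Or.inl ?_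
    have k := X_mulVec_bas (D := D) (F := F) 125 (D.rank + r) 1
    rw [act_x r hr h1, bas_add] at k
    rw [e2, ← mul_mulVec, ← cu.eq, mul_mulVec, k]
    simp [bas_add]
  refine Or.inr ?_
  by_cases h0 : r = 0
  · subst h0
    have k := Rt_x.order3 h (by
      rw [e2, ← U_er125 hu, β_inv (U_le_G hu), β_er' hr, if_pos rfl])
    refine ⟨(xr 125 * b)⁻¹, inv_mem (mul_mem hx hb), ?_⟩
    generalize xr 125 * b = s at k
    rw [← k]
    group
  obtain ⟨k1, k2, k3⟩ := rf_low r (by omega) (by omega)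
  have k4 := X_swap (D := D) (F := F) (r := mkR r hr) (s := mkR 125 (by omega))
    (fun e => by have := congrArg Fin.val e; simp only at this; omega)
    fun e => by have := congrArg Fin.val e; rw [ng_val126] at this; simp only at this; omega
  rw [show D.cm (mkR r hr) (mkR 125 (by omega)) = [r + 92] from k3] at k4
  replace k4 : xr 125 * xr r = xr r * xr 125 * xr (r + 92) := by simpa [word] using k4
  have k5 : u * xr (r + 92) * u⁻¹ = (xr 125)⁻¹ * b⁻¹ * xr 125 * b := by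
    rw [e1, eq_inv_mul_of_mul_eq k4.symm]
    calc _ = u * (xr 125)⁻¹ * ((xr r)⁻¹ * u⁻¹) * (u * xr 125) * (xr r * u⁻¹) := by group
      _ = _ := by rw [cu.eq, cu.inv_right.eq]; group
  obtain ⟨m, hm, e⟩ := col hM hx hy hW hn (U_le_G hu) cu (by omega) (by omega)
    (k5 ▸ mul_mem (mul_mem (mul_mem (inv_mem hx) (inv_mem hb)) hx) hb)
  have n1 := (nr hr (by omega) (by omega) k1).1
  have n2 := (nr hr hr (by omega) k2).1
  have hn' := nE_mem r
  generalize D.nE F r 1 = n at n1 n2 hn'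
  have e3 : m * u * n⁻¹ * xr (125 - r) * (m * u * n⁻¹)⁻¹ = m * b * m⁻¹ := by rw [← n2, e1]; group
  obtain ⟨m', hm', e'⟩ := col hM hx hy hW hn (c := m * u * n⁻¹) (r := 125 - r)
    (mul_mem (mul_mem (hM hm) (U_le_G hu)) (inv_mem hn')) (mul_inv_eq_iff_eq_mul.1 (by
      conv_lhs => rw [← n1]
      rw [← e]; group)) (by omega) (by omega) (e3 ▸ mul_mem (mul_mem hm hb) (inv_mem hm))
  exact ⟨m' * m, mul_mem hm' hm, by rw [← e', e3]; group⟩

end Cfsg.Agent.E72
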