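import Mathlib
import Cfsg.Agent.E72.Case
import Cfsg.Agent.E72.LDefs
import Cfsg.Agent.E72.LTab

/-!
`E₇(2)`: elementary abelian groups given by a basis, and the tables for `L₂(128)`.
-/

set_option autoImplicit false

namespace Cfsg.Agent.E72

open Cfsg.Lie Cfsg.Lie.ChevalleyDatum Cfsg.Agent.Chev Cfsg.Agent.Chev.Chk
open scoped Matrix

/-- The product of the generators selected by the bits of a number. -/
noncomputable def pw (g : Gens) : ℕ → Γ :=
  List.rec (fun _ => 1) (fun p _ ih m => (if m % 2 = 1 then wd p.1 else 1) * ih (m / 2)) g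
/-- Its action on bit vectors. -/
noncomputable def pwT (g : Gens) (v : ℕ) : ℕ → ℕ :=
  List.rec (fun _ => v) (fun p _ ih m => force (ih (m / 2)) fun x => sel (m % 2) x (appT p.2 x)) g
/-- The sum of the numbers selected by the bits of a number. -/
noncomputable def lin (τ : List ℕ) : ℕ → ℕ :=
  List.rec (fun _ => 0) (fun t _ ih m => Nat.xor (sel (m % 2) 0 t) (ih (m / 2))) τ
/-- Commuting involutions. -/
def Cm (g : Gens) : Prop := ∀ p ∈ g, wd p.1 * wd p.1 = 1 ∧ ∀ q ∈ g, Commute (wd p.1) (wd q.1)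
/-- Comparison of two maps on the basis. -/
noncomputable def eqB (f f' : ℕ → ℕ) : Bool := allLt 133 fun k => force (sbit k) fun v => Nat.beq (f v) (f' v)
/-- Composition of tables. -/
noncomputable def ap2 (T T' : List (ℕ × ℕ)) (v : ℕ) : ℕ := force (appT T' v) (appT T)
/-- `(g - 1) v`. -/
noncomputable def dT (T : List (ℕ × ℕ)) (v : ℕ) : ℕ := force v fun v => Nat.xor (appT T v) v
/-- The basis of `U0`. -/
def UG : Gens := [(uW.getD 0 [], LT.U0), (uW.getD 1 [], LT.U1), (uW.getD 2 [], LT.U2), (uW.getD 3 [], LT.U3),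
  (uW.getD 4 [], LT.U4), (uW.getD 5 [], LT.U5), (uW.getD 6 [], LT.U6)]
/-- The basis of `Z2`. -/
def ZG : Gens := (List.range' 119 7).map fun r => ([r], tab r)

theorem pw_nil (m : ℕ) : pw [] m = 1 := rfl
theorem pw_cons (p : List ℕ × List (ℕ × ℕ)) (g : Gens) (m : ℕ) :
    pw (p :: g) m = (if m % 2 = 1 then wd p.1 else 1) * pw g (m / 2) := rfl
theorem sel_mod {α : Type} (m : ℕ) (a b : α) : sel (m % 2) a b = if m % 2 = 1 then b else a := by
  rcases Nat.mod_two_eq_zero_or_one m with h | h <;> rw [h] <;> rfl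
theorem lin_cons (t : ℕ) (τ : List ℕ) (m : ℕ) :
    lin (t :: τ) m = Nat.xor (if m % 2 = 1 then t else 0) (lin τ (m / 2)) := by rw [← sel_mod]; rfl
theorem ap2_eq (T T' : List (ℕ × ℕ)) (v : ℕ) : ap2 T T' v = appT T (appT T' v) := force_eq _ _
theorem vc_ap2 {g h : Γ} {T T' : List (ℕ × ℕ)} (hT : IsT (g.val *ᵥ ·) T) (hT' : IsT (h.val *ᵥ ·) T') (v : ℕ) :
    vc (ap2 T T' v) = (g * h).val *ᵥ vc v := by rw [ap2_eq, hT, hT', mul_mulVec]
theorem vc_dT {g : Γ} {T : List (ℕ × ℕ)} (hT : IsT (g.val *ᵥ ·) T) (v : ℕ) : vc (dT T v) = dv g (vc v) := by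
  rw [dT, force_eq, vc_xor, hT, dv_eq, sub_eq']

theorem eq_of_eqB {f f' : ℕ → ℕ} {g g' : Γ} (hf : ∀ v, vc (f v) = g.val *ᵥ vc v) (hf' : ∀ v, vc (f' v) = g'.val *ᵥ vc v)
    (h : eqB f f' = true) : g = g' := by
  simp only [eqB, allLt_iff, force_eq, Nat.beq_eq] at h
  exact eq_of_basis fun k hk => by rw [← hf, ← hf', h k hk]

theorem isT_of_eqB {T : List (ℕ × ℕ)} {f : ℕ → ℕ} {g : Γ} (hf : ∀ v, vc (f v) = g.val *ᵥ vc v)
    (h : (keysOK T && eqB (appT T) f) = true) : IsT (g.val *ᵥ ·) T := by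
  simp only [eqB, allLt_iff, force_eq, Nat.beq_eq, Bool.and_eq_true] at h
  exact isT_of_basis h.1 fun k hk => by rw [h.2 k hk, hf, vc, vec_sbit]

theorem pw_zero (g : Gens) : pw g 0 = 1 := by
  induction g with
  | nil => rfl
  | cons p g ih => rw [pw_cons, ih]; simp

theorem pw_mem {g : Gens} {K : Subgroup Γ} (h : ∀ p ∈ g, wd p.1 ∈ K) (m : ℕ) : pw g m ∈ K := by
  induction g generalizing m with
  | nil => exact one_mem _
  | cons p g ih =>
    obtain ⟨h1, h2⟩ := List.forall_mem_cons.1 h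
    rw [pw_cons]
    refine mul_mem ?_ (ih h2 _)
    split_ifs
    exacts [h1, one_mem _]

theorem vc_pwT {g : Gens} (hg : Valid g) (v m : ℕ) : vc (pwT g v m) = (pw g m).val *ᵥ vc v := by
  induction g generalizing m with
  | nil => exact (one_mulVec' _).symm
  | cons p g ih =>
    obtain ⟨h1, h2⟩ := List.forall_mem_cons.1 hg
    rw [show pwT (p :: g) v m = _ from force_eq _ fun x => sel (m % 2) x (appT p.2 x), sel_mod, pw_cons, mul_mulVec]
    split_ifs
    · rw [h1]; exact congrArg _ (ih h2 _)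
    · rw [one_mulVec']; exact ih h2 _

theorem Cm.tail {p : List ℕ × List (ℕ × ℕ)} {g : Gens} (h : Cm (p :: g)) : Cm g := fun q hq =>
  ⟨(h q (List.mem_cons_of_mem _ hq)).1, fun r hr => (h q (List.mem_cons_of_mem _ hq)).2 r (List.mem_cons_of_mem _ hr)⟩

theorem pw_xor {g : Gens} (hg : Cm g) (m m' : ℕ) : pw g (Nat.xor m m') = pw g m * pw g m' := by
  induction g generalizing m m' with
  | nil => exact (mul_one _).symm
  | cons p g ih =>
    have h1 : Commute (pw g (m / 2)) (wd p.1) := mem_centralizer_singleton.1 (pw_mem (fun q hq =>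
      mem_centralizer_singleton.2 ((hg q (List.mem_cons_of_mem _ hq)).2 p List.mem_cons_self)) _)
    have h2 := (hg p List.mem_cons_self).1
    rw [pw_cons, pw_cons, pw_cons, show Nat.xor m m' / 2 = Nat.xor (m / 2) (m' / 2) from Nat.xor_div_two, ih hg.tail,
      show Nat.xor m m' % 2 = (m + m') % 2 from Nat.xor_mod_two_eq]
    rcases Nat.mod_two_eq_zero_or_one m with h | h <;> rcases Nat.mod_two_eq_zero_or_one m' with h' | h' <;>
      simp only [Nat.add_mod m m', h, h', if_true, Nat.reduceAdd, Nat.reduceMod, zero_ne_one, if_false, one_mul]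
    · rw [← mul_assoc, ← mul_assoc, h1.eq]
    · rw [mul_assoc]
    · rw [mul_assoc, ← mul_assoc (pw g _), h1.eq, mul_assoc, ← mul_assoc, h2, one_mul]

theorem exists_pw_gen {g : Gens} {p : List ℕ × List (ℕ × ℕ)} (hp : p ∈ g) : ∃ m < 2 ^ g.length, wd p.1 = pw g m := by
  induction g with
  | nil => exact absurd hp List.not_mem_nil
  | cons q g ih =>
    rcases List.mem_cons.1 hp with rfl | hp
    · exact ⟨1, Nat.one_lt_two_pow (by simp), by rw [pw_cons, pw_zero]; simp⟩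
    · obtain ⟨m, hm, e⟩ := ih hp
      exact ⟨2 * m, by rw [List.length_cons, pow_succ]; omega, by rw [pw_cons, e]; simp⟩

theorem exists_pw {g : Gens} (hg : Cm g) {a : Γ} (ha : a ∈ grp g) : ∃ m < 2 ^ g.length, a = pw g m := by
  induction ha using Subgroup.closure_induction with
  | mem x hx => obtain ⟨p, hp, rfl⟩ := hx; exact exists_pw_gen hp
  | one => exact ⟨0, Nat.two_pow_pos _, (pw_zero g).symm⟩
  | mul x y _ _ hx hy =>
    obtain ⟨m, hm, rfl⟩ := hx
    obtain ⟨m', hm', rfl⟩ := hy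
    exact ⟨_, Nat.xor_lt_two_pow hm hm', (pw_xor hg m m').symm⟩
  | inv x _ hx =>
    obtain ⟨m, hm, rfl⟩ := hx
    exact ⟨m, hm, inv_eq_of_mul_eq_one_right (by rw [← pw_xor hg, show Nat.xor m m = 0 from Nat.xor_self m, pw_zero])⟩

theorem conj_pw {g g' : Gens} (hg : Cm g) {s : Γ} {τ : List ℕ}
    (h : List.Forall₂ (fun p t => s * wd p.1 * s⁻¹ = pw g t) g' τ) (m : ℕ) : s * pw g' m * s⁻¹ = pw g (lin τ m) := by
  induction h generalizing m with
  | nil => rw [pw_nil, mul_one, mul_inv_cancel]; exact (pw_zero g).symm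
  | cons h _ ih =>
    rw [pw_cons, lin_cons, pw_xor hg, ← ih]
    split_ifs
    · rw [← h]; group
    · rw [pw_zero, one_mul, one_mul]

theorem conj_of_eqB {g : Gens} (hg : Valid g) {s a : Γ} {S T : List (ℕ × ℕ)} (hS : IsT (s.val *ᵥ ·) S)
    (hT : IsT (a.val *ᵥ ·) T) {t : ℕ} (h : eqB (ap2 S T) (fun v => force (appT S v) fun x => pwT g x t) = true) :
    s * a * s⁻¹ = pw g t :=
  mul_inv_eq_of_eq_mul (eq_of_eqB (vc_ap2 hS hT) (fun v => by rw [force_eq, vc_pwT hg, hS, mul_mulVec]) h)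

theorem rank_of_rk {g : Γ} {T : List (ℕ × ℕ)} (hT : IsT (g.val *ᵥ ·) T) {k : ℕ}
    (h : rk ((List.range 133).map fun j => dT T (sbit j)) k = true) : (g.val - 1).rank = k := by
  rw [← finrank_of_rk h, Matrix.rank_eq_finrank_span_cols, spn_eq]
  have h1 : ∀ a, (g.val - 1).col a = vc (dT T (sbit (D.enc a))) := fun a => by
    rw [vc_dT hT, vc, vec_sbit, bas_enc, dv_eq]
    funext b
    simp [Matrix.one_apply, Pi.single_apply]
  refine congrArg (fun S => Module.finrank F (Submodule.span F S)) ?_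
  ext v
  simp only [Set.mem_range, h1, List.mem_map, List.mem_range, Set.mem_ofPred_eq]
  constructor
  · rintro ⟨a, rfl⟩; exact ⟨_, ⟨_, enc_lt' a, rfl⟩, rfl⟩
  · rintro ⟨_, ⟨b, hb, rfl⟩, rfl⟩
    obtain ⟨a, rfl⟩ := exists_enc (D := D) (dim_eq ▸ hb)
    exact ⟨a, rfl⟩

theorem vc_surj (v : V) : ∃ m, vc m = v := by
  rw [← Finset.univ_sum_single v]
  refine Finset.sum_induction _ (fun w => ∃ m, vc m = w) ?_ ⟨0, vc_zero⟩ fun a _ => ?_
  · rintro _ _ ⟨m, rfl⟩ ⟨m', rfl⟩; exact ⟨_, vc_xor m m'⟩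
  · rcases F_cases (v a) with h | h <;> rw [h]
    · exact ⟨0, by rw [vc_zero, Pi.single_zero]⟩
    · exact ⟨sbit (D.enc a), by rw [vc, vec_sbit, bas_enc]⟩

theorem isT_sg : IsT (sg.val *ᵥ ·) LT.S0 := isT_of_matChk (w := sW) (by decide +kernel)
theorem isT_n0 : IsT (n0.val *ᵥ ·) LT.N0 := isT_of_matChk (w := nW0) (by decide +kernel)
theorem isT_u0 : IsT ((ub 0).val *ᵥ ·) LT.U0 := isT_of_matChk (w := uW.getD 0 []) (by decide +kernel)
theorem isT_u1 : IsT ((ub 1).val *ᵥ ·) LT.U1 := isT_of_matChk (w := uW.getD 1 []) (by decide +kernel)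
theorem isT_u2 : IsT ((ub 2).val *ᵥ ·) LT.U2 := isT_of_matChk (w := uW.getD 2 []) (by decide +kernel)
theorem isT_u3 : IsT ((ub 3).val *ᵥ ·) LT.U3 := isT_of_matChk (w := uW.getD 3 []) (by decide +kernel)
theorem isT_u4 : IsT ((ub 4).val *ᵥ ·) LT.U4 := isT_of_matChk (w := uW.getD 4 []) (by decide +kernel)
theorem isT_u5 : IsT ((ub 5).val *ᵥ ·) LT.U5 := isT_of_matChk (w := uW.getD 5 []) (by decide +kernel)
theorem isT_u6 : IsT ((ub 6).val *ᵥ ·) LT.U6 := isT_of_matChk (w := uW.getD 6 []) (by decide +kernel)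

theorem valid_UG : Valid UG := by
  simp only [Valid, UG, List.forall_mem_cons]
  exact ⟨isT_u0, isT_u1, isT_u2, isT_u3, isT_u4, isT_u5, isT_u6, fun _ h => absurd h List.not_mem_nil⟩

theorem mem_UG {p : List ℕ × List (ℕ × ℕ)} (hp : p ∈ UG) : ∃ i < 7, wd p.1 = ub i := by
  simp only [UG, List.mem_cons, List.not_mem_nil, or_false] at hp
  rcases hp with rfl | rfl | rfl | rfl | rfl | rfl | rfl
  exacts [⟨0, by decide, rfl⟩, ⟨1, by decide, rfl⟩, ⟨2, by decide, rfl⟩, ⟨3, by decide, rfl⟩, ⟨4, by decide, rfl⟩,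
    ⟨5, by decide, rfl⟩, ⟨6, by decide, rfl⟩]

theorem grp_UG : grp UG = U0 := by
  refine le_antisymm (grp_le fun p hp => ?_) ((Subgroup.closure_le _).2 ?_)
  · obtain ⟨i, hi, e⟩ := mem_UG hp
    exact e ▸ ub_mem_U0 hi
  · rintro _ ⟨i, hi, rfl⟩
    have : ∀ i < 7, uW.getD i [] ∈ UG.map Prod.fst := by decide +kernel
    obtain ⟨p, hp, e⟩ := List.mem_map.1 (this i hi)
    exact ub_eq i ▸ e ▸ mem_grp hp

theorem mem_ZG {p : List ℕ × List (ℕ × ℕ)} : p ∈ ZG ↔ ∃ r, (119 ≤ r ∧ r < 126) ∧ ([r], tab r) = p := by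
  simp only [ZG, List.mem_map, List.mem_range'_1]

theorem valid_ZG : Valid ZG := fun p hp => by
  obtain ⟨r, -, rfl⟩ := mem_ZG.1 hp
  exact isT_single r

theorem grp_ZG : grp ZG = Z2 := by
  refine le_antisymm (grp_le fun p hp => ?_) (XN_le_iff.2 fun r hr h => ?_)
  · obtain ⟨r, hr, rfl⟩ := mem_ZG.1 hp
    exact wd_mem_XN (by simpa using hr.1)
  · exact wd_single r ▸ mem_grp (p := ([r], tab r)) (mem_ZG.2 ⟨r, ⟨h, hr⟩, rfl⟩)

theorem cm_ZG : Cm ZG := fun p hp => by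
  obtain ⟨r, hr, rfl⟩ := mem_ZG.1 hp
  refine ⟨by rw [wd_single, xr_sq], fun q hq => ?_⟩
  obtain ⟨s, hs, rfl⟩ := mem_ZG.1 hq
  have : ∀ r < 126, 119 ≤ r → ∀ s < 126, 119 ≤ s → D.Cm2 r s [] := by decide +kernel
  rw [wd_single, wd_single]
  exact X_commute2' (this r hr.2 hr.1 s hs.2 hs.1) 1 1

theorem dv_pw {g : Gens} (hg : Valid g) (hZ : ∀ p ∈ g, wd p.1 ∈ Z2) {b : ℕ} (hb : vc b ∈ Fl c2 (-2)) (m : ℕ) :
    vc (lin (g.map fun p => dT p.2 b) m) = dv (pw g m) (vc b) := by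
  induction g generalizing m with
  | nil => rw [pw_nil, dv_eq, one_mulVec', sub_self]; exact vc_zero
  | cons p g ih =>
    obtain ⟨h1, h2⟩ := List.forall_mem_cons.1 hg
    obtain ⟨h3, h4⟩ := List.forall_mem_cons.1 hZ
    rw [List.map_cons, lin_cons, vc_xor, ih h2 h4, pw_cons]
    split_ifs
    · have h5 := eq_zero_of_Fl (Fl_anti (by decide) (Z2_raise h3 (Z2_raise (pw_mem h4 (m / 2)) hb)))
      rw [vc_dT h1]
      simp only [dv_eq, mul_mulVec, Matrix.mulVec_sub] at h5 ⊢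
      rw [sub_eq_zero, sub_eq_iff_eq_add] at h5
      rw [h5]; abel
    · rw [vc_zero, zero_add, one_mul]

end Cfsg.Agent.E72
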