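import Mathlib
import Cfsg.Agent.E72.LDefs
import Cfsg.Agent.E72.LKit

/-!
`E₇(2)`: computed facts about the subgroup `L₂(128)`.
-/

set_option autoImplicit false

namespace Cfsg.Agent.E72

open Cfsg.Lie Cfsg.Lie.ChevalleyDatum Cfsg.Agent.Chev Cfsg.Agent.Chev.Chk
open scoped Matrix

namespace LF

theorem s1 : IsT ((sg * sg).val *ᵥ ·) LT.S1 := isT_of_eqB (vc_ap2 isT_sg isT_sg) (by decide +kernel)
theorem sq {g : Γ} {T T' : List (ℕ × ℕ)} {n : ℕ} (h : IsT ((g ^ n).val *ᵥ ·) T)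
    (e : (keysOK T' && eqB (appT T') (ap2 T T)) = true) : IsT ((g ^ (2 * n)).val *ᵥ ·) T' := by
  rw [two_mul, pow_add]; exact isT_of_eqB (vc_ap2 h h) e
theorem s2 : IsT ((sg ^ (2 * 2)).val *ᵥ ·) LT.S2 := sq (pow_two sg ▸ s1) (by decide +kernel)
theorem s3 : IsT ((sg ^ (2 * (2 * 2))).val *ᵥ ·) LT.S3 := sq s2 (by decide +kernel)
theorem s4 : IsT ((sg ^ (2 * (2 * (2 * 2)))).val *ᵥ ·) LT.S4 := sq s3 (by decide +kernel)
theorem s5 : IsT ((sg ^ (2 * (2 * (2 * (2 * 2))))).val *ᵥ ·) LT.S5 := sq s4 (by decide +kernel)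
theorem s6 : IsT ((sg ^ (2 * (2 * (2 * (2 * (2 * 2)))))).val *ᵥ ·) LT.S6 := sq s5 (by decide +kernel)
theorem s7 : IsT ((sg ^ (2 * (2 * (2 * (2 * (2 * (2 * 2))))))).val *ᵥ ·) LT.S0 := sq s6 (by decide +kernel)

theorem sh {a b : Γ} {T T' : List (ℕ × ℕ)} (h : IsT (a.val *ᵥ ·) T) (h' : IsT (b.val *ᵥ ·) T')
    (e : eqB (ap2 LT.S0 T) (ap2 T' LT.S0) = true) : sg * a * sg⁻¹ = b :=
  mul_inv_eq_of_eq_mul (eq_of_eqB (vc_ap2 isT_sg h) (vc_ap2 h' isT_sg) e)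
theorem c0 : sg * ub 0 * sg⁻¹ = ub 1 := sh isT_u0 isT_u1 (by decide +kernel)
theorem c1 : sg * ub 1 * sg⁻¹ = ub 2 := sh isT_u1 isT_u2 (by decide +kernel)
theorem c2' : sg * ub 2 * sg⁻¹ = ub 3 := sh isT_u2 isT_u3 (by decide +kernel)
theorem c3 : sg * ub 3 * sg⁻¹ = ub 4 := sh isT_u3 isT_u4 (by decide +kernel)
theorem c4 : sg * ub 4 * sg⁻¹ = ub 5 := sh isT_u4 isT_u5 (by decide +kernel)
theorem c5 : sg * ub 5 * sg⁻¹ = ub 6 := sh isT_u5 isT_u6 (by decide +kernel)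
theorem c6 : sg * ub 6 * sg⁻¹ = pw UG 3 := conj_of_eqB valid_UG isT_sg isT_u6 (by decide +kernel)
theorem ub_succ {i : ℕ} (h : i < 6) : sg * ub i * sg⁻¹ = ub (i + 1) := by
  interval_cases i
  exacts [c0, c1, c2', c3, c4, c5]
theorem cm {a : Γ} {T : List (ℕ × ℕ)} (h : IsT (a.val *ᵥ ·) T) (e : eqB (ap2 LT.U0 T) (ap2 T LT.U0) = true) :
    Commute (ub 0) a := eq_of_eqB (vc_ap2 isT_u0 h) (vc_ap2 h isT_u0) e
theorem m1 : Commute (ub 0) (ub 1) := cm isT_u1 (by decide +kernel)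
theorem m2 : Commute (ub 0) (ub 2) := cm isT_u2 (by decide +kernel)
theorem m3 : Commute (ub 0) (ub 3) := cm isT_u3 (by decide +kernel)
theorem m4 : Commute (ub 0) (ub 4) := cm isT_u4 (by decide +kernel)
theorem m5 : Commute (ub 0) (ub 5) := cm isT_u5 (by decide +kernel)
theorem m6 : Commute (ub 0) (ub 6) := cm isT_u6 (by decide +kernel)
theorem u0_sq : ub 0 * ub 0 = 1 :=
  eq_of_eqB (f' := fun v => v) (vc_ap2 isT_u0 isT_u0) (fun v => (one_mulVec' _).symm) (by decide +kernel)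

theorem ub_comm (i j : ℕ) (h : i + j < 7) : ub i * ub i = 1 ∧ Commute (ub i) (ub (i + j)) := by
  induction i with
  | zero =>
    rw [zero_add] at h ⊢
    refine ⟨u0_sq, ?_⟩
    interval_cases j
    exacts [Commute.refl _, m1, m2, m3, m4, m5, m6]
  | succ i ih =>
    obtain ⟨h1, h2⟩ := ih (by omega)
    rw [Nat.add_right_comm, ← ub_succ (by omega : i < 6), ← ub_succ (by omega : i + j < 6)]
    exact ⟨by rw [conj_mul, h1, mul_one, mul_inv_cancel], h2.conj sg⟩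

theorem cm_UG : Cm UG := fun p hp => by
  obtain ⟨i, hi, e⟩ := mem_UG hp
  refine ⟨e ▸ (ub_comm i 0 hi).1, fun q hq => ?_⟩
  obtain ⟨j, hj, e'⟩ := mem_UG hq
  rw [e, e']
  rcases le_total i j with h | h <;> obtain ⟨k, rfl⟩ := Nat.exists_eq_add_of_le h
  exacts [(ub_comm _ k hj).2, (ub_comm _ k hi).2.symm]

theorem conj_U (m : ℕ) : sg * pw UG m * sg⁻¹ = pw UG (lin [2, 4, 8, 16, 32, 64, 3] m) := by
  refine conj_pw cm_UG ?_ m
  refine .cons (c0.trans ?_) (.cons (c1.trans ?_) (.cons (c2'.trans ?_) (.cons (c3.trans ?_) (.cons (c4.trans ?_)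
    (.cons (c5.trans ?_) (.cons c6 .nil)))))) <;> simp [UG, pw_cons, pw_nil, ub_eq]

theorem pL_chk : LT.pL.Nodup ∧ LT.pL.length = 127 ∧ (∀ k < 126, lin [2, 4, 8, 16, 32, 64, 3] (LT.pL.getD k 0) =
    LT.pL.getD (k + 1) 0) ∧ (∀ m < 128, m ≠ 0 → m ∈ LT.pL) ∧ (∀ k < 127, LT.pL.getD k 0 < 128) ∧
    ∀ d < 127, d ≠ 0 → z1L.getD d 0 < 127 ∧ Nat.xor (LT.pL.getD 0 0) (LT.pL.getD d 0) = LT.pL.getD (z1L.getD d 0) 0 := by
  decide +kernel

theorem uk_pw (k : ZMod 127) : uk k = pw UG (LT.pL.getD k.val 0) := by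
  have h : ∀ n < 127, sg ^ n * ub 0 * (sg ^ n)⁻¹ = pw UG (LT.pL.getD n 0) := fun n hn => by
    induction n with
    | zero => simp [LT.pL, UG, pw_cons, pw_nil, ub_eq]
    | succ n ih => rw [← pL_chk.2.2.1 n (by omega), ← conj_U, ← ih (by omega), pow_succ']; group
  exact h _ (ZMod.val_lt k)

theorem exists_uk {m : ℕ} (h : m < 128) (h0 : m ≠ 0) : ∃ k, pw UG m = uk k := by
  obtain ⟨k, hk, rfl⟩ := List.getElem_of_mem (pL_chk.2.2.2.1 m h h0)
  exact ⟨k, by rw [uk_pw, ZMod.val_natCast_of_lt (pL_chk.2.1 ▸ hk), List.getD_eq_getElem _ _ hk]⟩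

theorem rank_u0 : ((ub 0).val - 1).rank = 63 := rank_of_rk isT_u0 (by decide +kernel)
theorem rank_x : ((xr 125).val - 1).rank = 34 := rank_of_rk (isT_tab 125) (by decide +kernel)

/-- The mask of the bottom level. -/
def mB : ℕ := 2 ^ 71 * (2 ^ 7 - 1)
/-- The mask below the top level. -/
def mT : ℕ := 2 ^ 64 * (2 ^ 126 - 1)

theorem mem_B (m : ℕ) : vc m ∈ Fl c2 (-2) ↔ Nat.land m mB = 0 :=
  vc_mem_Fl (by decide +kernel) (by decide +kernel) (by decide +kernel) m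
theorem mem_T (m : ℕ) : vc m ∈ Fl c2 4 ↔ Nat.land m mT = 0 :=
  vc_mem_Fl (by decide +kernel) (by decide +kernel) (by decide +kernel) m

theorem aL_chk : (LT.aL.map fun a => Nat.land a mB).Nodup ∧ LT.aL.length = 127 ∧
    (∀ k < 126, appT LT.S0 (LT.aL.getD k 0) = LT.aL.getD (k + 1) 0) ∧
    (∀ j < 128, j ≠ 0 → 2 ^ 71 * j ∈ LT.aL.map fun a => Nat.land a mB) ∧ LT.aL.getD 0 0 = mask [7, 10, 12, 13] ∧
    ∀ d < 127, d ≠ 0 → z2L.getD d 0 < 127 ∧ Nat.xor (LT.aL.getD 0 0) (LT.aL.getD d 0) = LT.aL.getD (z2L.getD d 0) 0 := by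
  decide +kernel

theorem ak_vc (k : ZMod 127) : ak k = vc (LT.aL.getD k.val 0) := by
  have h : ∀ n < 127, (sg ^ n).val *ᵥ a0 = vc (LT.aL.getD n 0) := fun n hn => by
    induction n with
    | zero =>
      rw [aL_chk.2.2.2.2.1, pow_zero, one_mulVec', a0_eq, ← vc_er, ← vc_er, ← vc_er, ← vc_er, vc, vc, vc, vc, vc,
        vec_mask, vec_sbit, vec_sbit, vec_sbit, vec_sbit]
      simp [add_assoc]
    | succ n ih => rw [← aL_chk.2.2.1 n (by omega), isT_sg, ← ih (by omega), pow_succ', mul_mulVec]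
  exact h _ (ZMod.val_lt k)

theorem sub_mem_B (a b : ℕ) : vc a - vc b ∈ Fl c2 (-2) ↔ Nat.land a mB = Nat.land b mB := by
  rw [sub_eq', ← vc_xor, mem_B, show Nat.land (Nat.xor a b) mB = _ from Nat.and_xor_distrib_right]
  exact Nat.xor_eq_zero_iff

/-- The test for the relation. -/
noncomputable def relB (k m : ℕ) : Bool :=
  Nat.beq (Nat.land (lin (ZG.map fun p => dT p.2 (dT LT.U0 (LT.aL.getD k 0))) m) mT) 0

theorem relB_iff (k : ZMod 127) (m : ℕ) : relB k.val m = true ↔ dv (pw ZG m) (dv (ub 0) (ak k)) ∈ Fl c2 4 := by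
  have h : vc (dT LT.U0 (LT.aL.getD k.val 0)) = dv (ub 0) (ak k) := by rw [vc_dT isT_u0, ak_vc]
  rw [relB, Nat.beq_eq, ← mem_T, dv_pw valid_ZG (fun p hp => grp_ZG ▸ mem_grp hp)
    (h ▸ R2_raise (U0_le_R2 (ub_mem_U0 (by decide))) (mem_Fl_bot _)), h]

theorem rel_chk' : (allLt 127 fun k => force k fun k => force (dT LT.U0 (LT.aL.getD k 0)) fun b =>
    forceL (ZG.map fun p => dT p.2 b) fun ds => Nat.beq k 0 || allLt 128 fun m => force m fun m =>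
      !Nat.beq (Nat.land (lin ds m) mT) 0 || Nat.beq m 0 || Nat.beq m (LT.gL.getD k 0)) = true := by decide +kernel

theorem rel_chk {k m : ℕ} (hk : k < 127) (h0 : k ≠ 0) (hm : m < 128) (h : relB k m = true) :
    m = 0 ∨ m = LT.gL.getD k 0 := by
  have h1 := rel_chk'
  simp only [allLt_iff, force_eq, forceL_eq, Bool.or_eq_true, Nat.beq_eq, Bool.not_eq_true'] at h1
  rcases ((h1 k hk).resolve_left h0) m hm with (h2 | h2) | h2
  · rw [relB, h2] at h; exact absurd h (by simp)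
  exacts [Or.inl h2, Or.inr h2]

theorem zw_ne_one {m : ℕ} (h : m < 128) (h0 : m ≠ 0) : pw ZG m ≠ 1 := fun e => by
  have h1 := (relB_iff 3 m).2 (by rw [e, dv_eq, one_mulVec', sub_self]; exact zero_mem _)
  exact (rel_chk (k := 3) (by decide) (by decide) h h1).elim h0 h0

theorem cz {r t : ℕ} (e : eqB (ap2 LT.S0 (tab r)) (fun v => force (appT LT.S0 v) fun x => pwT ZG x t) = true) :
    sg * wd [r] * sg⁻¹ = pw ZG t := conj_of_eqB valid_ZG isT_sg (isT_single r) e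
theorem z0 : sg * wd [119] * sg⁻¹ = pw ZG 8 := cz (by decide +kernel)
theorem z1 : sg * wd [120] * sg⁻¹ = pw ZG 32 := cz (by decide +kernel)
theorem z2 : sg * wd [121] * sg⁻¹ = pw ZG 16 := cz (by decide +kernel)
theorem z3 : sg * wd [122] * sg⁻¹ = pw ZG 89 := cz (by decide +kernel)
theorem z4 : sg * wd [123] * sg⁻¹ = pw ZG 28 := cz (by decide +kernel)
theorem z5 : sg * wd [124] * sg⁻¹ = pw ZG 98 := cz (by decide +kernel)
theorem z6 : sg * wd [125] * sg⁻¹ = pw ZG 104 := cz (by decide +kernel)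

theorem conj_Z (m : ℕ) : sg * pw ZG m * sg⁻¹ = pw ZG (lin LT.tauZ m) := by
  refine conj_pw cm_ZG ?_ m
  have e : ZG = [([119], tab 119), ([120], tab 120), ([121], tab 121),
    ([122], tab 122), ([123], tab 123), ([124], tab 124), ([125], tab 125)] := rfl
  conv_lhs => rw [e]
  rw [show LT.tauZ = [8, 32, 16, 89, 28, 98, 104] from rfl]
  simp only [List.forall₂_cons, List.Forall₂.nil, and_true]
  exact ⟨z0, z1, z2, z3, z4, z5, z6⟩

theorem zL_chk : LT.zL.length = 127 ∧ (∀ k < 127, lin LT.tauZ (LT.zL.getD k 0) = LT.zL.getD ((k + 1) % 127) 0) ∧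
    ∀ m < 128, m ≠ 0 → m ∈ LT.zL := by decide +kernel

theorem nc {r : ℕ} (e : eqB (ap2 LT.N0 (tab r)) (ap2 (tab (125 - r)) LT.N0) = true) :
    n0 * xr r * n0⁻¹ = xr (125 - r) :=
  mul_inv_eq_of_eq_mul (eq_of_eqB (vc_ap2 isT_n0 (isT_tab _)) (vc_ap2 (isT_tab _) isT_n0) e)
theorem n119 : n0 * xr 119 * n0⁻¹ = xr (125 - 119) := nc (by decide +kernel)
theorem n120 : n0 * xr 120 * n0⁻¹ = xr (125 - 120) := nc (by decide +kernel)
theorem n121 : n0 * xr 121 * n0⁻¹ = xr (125 - 121) := nc (by decide +kernel)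
theorem n122 : n0 * xr 122 * n0⁻¹ = xr (125 - 122) := nc (by decide +kernel)
theorem n123 : n0 * xr 123 * n0⁻¹ = xr (125 - 123) := nc (by decide +kernel)
theorem n124 : n0 * xr 124 * n0⁻¹ = xr (125 - 124) := nc (by decide +kernel)
theorem n125 : n0 * xr 125 * n0⁻¹ = xr (125 - 125) := nc (by decide +kernel)

end LF

open LF

theorem sg_pow : sg ^ 127 = 1 := by
  have h : sg ^ (127 + 1) = sg := eq_of_basis fun k _ => (s7 _).symm.trans (isT_sg _)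
  rwa [pow_succ, mul_eq_right] at h
theorem sp_add (k l : ZMod 127) : sp (k + l) = sp k * sp l := by
  rw [sp_eq, sp_eq, sp_eq, ← pow_add, ZMod.val_add, ← pow_eq_pow_mod _ sg_pow]
theorem sp_mem_L2 (k : ZMod 127) : sp k ∈ L2 := pow_mem sg_mem_L2 _
theorem U0_comm {a b : Γ} (ha : a ∈ U0) (hb : b ∈ U0) : Commute a b := by
  obtain ⟨m, -, rfl⟩ := exists_pw cm_UG (grp_UG ▸ ha)
  obtain ⟨m', -, rfl⟩ := exists_pw cm_UG (grp_UG ▸ hb)
  rw [commute_iff_eq, ← pw_xor cm_UG, ← pw_xor cm_UG]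
  exact congrArg _ (Nat.xor_comm _ _)
theorem U0_sq {a : Γ} (ha : a ∈ U0) : a * a = 1 := by
  obtain ⟨m, -, rfl⟩ := exists_pw cm_UG (grp_UG ▸ ha)
  rw [← pw_xor cm_UG, show Nat.xor m m = 0 from Nat.xor_self m, pw_zero]
theorem uk_mem (k : ZMod 127) : uk k ∈ U0 := uk_pw k ▸ pw_mem (fun _ hp => grp_UG ▸ mem_grp hp) _
theorem U0_cases {a : Γ} (ha : a ∈ U0) : a = 1 ∨ ∃ k, a = uk k := by
  obtain ⟨m, hm, rfl⟩ := exists_pw cm_UG (grp_UG ▸ ha)
  by_cases h0 : m = 0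
  · exact Or.inl (h0 ▸ pw_zero _)
  · exact Or.inr (exists_uk hm h0)
theorem uk_ne_one (k : ZMod 127) : uk k ≠ 1 := fun e => by
  have h := rank_conj (sp k) (ub 0)
  rw [← uk_eq, e, rank_u0] at h
  simp at h
theorem uk_inj : Function.Injective uk := fun k l e => by
  have h1 : pw UG (Nat.xor (LT.pL.getD k.val 0) (LT.pL.getD l.val 0)) = 1 := by
    rw [pw_xor cm_UG, ← uk_pw, ← uk_pw, e, U0_sq (uk_mem l)]
  have h2 : Nat.xor (LT.pL.getD k.val 0) (LT.pL.getD l.val 0) = 0 := by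
    by_contra h0
    obtain ⟨j, hj⟩ := exists_uk (Nat.xor_lt_two_pow (n := 7) (pL_chk.2.2.2.2.1 _ (ZMod.val_lt k))
      (pL_chk.2.2.2.2.1 _ (ZMod.val_lt l))) h0
    exact uk_ne_one j (hj.symm.trans h1)
  have h3 := Nat.xor_eq_zero_iff.1 h2
  rw [List.getD_eq_getElem _ _ ((ZMod.val_lt k).trans_eq pL_chk.2.1.symm),
    List.getD_eq_getElem _ _ ((ZMod.val_lt l).trans_eq pL_chk.2.1.symm),
    pL_chk.1.getElem_inj_iff] at h3
  exact ZMod.val_injective _ h3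
theorem uk_mul {d : ZMod 127} (hd : d ≠ 0) : uk 0 * uk d = uk (zA d) := by
  obtain ⟨h1, h2⟩ := pL_chk.2.2.2.2.2 _ (ZMod.val_lt d) ((ZMod.val_ne_zero d).2 hd)
  rw [uk_pw, uk_pw, uk_pw, ← pw_xor cm_UG, zA_eq, ZMod.val_natCast_of_lt h1, ZMod.val_zero, h2]
theorem ak_add {d : ZMod 127} (hd : d ≠ 0) : ak 0 + ak d = ak (zB d) := by
  obtain ⟨h1, h2⟩ := aL_chk.2.2.2.2.2 _ (ZMod.val_lt d) ((ZMod.val_ne_zero d).2 hd)
  rw [ak_vc, ak_vc, ak_vc, ← vc_xor, zB_eq, ZMod.val_natCast_of_lt h1, ZMod.val_zero, h2]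
theorem ak_cases (v : V) : v ∈ Fl c2 (-2) ∨ ∃ k, v - ak k ∈ Fl c2 (-2) := by
  obtain ⟨m, rfl⟩ := vc_surj v
  have h : Nat.land m mB = 2 ^ 71 * (m / 2 ^ 71 % 2 ^ 7) := Nat.eq_of_testBit_eq fun i => by
    rw [show (Nat.land m mB).testBit i = _ from Nat.testBit_and m mB i, mB, Nat.testBit_two_pow_mul,
      Nat.testBit_two_pow_mul, Nat.testBit_two_pow_sub_one, Nat.testBit_mod_two_pow, Nat.testBit_div_two_pow]
    by_cases hi : 71 ≤ i
    · simp [hi, Bool.and_comm]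
    · simp [hi]
  by_cases h0 : m / 2 ^ 71 % 2 ^ 7 = 0
  · exact Or.inl ((mem_B m).2 (by rw [h, h0, mul_zero]))
  · obtain ⟨a, ha, e⟩ := List.mem_map.1 (aL_chk.2.2.2.1 _ (Nat.mod_lt _ (by decide)) h0)
    obtain ⟨k, hk, rfl⟩ := List.getElem_of_mem ha
    exact Or.inr ⟨k, by
      rw [ak_vc, ZMod.val_natCast_of_lt (aL_chk.2.1 ▸ hk), List.getD_eq_getElem _ _ hk, sub_mem_B, h, e]; rfl⟩
theorem ak_inj {k l : ZMod 127} (h : ak k - ak l ∈ Fl c2 (-2)) : k = l := by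
  have hk : k.val < LT.aL.length := (ZMod.val_lt k).trans_eq aL_chk.2.1.symm
  have hl : l.val < LT.aL.length := (ZMod.val_lt l).trans_eq aL_chk.2.1.symm
  rw [ak_vc, ak_vc, sub_mem_B, List.getD_eq_getElem _ _ hk, List.getD_eq_getElem _ _ hl] at h
  exact ZMod.val_injective _ ((aL_chk.1.getElem_inj_iff (hi := by simpa using hk) (hj := by simpa using hl)).1
    (by simpa using h))
theorem rel_base : Rel (ub 0) a0 := by
  have hZ : ∀ m, pw ZG m ∈ Z2 := pw_mem fun _ hp => grp_ZG ▸ mem_grp hp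
  refine ⟨?_, _, hZ 9, _, hZ 35, zw_ne_one (by decide) (by decide), zw_ne_one (by decide) (by decide), fun e => ?_,
    ak_zero ▸ (relB_iff 0 9).1 (by decide +kernel), ak_zero ▸ (relB_iff 0 35).1 (by decide +kernel)⟩
  · rw [← ak_zero, ak_vc, mem_B]; decide +kernel
  · refine zw_ne_one (m := Nat.xor 9 35) (by decide) (by decide) ?_
    rw [pw_xor cm_ZG, e, ← pw_xor cm_ZG]; exact pw_zero _
theorem rel_unique {a : V} (h : Rel (ub 0) a) : a - a0 ∈ Fl c2 (-2) := by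
  obtain ⟨h0, z, hz, z', hz', h1, h2, h3, h4, h5⟩ := h
  obtain ⟨k, hk⟩ := (ak_cases a).resolve_left h0
  by_cases e : k = 0
  · rwa [e, ak_zero] at hk
  have key : ∀ z ∈ Z2, z ≠ 1 → dv z (dv (ub 0) a) ∈ Fl c2 4 → z = pw ZG (LT.gL.getD k.val 0) := fun z hz h1 h4 => by
    have h6 := sub_mem h4 (Z2_raise hz (R2_raise (U0_le_R2 (ub_mem_U0 (i := 0) (by decide))) hk))
    rw [← dv_sub, ← dv_sub, sub_sub_cancel] at h6
    obtain ⟨m, hm, rfl⟩ := exists_pw cm_ZG (grp_ZG ▸ hz)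
    rcases rel_chk (ZMod.val_lt k) ((ZMod.val_ne_zero k).2 e) hm ((relB_iff k m).2 h6) with h7 | h7
    · exact absurd (h7 ▸ pw_zero _) h1
    · rw [h7]
  exact absurd ((key z hz h1 h4).trans (key z' hz' h2 h5).symm) h3
theorem er_mem_I4 {r : ℕ} (h1 : 119 ≤ r) (h2 : r ≤ 125) : er r ∈ Submodule.span F
    {v | ∃ a ∈ U0, ∃ b ∈ U0, ∃ c ∈ U0, ∃ d ∈ U0, ∃ w, v = dv a (dv b (dv c (dv d w)))} := by
  have h : subChk ((List.range' 119 7).map fun r => sbit (7 + r)) ((List.range 7).map fun r =>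
    dT LT.U0 (dT LT.U1 (dT LT.U2 (dT LT.U3 (sbit (7 + r)))))) = true := by decide +kernel
  refine Submodule.span_mono ?_ (le_of_subChk h
    (vc_er r ▸ mem_spn (List.mem_map.2 ⟨r, List.mem_range'_1.2 ⟨h1, by omega⟩, rfl⟩)))
  rintro _ ⟨_, hm, rfl⟩
  obtain ⟨j, -, rfl⟩ := List.mem_map.1 hm
  exact ⟨_, ub_mem_U0 (i := 0) (by decide), _, ub_mem_U0 (i := 1) (by decide), _, ub_mem_U0 (i := 2) (by decide), _,
      ub_mem_U0 (i := 3) (by decide), _, by rw [vc_dT isT_u0, vc_dT isT_u1, vc_dT isT_u2, vc_dT isT_u3]⟩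
theorem A12_ne : A12 ≠ G := fun e => by
  refine ne_of_proChk (g := [(sW, LT.S0), (uW.getD 0 [], LT.U0), (nW0, LT.N0)]) (Y0 := LT.Y0) (st := LT.sY) (r := 0)
    ?_ (by decide +kernel) (le_antisymm (grp_le_G _) (e ▸ (Subgroup.closure_le _).2 ?_))
  · simp only [Valid, List.forall_mem_cons]
    exact ⟨isT_sg, isT_u0, isT_n0, fun _ h => absurd h List.not_mem_nil⟩
  · rintro _ (rfl | rfl | rfl)
    exacts [mem_grp (p := (sW, LT.S0)) (by simp), mem_grp (p := (uW.getD 0 [], LT.U0)) (by simp),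
      mem_grp (p := (nW0, LT.N0)) (by simp)]
theorem U0_le_of {M : Subgroup Γ} (hs : sg ∈ M) (hu : ub 0 ∈ M) : U0 ≤ M := (Subgroup.closure_le _).2 (by
  rintro _ ⟨i, hi, rfl⟩
  induction i with
  | zero => exact hu
  | succ i ih => exact ub_succ (by omega : i < 6) ▸ mul_mem (mul_mem hs (ih (by omega))) (inv_mem hs))
theorem n0_conj {r : ℕ} (h1 : 119 ≤ r) (h2 : r ≤ 125) : n0 * xr r * n0⁻¹ = xr (125 - r) := by
  interval_cases r
  exacts [n119, n120, n121, n122, n123, n124, n125]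
theorem Z2_le_of {M : Subgroup Γ} (hs : sg ∈ M) {z : Γ} (hz : z ∈ Z2) (h1 : z ≠ 1) (hM : z ∈ M) : Z2 ≤ M := by
  have key : ∀ z ∈ Z2, z ≠ 1 → ∃ k < 127, z = pw ZG (LT.zL.getD k 0) := fun z hz h1 => by
    obtain ⟨m, hm, rfl⟩ := exists_pw cm_ZG (grp_ZG ▸ hz)
    obtain ⟨k, hk, rfl⟩ := List.getElem_of_mem (zL_chk.2.2 m hm fun e => h1 (e ▸ pw_zero _))
    exact ⟨k, zL_chk.1 ▸ hk, by rw [List.getD_eq_getElem _ _ hk]⟩
  obtain ⟨k, hk, rfl⟩ := key z hz h1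
  have h : ∀ n, pw ZG (LT.zL.getD ((k + n) % 127) 0) ∈ M := fun n => by
    induction n with
    | zero => rwa [add_zero, Nat.mod_eq_of_lt hk]
    | succ n ih =>
      rw [← add_assoc, ← Nat.mod_add_mod, ← zL_chk.2.1 _ (Nat.mod_lt _ (by decide)), ← conj_Z]
      exact mul_mem (mul_mem hs ih) (inv_mem hs)
  intro w hw
  by_cases h0 : w = 1
  · exact h0 ▸ one_mem M
  obtain ⟨j, hj, rfl⟩ := key w hw h0
  have := h (j + 127 - k)
  rwa [show (k + (j + 127 - k)) % 127 = j by omega] at this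
theorem ub_not_root {g : Γ} : g * xr 125 * g⁻¹ ≠ ub 0 := fun e => by
  have h := rank_conj g (xr 125)
  rw [e, rank_u0, rank_x] at h
  exact absurd h (by decide)

end Cfsg.Agent.E72
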