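import Mathlib
import Cfsg.Agent.E72.LFacts

/-!
`E₇(2)`: the centraliser of `U0` in the unipotent radical.
-/

set_option autoImplicit false

namespace Cfsg.Agent.E72

open Cfsg.Lie Cfsg.Lie.ChevalleyDatum Cfsg.Agent.Chev Cfsg.Agent.Chev.Chk
open scoped Matrix

namespace LC

/-- The node used for reading a coordinate. -/
def jr (a : D.Idx) : ℕ := LT.jL.getD (D.enc a - 7) 0
/-- The map `R2 → R2 / Z2`. -/
def lam2 (t : Γ) : V := fun a => if lv c2 a = 2 then (t.val *ᵥ D.hN F (jr a)) a else 0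
/-- The commutator with `u` applied to a Cartan vector. -/
def Dc (u t : Γ) : V := t.val *ᵥ (u.val *ᵥ D.hN F 1) - u.val *ᵥ (t.val *ᵥ D.hN F 1)
/-- Moving the top level. -/
def mv (i : ℕ) : List (ℕ × ℕ) := (List.range 7).map fun j => (190 + j, Nat.xor (sbit (126 + j)) (sbit (7 * i + j)))
/-- The combined commutators. -/
noncomputable def dl (g : Gens) (r : ℕ) : ℕ := List.rec 0 (fun p t ih => Nat.xor ih (force
  (Nat.xor (ap2 (tab r) p.2 (sbit 1)) (ap2 p.2 (tab r) (sbit 1))) (appT (mv (6 - t.length))))) g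
/-- The image of a word. -/
noncomputable def lw (l : List ℕ) : ℕ := mask ((l.filter (· < 119)).map (7 + ·))

theorem hN_mem (c : List ℤ) (j : ℕ) : D.hN F j ∈ Fl c 0 := by
  rintro (i | r) h
  · rw [lv_inl] at h; omega
  · rfl

theorem jr_inr (r : D.Rt) : jr (Sum.inr r) = LT.jL.getD r 0 := by
  rw [jr, show D.enc (Sum.inr r) = 7 + r by rw [← rank_eq]; rfl, Nat.add_sub_cancel_left]

theorem jL_chk : ∀ r < 126, LT.jL.getD r 0 < 7 ∧ D.cartan (LT.jL.getD r 0) r % 2 = 1 ∧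
    (2 ≤ D.fl c2 r → r < 119 → D.fl c2 r = 2 ∧ r ∈ LT.r35) := by decide +kernel

theorem lam2_mul {t t' : Γ} (ht : t ∈ R2) (ht' : t' ∈ R2) : lam2 (t * t') = lam2 t + lam2 t' := by
  funext a
  simp only [lam2, Pi.add_apply]
  split_ifs with h
  · have h1 := R2_raise ht (R2_raise ht' (hN_mem c2 (jr a))) a (by omega)
    have h2 : D.hN F (jr a) a = 0 := by
      rcases a with i | r
      · rw [lv_inl] at h; omega
      · rfl
    simp only [dv_eq, Matrix.mulVec_sub, Pi.sub_apply, h2, sub_zero] at h1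
    rw [mul_mulVec]; linear_combination h1
  · rw [add_zero]

theorem lam2_one : lam2 1 = 0 := by simpa using lam2_mul (one_mem R2) (one_mem R2)

theorem lam2_inr (t : Γ) (s : D.Rt) : lam2 t (Sum.inr s) = if D.fl c2 s = 2 then
    t.val (Sum.inr s) (Sum.inl (mkN _ (jL_chk s (lt126 s)).1)) else 0 := by
  rw [lam2, lv_inr, jr_inr, ← congrFun (mulVec_hN D t.val (mkN _ (jL_chk s (lt126 s)).1))]

theorem lam2_xr {r : ℕ} (hr : r < 126) (h : 2 ≤ D.fl c2 r) : lam2 (xr r) = if r < 119 then er r else 0 := by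
  funext a
  rcases a with i | s
  · rw [lam2, if_neg (by rw [lv_inl]; decide)]; split_ifs <;> rfl
  rw [lam2_inr, X_inr_inl D F (mkR r hr)]
  by_cases e : s = mkR r hr
  · subst e
    have h1 := jL_chk r hr
    have h2 := fl_c2 r hr
    rw [if_pos rfl, cast_eq_one_of_mod_two h1.2.1]
    by_cases h3 : r < 119
    · rw [if_pos h3, if_pos (h1.2.2 h h3).1]; simp [eN]
    · rw [if_neg h3, if_neg (show ¬ D.fl c2 r = 2 by omega)]; rfl
  · have : er r (Sum.inr s) = 0 := if_neg fun h => e (Fin.ext h)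
    rw [if_neg e, ite_self]
    split_ifs
    exacts [this.symm, rfl]

theorem mem_Z2 {t : Γ} (ht : t ∈ R2) (h : lam2 t = 0) : t ∈ Z2 := by
  by_cases h1 : t = 1
  · exact h1 ▸ one_mem _
  have hpos : ∀ r ∈ {r : D.Rt | 2 ≤ D.fl c2 r}, D.IsPosRoot r := fun r hr =>
    (Qth.pos_iff r).2 ((fl_c2 r (lt126 r)).2.2.2.2.2.1 (lt_of_lt_of_le two_pos hr))
  obtain ⟨r, hr, c, hc, z, hz, rfl⟩ := exists_min_root (S := {r : D.Rt | 2 ≤ D.fl c2 r}) (fun r hr s hs u i j hi hj e => by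
    have := congrArg (D.dotF fun i => c2.getD i 0) e
    rw [map_add, map_zsmul, map_zsmul, dotF_wt, dotF_wt, dotF_wt, smul_eq_mul, smul_eq_mul] at this
    rw [Set.mem_ofPred_eq] at hr hs ⊢
    have hi' : (1 : ℤ) ≤ i := by exact_mod_cast hi
    have hj' : (1 : ℤ) ≤ j := by exact_mod_cast hj
    nlinarith) hpos ht h1
  obtain rfl := (F_cases c).resolve_left hc
  by_cases h2 : (r : ℕ) < 119
  · exfalso
    have h3 := congrFun h (Sum.inr r)
    rw [lam2_mul (xr_mem_XN hr) (XS_mono' (fun _ h => h.1) hz), lam2_xr (lt126 r) hr, if_pos h2, Pi.add_apply, lam2_inr,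
      XS_entry_eq_zero hz fun h4 => ?_] at h3
    · simp [eN] at h3
    · rcases D.cone_le D.ht (m := D.ht (D.wt r) + 1) (by have := (D.isPos_iff_ht r).1 (hpos r hr); omega)
        (fun s hs => D.ht_lt_iff.2 hs.2) h4 with h5 | h5
      · exact D.wt_ne_zero r (by simpa [wtI] using h5)
      · simp [wtI] at h5
  · exact mul_mem (xr_mem_XN (not_lt.1 h2)) (XS_mono' (fun s hs => le_trans (not_lt.1 h2) (le_of_lt hs.2)) hz)

theorem vc_lw {l : List ℕ} (h : ∀ r ∈ l, r < 126 ∧ 2 ≤ D.fl c2 r) : vc (lw l) = lam2 (wd l) := by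
  induction l with
  | nil => exact vc_zero.trans lam2_one.symm
  | cons r l ih =>
    obtain ⟨h1, h2⟩ := List.forall_mem_cons.1 h
    rw [wd, word_cons, lam2_mul (xr_mem_XN h1.2) (wd_mem_XN fun r hr => (h2 r hr).2), ← ih h2, lam2_xr h1.1 h1.2, lw, lw,
      List.filter_cons]
    by_cases e : r < 119
    · rw [if_pos e, if_pos (by simpa using e), ← vc_er, add_comm, ← vc_xor]; rfl
    · rw [if_neg e, if_neg (by simpa using e), zero_add]

theorem Dc_mul {u t t' : Γ} (hu : u ∈ R2) (ht : t ∈ R2) (ht' : t' ∈ R2) : Dc u (t * t') = Dc u t + Dc u t' := by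
  have h0 := hN_mem c2 1
  have h1 := R2_raise ht (sub_mem (R2_raise ht' (R2_raise hu h0)) (R2_raise hu (R2_raise ht' h0)))
  have h2 := sub_mem (R2_raise ht (R2_raise hu (R2_raise ht' h0))) (R2_raise hu (R2_raise ht (R2_raise ht' h0)))
  have h3 := eq_zero_of_Fl (Fl_anti (by decide) (add_mem h1 h2))
  simp only [dv_eq, Matrix.mulVec_sub] at h3
  rw [Dc, Dc, Dc, mul_mulVec, mul_mulVec, ← sub_eq_zero, ← h3]
  abel

theorem exists_delta {g : Gens} (hg : Valid g) (hR : ∀ p ∈ g, wd p.1 ∈ R2) (hl : g.length ≤ 7) : ∃ Δ : Γ → V,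
    (∀ t ∈ R2, ∀ t' ∈ R2, Δ (t * t') = Δ t + Δ t') ∧ (∀ t, (∀ p ∈ g, Commute t (wd p.1)) → Δ t = 0) ∧
    ∀ r, vc (dl g r) = Δ (xr r) := by
  induction g with
  | nil => exact ⟨0, by simp, by simp, fun _ => vc_zero⟩
  | cons p g ih =>
    obtain ⟨h1, h2⟩ := List.forall_mem_cons.1 hg
    obtain ⟨h3, h4⟩ := List.forall_mem_cons.1 hR
    obtain ⟨Δ, a1, a2, a3⟩ := ih h2 h4 (by rw [List.length_cons] at hl; omega)
    obtain ⟨f, hf⟩ := exists_lin ((by decide +kernel : ∀ i < 7, keysOK (mv i) = true) (6 - g.length) (by omega))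
    refine ⟨fun t => Δ t + f (Dc (wd p.1) t), fun t ht t' ht' => ?_, fun t ht => ?_, fun r => ?_⟩
    · beta_reduce
      rw [a1 t ht t' ht', Dc_mul h3 ht ht', map_add]; abel
    · obtain ⟨h5, h6⟩ := List.forall_mem_cons.1 ht
      beta_reduce
      rw [a2 t h6, Dc, ← mul_mulVec, ← mul_mulVec, h5.eq, sub_self, map_zero, add_zero]
    · refine (vc_xor (dl g r) _).trans ?_
      beta_reduce
      rw [force_eq, hf, vc_xor, vc_ap2 (isT_tab r) h1, vc_ap2 h1 (isT_tab r), ← a3, Dc, sub_eq', mul_mulVec, mul_mulVec,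
        vc, vc, vec_sbit, bas_of_lt (rank_eq ▸ (by decide : 1 < 7))]

theorem chk1 : keysOK LT.TD = true ∧ (∀ r ∈ LT.r35, appT LT.TD (sbit (7 + r)) = dl UG r) ∧
    ∀ r < 126, 119 ≤ r → dl UG r = 0 := by decide +kernel
theorem chk2 : subChk (LT.r35.map fun r => sbit (7 + r)) ((LT.r28.map fun r => sbit (7 + r)) ++ uW.map lw) = true ∧
    rk ((LT.r28.map fun r => sbit (7 + r)).map (appT LT.TD)) 28 = true ∧ LT.r28.length = 28 ∧
    ∀ l ∈ uW, (∀ r ∈ l, r < 126 ∧ 2 ≤ D.fl c2 r) ∧ ∃ i < 7, uW.getD i [] = l := by decide +kernel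

end LC

open LC

theorem cent_R2 {t : Γ} (ht : t ∈ R2) (h : ∀ a ∈ U0, Commute t a) : ∃ a ∈ U0, ∃ z ∈ Z2, t = a * z := by
  have hU : ∀ p ∈ UG, wd p.1 ∈ U0 := fun p hp => grp_UG ▸ mem_grp hp
  obtain ⟨Δ, a1, a2, a3⟩ := exists_delta valid_UG (fun p hp => U0_le_R2 (hU p hp)) (by decide)
  obtain ⟨f, hf⟩ := exists_lin chk1.1
  have key : ∀ t ∈ R2, Δ t = f (lam2 t) ∧ lam2 t ∈ spn (LT.r35.map fun r => sbit (7 + r)) := fun t ht => by
    refine XN_induction (P := fun t => Δ t = f (lam2 t) ∧ lam2 t ∈ spn (LT.r35.map fun r => sbit (7 + r)))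
      ⟨by rw [lam2_one, map_zero]; exact a2 1 fun _ _ => Commute.one_left _, lam2_one ▸ zero_mem _⟩
      (fun r hr hp g hg ih => ?_) ht
    rw [a1 _ (xr_mem_XN hp) g hg, lam2_mul (xr_mem_XN hp) hg, map_add, ih.1, lam2_xr hr hp]
    split_ifs with e
    · have h1 := ((jL_chk r hr).2.2 hp e).2
      exact ⟨by rw [← a3, ← chk1.2.1 r h1, hf, vc_er],
        add_mem (vc_er r ▸ mem_spn (List.mem_map.2 ⟨r, h1, rfl⟩)) ih.2⟩
    · exact ⟨by rw [map_zero, ← a3, chk1.2.2 r hr (not_lt.1 e), vc_zero], by rw [zero_add]; exact ih.2⟩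
  obtain ⟨v, hv, w, hw, e⟩ := Submodule.mem_sup.1 (spn_append _ _ ▸ le_of_subChk chk2.1 (key t ht).2)
  have h1 : ∃ a ∈ U0, lam2 a = w := by
    clear e
    induction hw using Submodule.span_induction with
    | mem x hx =>
      obtain ⟨_, hm, rfl⟩ := hx
      obtain ⟨l, hl, rfl⟩ := List.mem_map.1 hm
      obtain ⟨h1, i, hi, rfl⟩ := chk2.2.2.2 l hl
      exact ⟨_, ub_mem_U0 hi, (vc_lw h1).symm⟩
    | zero => exact ⟨1, one_mem _, lam2_one⟩
    | add x y _ _ hx hy =>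
      obtain ⟨a, ha, rfl⟩ := hx
      obtain ⟨b, hb, rfl⟩ := hy
      exact ⟨a * b, mul_mem ha hb, lam2_mul (U0_le_R2 ha) (U0_le_R2 hb)⟩
    | smul c x _ hx =>
      rcases F_cases c with rfl | rfl
      · exact ⟨1, one_mem _, by rw [lam2_one, zero_smul]⟩
      · rwa [one_smul]
  obtain ⟨a, ha, rfl⟩ := h1
  have h2 : a * t ∈ R2 := mul_mem (U0_le_R2 ha) ht
  have h3 : lam2 (a * t) = v := by rw [lam2_mul (U0_le_R2 ha) ht, ← e, add_comm v, ← add_assoc, add_self, zero_add]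
  have h4 : f v = 0 := by
    rw [← h3, ← (key _ h2).1]
    exact a2 _ fun p hp => (U0_comm ha (hU p hp)).mul_left (h _ (hU p hp))
  have h5 := LinearMap.finrank_range_add_finrank_ker (f.domRestrict (spn (LT.r28.map fun r => sbit (7 + r))))
  have h6 := finrank_spn_le (LT.r28.map fun r => sbit (7 + r))
  rw [LinearMap.range_domRestrict, spn_map f (fun m _ => hf m), finrank_of_rk chk2.2.1] at h5
  rw [List.length_map, chk2.2.2.1] at h6
  have h7 : (⟨v, hv⟩ : spn _) ∈ LinearMap.ker (f.domRestrict (spn (LT.r28.map fun r => sbit (7 + r)))) := h4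
  rw [Submodule.finrank_eq_zero.1 (by omega : Module.finrank F (LinearMap.ker _) = 0), Submodule.mem_bot,
    Subtype.ext_iff] at h7
  exact ⟨a, ha, a * t, mem_Z2 h2 (h3.trans h7), by rw [← mul_assoc, U0_sq ha, one_mul]⟩

end Cfsg.Agent.E72
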