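import Mathlib
import Cfsg.Agent.E72.LDefs

/-! A subset of `ZMod 127` closed under both addition tables with ten points is everything. -/

set_option autoImplicit false

namespace Cfsg.Agent.E72

open Cfsg.Lie Cfsg.Lie.ChevalleyDatum Cfsg.Agent.Chev Cfsg.Agent.Chev.Chk
open scoped Matrix

namespace LComb

/-- A straight-line program producing new points. -/
def run : List (ZMod 127) → List (ZMod 127 × ZMod 127 × Bool) → List (ZMod 127)
  | S, [] => S
  | S, (a, b, t) :: l =>
    if a ∈ S ∧ b ∈ S ∧ b - a ≠ 0 then run ((a + if t then zA (b - a) else zB (b - a)) :: S) l else S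

/-- A straight-line program producing new good differences. -/
def run2 : List (ZMod 127) → List (ZMod 127) → List (ZMod 127)
  | S, [] => S
  | S, d :: l => if d ≠ 0 ∧ (zA d ∈ S ∨ zB d ∈ S ∨ -d ∈ S) then run2 (d :: S) l else S

/-- The program for the difference five. -/
def prog : List (ZMod 127 × ZMod 127 × Bool) := [
  (0, 5, true), (0, 5, false), (5, 54, false), (5, 82, true), (0, 54, false), (0, 82, true), (0, 41, true),
  (0, 41, false), (0, 38, true), (0, 38, false), (5, 41, true), (5, 38, false), (5, 23, false),
  (5, 75, true), (5, 75, false), (5, 58, false), (5, 85, false), (54, 38, false), (54, 107, true),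
  (54, 23, false), (54, 75, false), (54, 66, true), (54, 58, false), (54, 85, true), (54, 85, false),
  (54, 89, true), (54, 89, false), (54, 93, true), (54, 96, false), (54, 78, true), (54, 78, false),
  (54, 47, true), (82, 41, true), (82, 107, true), (82, 23, false), (82, 75, true), (82, 85, true),
  (82, 111, true), (82, 111, false), (82, 89, true), (82, 93, true), (82, 96, true), (82, 96, false),
  (82, 78, true), (82, 47, true), (82, 26, true), (82, 72, true), (82, 72, false), (82, 24, true),
  (82, 24, false), (82, 94, true), (82, 69, true), (82, 69, false), (82, 55, true), (82, 36, true),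
  (82, 36, false), (82, 45, true), (82, 27, true), (82, 7, false), (82, 50, true), (82, 110, true),
  (82, 48, false), (41, 107, true), (41, 66, true), (41, 85, true), (41, 96, false), (41, 114, true),
  (41, 78, true), (41, 26, true), (41, 52, true), (41, 51, true), (41, 55, true), (41, 36, true),
  (41, 36, false), (41, 50, true), (41, 110, true), (41, 48, false), (41, 60, true), (41, 76, false),
  (41, 18, true), (41, 101, false), (41, 83, true), (41, 84, false), (41, 88, true), (41, 88, false),
  (41, 106, true), (41, 106, false), (41, 34, true), (41, 34, false), (41, 62, true), (41, 62, false),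
  (41, 99, true), (41, 124, false), (41, 121, true), (41, 73, true), (41, 73, false), (41, 40, false),
  (41, 65, false), (41, 20, true), (41, 59, false), (38, 58, false), (38, 93, false), (38, 96, false),
  (38, 72, false), (38, 24, false), (38, 94, true), (38, 27, false), (38, 110, true), (38, 116, false),
  (38, 18, false), (38, 56, false), (38, 34, false), (38, 99, false), (38, 33, false), (38, 14, true),
  (38, 59, true), (38, 19, false), (38, 67, false), (38, 87, false), (38, 43, false), (38, 4, false),
  (38, 117, false), (38, 6, true), (38, 71, false), (0, 46, false)]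

/-- The order of the good differences. -/
def prog2 : List (ZMod 127) := [
  54, 73, 78, 82, 107, 114, 122, 13, 20, 23, 42, 45, 49, 50, 53, 55, 68, 69, 72, 74, 77, 80, 83, 85, 89, 91,
  92, 98, 102, 104, 116, 117, 10, 11, 17, 18, 22, 25, 26, 27, 29, 33, 34, 35, 36, 37, 38, 43, 44, 46, 47, 58,
  59, 61, 66, 70, 75, 76, 81, 84, 86, 87, 88, 90, 93, 94, 100, 101, 105, 106, 108, 109, 110, 118, 9, 19, 21,
  39, 40, 41, 51, 52, 57]

/-- The good differences. -/
def good (d : ZMod 127) : Bool := Nat.testBit 5921803514829693128396384567174245920 d.val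

theorem run_all : ∀ k, k ∈ run [0, 5] prog := by decide +kernel

theorem run2_all : ∀ d, good d = true → d ∈ run2 [5] prog2 := by decide +kernel

theorem few : ∀ a : ZMod 127, a ≠ 0 → good a = false → (Finset.univ.filter fun b : ZMod 127 =>
    (good b || good (b - a) || good (b - zA a) || good (b - zB a)) = false).card ≤ 9 := by
  decide +kernel

variable {P : ZMod 127 → Prop} (h1 : ∀ i d, d ≠ 0 → P i → P (i + d) → P (i + zA d))
  (h2 : ∀ i d, d ≠ 0 → P i → P (i + d) → P (i + zB d))
include h1 h2

theorem run_ok (i : ZMod 127) (l : List (ZMod 127 × ZMod 127 × Bool)) :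
    ∀ S : List (ZMod 127), (∀ x ∈ S, P (i + x)) → ∀ x ∈ run S l, P (i + x) := by
  induction l with
  | nil => exact fun _ h => h
  | cons p l ih =>
    obtain ⟨a, b, t⟩ := p
    intro S h
    rw [run]
    split_ifs with c ht
    all_goals first
      | exact h
      | refine ih _ (List.forall_mem_cons.2 ⟨?_, h⟩)
    · rw [← add_assoc]
      exact h1 _ _ c.2.2 (h a c.1) (by rw [add_assoc, add_sub_cancel]; exact h b c.2.1)
    · rw [← add_assoc]
      exact h2 _ _ c.2.2 (h a c.1) (by rw [add_assoc, add_sub_cancel]; exact h b c.2.1)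

theorem run2_ok (l : List (ZMod 127)) : ∀ S : List (ZMod 127),
    (∀ d ∈ S, ∀ i, P i → P (i + d) → ∀ k, P k) → ∀ d ∈ run2 S l, ∀ i, P i → P (i + d) → ∀ k, P k := by
  induction l with
  | nil => exact fun _ h => h
  | cons d l ih =>
    intro S h
    rw [run2]
    split_ifs with c
    · refine ih _ (List.forall_mem_cons.2 ⟨fun i a b => ?_, h⟩)
      rcases c.2 with e | e | e
      · exact h _ e i a (h1 _ _ c.1 a b)
      · exact h _ e i a (h2 _ _ c.1 a b)
      · exact h _ e _ b (by rwa [add_neg_cancel_right])
    · exact h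

theorem of_good {i j : ZMod 127} (hi : P i) (hj : P j) (h : good (j - i) = true) (k : ZMod 127) :
    P k :=
  run2_ok h1 h2 prog2 [5] (fun d hd i a b k => by
    obtain rfl := List.mem_singleton.1 hd
    have := run_ok h1 h2 i prog [0, 5] (by simpa using ⟨a, b⟩) (k - i) (run_all _)
    rwa [add_sub_cancel] at this) _ (run2_all _ h) i hi (by rwa [add_sub_cancel]) k

end LComb

open LComb

theorem comb127 (P : ZMod 127 → Prop) (h1 : ∀ i d, d ≠ 0 → P i → P (i + d) → P (i + zA d))
    (h2 : ∀ i d, d ≠ 0 → P i → P (i + d) → P (i + zB d)) (hc : 10 ≤ {k | P k}.ncard) (k : ZMod 127) : P k := by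
  by_contra hk
  have h3 : ∀ i j, P i → P j → good (j - i) = false := fun i j hi hj =>
    Bool.eq_false_iff.2 fun e => hk (of_good h1 h2 hi hj e k)
  obtain ⟨j, hj, i, hi, ne⟩ := (Set.one_lt_ncard (s := {k | P k})).1 (by omega)
  have h4 := sub_ne_zero.2 ne
  have h5 : P (i + (j - i)) := by rwa [add_sub_cancel]
  have h6 := few (j - i) h4 (h3 i j hi hj)
  rw [← Set.ncard_coe_finset] at h6
  refine absurd (hc.trans ((Set.ncard_le_ncard_of_injOn (fun x => x - i) (fun x hx => ?_)
    (sub_left_injective.injOn)).trans h6)) (by omega)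
  rw [Finset.coe_filter, Set.mem_ofPred_eq, sub_sub, sub_sub, sub_sub, h3 _ _ hi hx, h3 _ _ h5 hx,
    h3 _ _ (h1 _ _ h4 hi h5) hx, h3 _ _ (h2 _ _ h4 hi h5) hx]
  exact ⟨Finset.mem_univ _, rfl⟩

end Cfsg.Agent.E72
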