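import Mathlib
import Cfsg.Agent.E72.LDefs
import Cfsg.Agent.Chev.ChevBN

/-!
`E₇(2)`: the maximal parabolic subgroups, and the elements acting trivially on the lowest layer for the
parabolic subgroup `2^{7+35} L₇(2)`.
-/

set_option autoImplicit false

namespace Cfsg.Agent.E72

open Cfsg.Lie Cfsg.Lie.ChevalleyDatum Cfsg.Agent.Chev Cfsg.Agent.Chev.Chk
open scoped Matrix

namespace Par

theorem pos_iff (r : D.Rt) : D.IsPosRoot r ↔ 63 ≤ (r : ℕ) := by
  have := nroots_eq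
  rw [isPos_iff_le]; omega

theorem U_eq : D.posUnipotent F = XN fun r => 63 ≤ r := by
  rw [posUnipotent_eq_XS, XN_eq]; congr 1; ext r; exact pos_iff r

theorem H_eq_one {h : Γ} (hh : h ∈ D.diagonalSubgroup F) : h = 1 := by
  obtain ⟨c, rfl⟩ := exists_torus hh
  rw [show c = 1 from funext fun i => Units.ext (F_unit _), map_one]

theorem isCoatom_par (s : (D.bnPair F).S) : IsCoatom ((D.bnPair F).par {s}ᶜ) := by
  refine ⟨fun h => ?_, fun M hM => ?_⟩
  · rw [← BNPair.par_univ] at h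
    exact (Set.isCoatom_singleton_compl s).1 (BNPair.par_injective h)
  · have hB := ((D.bnPair F).B_le_par _).trans hM.le
    rw [BNPair.eq_par_of_le hB] at hM ⊢
    have h1 := BNPair.par_le_par_iff.1 hM.le
    rw [(Set.isCoatom_singleton_compl s).2 _ (lt_of_le_of_ne h1 fun e => hM.ne (congrArg (D.bnPair F).par e))]
    exact BNPair.par_univ (P := D.bnPair F)

/-- The nodes other than the second. -/
def J1 : Set D.Nd := {j | (j : ℕ) ≠ 1}

theorem not_mem_J1 {j : D.Nd} : j ∉ J1 ↔ j = mkN 1 (by decide) := by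
  rw [J1, Set.mem_setOf_eq, not_not, Fin.ext_iff]

theorem supp_J1 (r : D.Rt) : (∀ i, i ∉ J1 → D.cw r i = 0) ↔ D.fl c2 r = 0 := by
  have h := (fl_c2 r (lt126 r)).1
  simp only [not_mem_J1, forall_eq]
  change D.co r 1 = 0 ↔ _
  omega

theorem Q_J1 : (D.rootBN F).Q J1 = R2 := by
  rw [rootBN_Q_eq, R2_eq, XN_eq]; congr 1; ext r
  have h := fl_c2 r (lt126 r)
  simp only [not_mem_J1, exists_eq_left, Set.mem_setOf_eq]
  change _ ∧ D.co r 1 ≠ 0 ↔ _
  constructor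
  · rintro ⟨h1, h2⟩
    have h3 : 0 ≤ D.co r 1 := (D.isPos_iff_cw r).1 h1 (mkN 1 (by decide))
    omega
  · intro h1
    exact ⟨(pos_iff r).2 (h.2.2.2.2.2.1 (by omega)), by omega⟩

theorem US_J1 : (D.rootBN F).US J1 = XN fun r => 63 ≤ r ∧ D.fl c2 r = 0 := by
  rw [rootBN_US_eq, XN_eq]; congr 1; ext r
  simp only [Set.mem_setOf_eq, supp_J1, pos_iff]

theorem L_J1 : (D.rootBN F).L J1 = L2 := by
  have h : D.diagonalSubgroup F = ⊥ := eq_bot_iff.2 fun _ hh => H_eq_one hh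
  rw [rootBN_L_eq, h, bot_sup_eq, LJ, L2_eq, XN_eq]; congr 1; ext r
  simp only [Set.mem_setOf_eq, supp_J1]

theorem P_J1 : (D.rootBN F).P J1 = P2 := by
  rw [RootBN.P_eq_Q_sup_L, Q_J1, L_J1]
  refine le_antisymm (sup_le R2_le_P2 L2_le_P2) (XN_le_iff.2 fun r hr h => ?_)
  have h1 := (fl_c2 r hr).1
  by_cases h2 : D.fl c2 r = 0
  · exact Subgroup.mem_sup_right (xr_mem_XN h2)
  · exact Subgroup.mem_sup_left (xr_mem_XN (by omega))

theorem par_P2 : (D.bnPair F).par {D.nodeEquiv F (mkN 1 (by decide))}ᶜ = P2.subgroupOf G := by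
  rw [bn_par, ← P_J1]; congr 2; ext j
  rw [Set.mem_preimage, Set.mem_compl_singleton_iff, ← not_iff_not, not_mem_J1, not_not,
    (D.nodeEquiv F).injective.eq_iff]

theorem U_le_P2 : D.posUnipotent F ≤ P2 := by
  rw [← P_J1, RootBN.P_eq]; exact le_sup_left

theorem lv_low {r : ℕ} (h : r < 7) : lv c2 (Sum.inr (mkR r (by omega))) < -2 := by
  rw [lv_inr]
  have := fl_c2 r (by omega)
  change D.fl c2 r < -2
  omega

theorem U_diag {u : Γ} (hu : u ∈ D.posUnipotent F) (a : D.Idx) : u.val a a = 1 := by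
  rw [posUnipotent_eq_XS] at hu
  exact XS_diag D.ht (fun r hr => (D.isPos_iff_ht r).1 hr) hu a

theorem eq_one_of_fix {n : Γ} (hn : n ∈ D.monomialSubgroup F)
    (h : ∀ (r : ℕ) (hr : r < 7), D.wOf F n (mkR r (by omega)) = mkR r (by omega)) : n = 1 := by
  have hl : ∀ i : D.Nd, 0 < (∑ k : Fin 7, (((k : ℕ) : ℤ) - 7) • D.wt k) i := fun i => by
    rw [Finset.sum_apply]
    exact (by decide +kernel : ∀ i < 7, 0 < ∑ k : Fin 7, (((k : ℕ) : ℤ) - 7) * D.cartan i k) i (lt7 i)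
  have h1 := mem_NS_of_fix hn (J := ∅) _ (fun i => (hl i).le) (fun i e => (hl i).ne' e) fun r => by
    rw [dotProduct_sum, dotProduct_sum]
    refine Finset.sum_congr rfl fun k _ => ?_
    rw [dotProduct_smul, dotProduct_smul]
    exact congrArg _ (cw_dot_wOf (h k k.2) r)
  rw [RootBN.NS, Set.image_empty, Subgroup.closure_empty, bot_sup_eq] at h1
  exact H_eq_one h1

theorem mem_U_of_triv {t : Γ} (ht : t ∈ G) (h : ∀ v, dv t v ∈ Fl c2 (-2)) : t ∈ D.posUnipotent F := by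
  obtain ⟨u, hu, n, hn, u', hu', rfl⟩ := RootBN.bruhat (R := D.rootBN F) ht
  suffices hs : n = 1 by rw [hs, mul_one]; exact mul_mem hu hu'
  refine eq_one_of_fix hn fun r hr => ?_
  obtain ⟨a, ha⟩ := monomial_mulVec_eN hn (mkR r (by omega))
  have e : n.val *ᵥ er r = (u⁻¹ * u'⁻¹).val *ᵥ er r + (u⁻¹).val *ᵥ dv (u * n * u') ((u'⁻¹).val *ᵥ er r) := by
    rw [dv_eq, mul_mulVec, mul_mulVec, mulVec_inv, Matrix.mulVec_sub, mul_mulVec, inv_mulVec, add_sub_cancel]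
  have h1 := P2_keep (U_le_P2 (inv_mem hu)) (h ((u'⁻¹).val *ᵥ er r)) _ (lv_low hr)
  have h2 := congrFun e (Sum.inr (mkR r (by omega)))
  rw [Pi.add_apply, h1, add_zero] at h2
  have h3 : ((u⁻¹ * u'⁻¹).val *ᵥ er r) (Sum.inr (mkR r (by omega))) = 1 := by
    rw [show er r = D.eN F (mkR r (by omega)) from rfl, mulVec_eN]
    exact U_diag (mul_mem (inv_mem hu) (inv_mem hu')) _
  rw [h3, show er r = D.eN F (mkR r (by omega)) from rfl, ha, Pi.smul_apply, eN_inr] at h2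
  by_contra hne
  rw [if_neg fun e => hne e.symm, smul_zero] at h2
  exact zero_ne_one h2

set_option synthInstance.maxSize 1000 in
theorem act_low : ∀ r < 126, 63 ≤ r → D.fl c2 r = 0 → ∃ γ < 7, ∃ δ < 7, δ ≠ γ ∧
    D.actE r (7 + γ) = [(7 + γ, 0), (7 + δ, 1)] ∧ ∀ i < 7, D.cartan i δ - D.cartan i γ = D.cartan i r := by
  decide +kernel

theorem bas_er (s : ℕ) : D.bas F (7 + s) = er s := by rw [← rank_eq, bas_add]

theorem eq_one_of_triv {v : Γ} (hv : v ∈ XN fun r => 63 ≤ r ∧ D.fl c2 r = 0) (h : ∀ w, dv v w ∈ Fl c2 (-2)) :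
    v = 1 := by
  by_contra h1
  obtain ⟨r, hr, c, hc, z, hz, e⟩ := exists_min_root (S := {r : D.Rt | 63 ≤ (r : ℕ) ∧ D.fl c2 r = 0})
    (fun r hr s hs u i j hi _ e => ⟨(pos_iff u).1 (D.isPos_of_lin ((pos_iff r).2 hr.1) ((pos_iff s).2 hs.1) hi e), by
      rw [← D.dotF_wt, e, map_add, map_zsmul, map_zsmul, D.dotF_wt, D.dotF_wt, hr.2, hs.2]; simp⟩)
    (fun r hr => (pos_iff r).2 hr.1) hv h1
  obtain rfl : c = 1 := (F_cases c).resolve_left hc
  obtain ⟨γ, hγ, δ, hδ, hne, h2, h3⟩ := act_low r (lt126 r) hr.1 hr.2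
  have h4 : (xr r).val *ᵥ er γ = er γ + er δ := by
    rw [← bas_er γ, X_mulVec_bas, h2]; simp [bas_er]
  have h5 : z = xr r * v := by rw [e, ← mul_assoc, xr_sq, one_mul]
  have h6 : z.val *ᵥ er γ = er γ + er δ + (xr r).val *ᵥ dv v (er γ) := by
    rw [h5, mul_mulVec, dv_eq, Matrix.mulVec_sub, h4, add_sub_cancel]
  have h7 := P2_keep (xr_mem_XN (p := fun r => 0 ≤ D.fl c2 r) hr.2.ge) (h (er γ)) _ (lv_low hδ)
  have h8 := congrFun h6 (Sum.inr (mkR δ (by omega)))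
  rw [Pi.add_apply, h7, add_zero, Pi.add_apply, show er γ = D.eN F (mkR γ (by omega)) from rfl,
    show er δ = D.eN F (mkR δ (by omega)) from rfl, mulVec_eN, eN_inr, eN_inr, if_pos rfl,
    if_neg fun e => hne (congrArg Fin.val e), zero_add] at h8
  have h9 : D.wtI (Sum.inr (mkR δ (by omega))) - D.wtI (Sum.inr (mkR γ (by omega))) = D.wt r :=
    funext fun i => h3 i (lt7 i)
  refine zero_ne_one ((XS_entry_eq_zero hz fun hcone => ?_).symm.trans h8)
  rw [h9] at hcone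
  have h10 := (D.isPos_iff_ht r).1 ((pos_iff r).2 hr.1)
  rcases D.cone_le D.ht (m := D.ht (D.wt r) + 1) (by omega) (fun s hs => D.ht_lt_iff.2 hs.2) hcone with h11 | h11
  · exact D.wt_ne_zero r h11
  · omega

end Par

open Par

theorem exists_par : ∃ P : Fin 7 → Subgroup ↥G, (∀ i, IsCoatom (P i)) ∧
    (∀ i j, (∃ g : ↥G, (P i).map (MulAut.conj g).toMonoidHom = P j) → i = j) ∧
    ∀ i, ∀ q : ↥G, q.1 ∈ Q → q ∈ P i := by
  refine ⟨fun i => (D.bnPair F).par {D.nodeEquiv F (mkN i i.2)}ᶜ, fun i => isCoatom_par _, ?_, fun i q hq => ?_⟩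
  · rintro i j ⟨g, hg⟩
    have h1 : g ∈ (D.bnPair F).par {D.nodeEquiv F (mkN j j.2)}ᶜ :=
      BNPair.mem_of_conj_le ((D.bnPair F).B_le_par _) fun b hb =>
        hg.le ⟨b, (D.bnPair F).B_le_par _ hb, rfl⟩
    have h2 : (D.bnPair F).par {D.nodeEquiv F (mkN i i.2)}ᶜ ≤ (D.bnPair F).par {D.nodeEquiv F (mkN j j.2)}ᶜ :=
      fun x hx => by
        have h3 := mul_mem (mul_mem (inv_mem h1) (hg.le ⟨x, hx, rfl⟩)) h1
        rwa [show g⁻¹ * (MulAut.conj g).toMonoidHom x * g = x by simp [mul_assoc]] at h3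
    have h3 := Set.singleton_subset_singleton.1 (Set.compl_subset_compl.1 (BNPair.par_le_par_iff.1 h2))
    exact Fin.ext (congrArg Fin.val ((D.nodeEquiv F).injective h3)).symm
  · refine (D.bnPair F).B_le_par _ (D.UG_le_B F ?_)
    change q.1 ∈ D.posUnipotent F
    rw [U_eq]
    exact XN_mono (fun r _ h => by omega) hq

theorem P2_max {K : Subgroup Γ} (h1 : P2 ≤ K) (h2 : K ≤ G) : K = P2 ∨ K = G := by
  have h3 := isCoatom_par (D.nodeEquiv F (mkN 1 (by decide)))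
  rw [par_P2] at h3
  rcases h3.le_iff.1 (Subgroup.subgroupOf_mono G h1) with h | h
  · exact Or.inr (le_antisymm h2 (Subgroup.subgroupOf_eq_top.1 h))
  · left
    rwa [Subgroup.subgroupOf_inj, inf_eq_left.2 h2, inf_eq_left.2 (h1.trans h2)] at h

theorem U_eq_R2_mul {u : Γ} (hu : u ∈ D.posUnipotent F) :
    ∃ q ∈ R2, ∃ v ∈ XN (fun r => 63 ≤ r ∧ D.fl c2 r = 0), u = q * v := by
  rw [← Q_J1, ← US_J1]
  exact RootBN.factor_Q_US (R := D.rootBN F) J1 hu

theorem mem_R2_of_triv {t : Γ} (ht : t ∈ G) (h : ∀ v, dv t v ∈ Fl c2 (-2)) : t ∈ R2 := by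
  obtain ⟨q, hq, v, hv, rfl⟩ := U_eq_R2_mul (mem_U_of_triv ht h)
  suffices hs : v = 1 by rwa [hs, mul_one]
  refine eq_one_of_triv hv fun w => ?_
  have e : dv v w = (q⁻¹).val *ᵥ dv (q * v) w + dv q⁻¹ w := by
    rw [dv_eq, dv_eq, dv_eq, Matrix.mulVec_sub, mul_mulVec, inv_mulVec, sub_add_sub_cancel]
  rw [e]
  exact add_mem (P2_keep (R2_le_P2 (inv_mem hq)) (h w)) (R2_raise (inv_mem hq) (mem_Fl_bot w))

end Cfsg.Agent.E72
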