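import Mathlib
import Cfsg.Agent.E72.LFacts
import Cfsg.Agent.E72.LComb
import Cfsg.Agent.E72.Par

/-!
`E₇(2)`: the normaliser of the Sylow subgroup of `L₂(128)`.
-/

set_option autoImplicit false

namespace Cfsg.Agent.E72

open Cfsg.Lie Cfsg.Lie.ChevalleyDatum Cfsg.Agent.Chev Cfsg.Agent.Chev.Chk
open scoped Matrix

namespace LNorm

/-- The stabiliser of the top level. -/
def Kst : Subgroup Γ where
  carrier := {g | g ∈ G ∧ (∀ v ∈ Fl c2 4, g.val *ᵥ v ∈ Fl c2 4) ∧ ∀ v ∈ Fl c2 4, (g⁻¹).val *ᵥ v ∈ Fl c2 4}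
  one_mem' := ⟨one_mem _, fun v hv => by rwa [one_mulVec'], fun v hv => by rwa [inv_one, one_mulVec']⟩
  mul_mem' := fun {a b} ha hb => ⟨mul_mem ha.1 hb.1, fun v hv => by
    rw [mul_mulVec]; exact ha.2.1 _ (hb.2.1 v hv), fun v hv => by
    rw [mul_inv_rev, mul_mulVec]; exact hb.2.2 _ (ha.2.2 v hv)⟩
  inv_mem' := fun {a} ha => ⟨inv_mem ha.1, ha.2.2, by rw [inv_inv]; exact ha.2.1⟩

theorem y_not_mem : xr 0 ∉ Kst := fun h => by
  have h1 : er 125 ∈ Fl c2 4 := er_mem_Fl ((fl_c2 125 (by decide)).2.2.2.1.2 (by decide)).ge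
  have h2 := h.2.1 _ h1 (Sum.inl (mkN 2 (by decide))) (by rw [lv_inl]; decide)
  have h3 := D.X_mulVec_eN_ng_inl F (mkR 0 (by decide)) 1 (mkN 2 (by decide))
  rw [ng_val126] at h3
  have h4 : ((D.co 0 2 : ℤ) : F) = 1 := by decide +kernel
  have h5 := h2.symm.trans h3
  rw [one_mul] at h5
  exact zero_ne_one (h5.trans h4)

theorem keep_top {t : Γ} (h : ∀ a ∈ U0, t * a * t⁻¹ ∈ U0) {v : V} (hv : v ∈ Fl c2 4) : t.val *ᵥ v ∈ Fl c2 4 := by
  have h1 : v ∈ Submodule.span F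
      {v | ∃ a ∈ U0, ∃ b ∈ U0, ∃ c ∈ U0, ∃ d ∈ U0, ∃ w, v = dv a (dv b (dv c (dv d w)))} := by
    rw [← Finset.univ_sum_single v]
    refine Submodule.sum_mem _ fun a _ => ?_
    by_cases h0 : lv c2 a < 4
    · rw [hv a h0, Pi.single_zero]; exact zero_mem _
    rcases a with i | r
    · exact absurd (by rw [lv_inl]; decide) h0
    · rw [lv_inr] at h0
      have h2 := fl_c2 r (lt126 r)
      have h3 := lt126 r
      have h4 := Submodule.smul_mem _ (v (Sum.inr r)) (er_mem_I4 (r := r) (by omega) (by omega))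
      rwa [er, eN_eq_single, ← Pi.single_smul', smul_eq_mul, mul_one] at h4
  refine (Submodule.span_le (p := (Fl c2 4).comap (Matrix.toLin' t.val))).2 ?_ h1
  rintro _ ⟨a, ha, b, hb, c, hc, d, hd, w, rfl⟩
  change t.val *ᵥ _ ∈ Fl c2 4
  rw [← dv_conj, ← dv_conj, ← dv_conj, ← dv_conj]
  exact R2_raise (k := 2) (U0_le_R2 (h a ha)) (R2_raise (k := 0) (U0_le_R2 (h b hb))
    (R2_raise (k := -2) (U0_le_R2 (h c hc)) (R2_raise (k := -4) (U0_le_R2 (h d hd)) (mem_Fl_bot _))))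

theorem uk_add (i d : ZMod 127) : uk (i + d) = sp i * uk d * (sp i)⁻¹ := by
  rw [uk_eq, uk_eq, sp_add]; group

theorem ak_add' (i d : ZMod 127) : ak (i + d) = (sp i).val *ᵥ ak d := by
  rw [ak_eq, ak_eq, sp_add, mul_mulVec]

theorem count {t : Γ} (h : ∀ a ∈ U0, t * a * t⁻¹ ∈ U0) (h2 : t * t ∈ U0) :
    10 ≤ {k | t * uk k * t⁻¹ = uk k}.ncard := by
  by_contra hlt
  let C : Set Γ := {a | a ∈ U0 ∧ t * a * t⁻¹ = a}
  have hC : C.ncard ≤ 10 := by
    have h1 : C ⊆ insert 1 (uk '' {k | t * uk k * t⁻¹ = uk k}) := fun a ha => by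
      rcases U0_cases ha.1 with rfl | ⟨k, rfl⟩
      · exact Or.inl rfl
      · exact Or.inr ⟨k, ha.2, rfl⟩
    have h3 := (Set.ncard_le_ncard h1).trans (Set.ncard_insert_le _ _)
    rw [Set.ncard_image_of_injective _ uk_inj] at h3
    omega
  let φ : U0 →* Γ := MonoidHom.mk' (fun a => a * (t * a * t⁻¹)) fun a b => by
    have := (U0_comm b.2 (h a a.2)).eq
    rw [Subgroup.coe_mul, show t * (a * b) * t⁻¹ = t * a * t⁻¹ * (t * b * t⁻¹) by group, mul_assoc (a : Γ),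
      ← mul_assoc (b : Γ), this]
    simp only [mul_assoc]
  have k1 : Nat.card φ.ker ≤ C.ncard := by
    rw [← Nat.card_coe_set_eq]
    refine Nat.card_le_card_of_injective (fun a => ⟨a.1.1, a.1.2, ?_⟩) fun a b e =>
      Subtype.ext (Subtype.ext (congrArg (fun z : C => z.1) e))
    have h3 : a.1.1 * (t * a.1.1 * t⁻¹) = 1 := a.2
    rw [← U0_sq a.1.2] at h3
    exact mul_left_cancel h3
  have k2 : Nat.card φ.range ≤ C.ncard := by
    refine Set.ncard_le_ncard (s := (φ.range : Set Γ)) ?_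
    rintro _ ⟨a, rfl⟩
    refine ⟨mul_mem a.2 (h a a.2), ?_⟩
    change t * (a * (t * a * t⁻¹)) * t⁻¹ = a * (t * a * t⁻¹)
    rw [(U0_comm a.2 (h a a.2)).eq, show t * (t * a * t⁻¹ * a) * t⁻¹ = t * t * a * (t * t)⁻¹ * (t * a * t⁻¹) by group,
      (U0_comm h2 a.2).eq, mul_inv_cancel_right, (U0_comm a.2 (h a a.2)).eq]
  have k3 : 127 ≤ Nat.card U0 := by
    have := Nat.card_le_card_of_injective (fun k => (⟨uk k, uk_mem k⟩ : U0)) fun a b e =>
      uk_inj (congrArg Subtype.val e)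
    rwa [Nat.card_zmod] at this
  rw [← φ.ker.card_mul_index, Subgroup.index_ker] at k3
  have := Nat.mul_le_mul (k1.trans hC) (k2.trans hC)
  omega

end LNorm

open LNorm

theorem mem_P2_of_norm {t : Γ} (ht : t ∈ G) (h : ∀ a ∈ U0, t * a * t⁻¹ ∈ U0) : t ∈ P2 := by
  have h1 : P2 ≤ Kst := fun g hg => ⟨XN_le_G _ hg, fun v hv => P2_keep hg hv, fun v hv => P2_keep (inv_mem hg) hv⟩
  have h2 : t ∈ Subgroup.normalizer (U0 : Set Γ) := Subgroup.mem_normalizer_fintype h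
  rcases P2_max h1 fun g hg => hg.1 with e | e
  · rw [← e]
    refine ⟨ht, fun v hv => keep_top h hv, fun v hv => keep_top (fun a ha => ?_) hv⟩
    exact (Subgroup.mem_normalizer_iff.1 (inv_mem h2) a).1 ha
  · exact absurd (e ▸ xr_mem 0) y_not_mem

theorem conj_P2_Z2 {t z : Γ} (ht : t ∈ P2) (hz : z ∈ Z2) : t * z * t⁻¹ ∈ Z2 := by
  refine XN_induction (P := fun t => t * z * t⁻¹ ∈ Z2) (by simpa using hz) (fun r hr h0 g _ ih => ?_) ht
  rw [show xr r * g * z * (xr r * g)⁻¹ = xr r * (g * z * g⁻¹) * (xr r)⁻¹ by group]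
  refine D.X_conj_mem_XS F (r := mkR r hr) subset_rfl (fun h1 => ?_) (fun s hs u i j hi hj e => ?_) 1 ih
  · have h2 : 119 ≤ (D.ng (mkR r hr) : ℕ) := h1
    rw [ng_val126] at h2
    have h3 := (fl_c2 (125 - r) (by omega)).2.2.2.1.2 h2
    have h4 := (fl_c2 r hr).2.2.2.2.2.2
    omega
  · have h2 := congrArg (D.dotF fun i => c2.getD i 0) e
    rw [map_add, map_zsmul, map_zsmul, D.dotF_wt, D.dotF_wt, D.dotF_wt, (fl_c2 s (lt126 s)).2.2.2.1.2 hs,
      smul_eq_mul, smul_eq_mul] at h2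
    obtain ⟨-, -, h3, h5, -⟩ := fl_c2 u (lt126 u)
    have h4 : 0 ≤ (i : ℤ) * D.fl c2 r := mul_nonneg (Nat.cast_nonneg i) h0
    have h6 : D.fl c2 u = i * D.fl c2 r + j * 4 := h2
    exact h5.1 (by omega)

theorem Rel.conj {t g : Γ} {a : V} (ht : t ∈ P2) (h : Rel g a) : Rel (t * g * t⁻¹) (t.val *ᵥ a) := by
  obtain ⟨h0, z, hz, z', hz', h1, h2, h3, h4, h5⟩ := h
  refine ⟨fun k => h0 ?_, _, conj_P2_Z2 ht hz, _, conj_P2_Z2 ht hz', by simpa using h1, by simpa using h2,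
    by simpa using h3, ?_, ?_⟩
  · rw [← inv_mulVec t a]; exact P2_keep (inv_mem ht) k
  · rw [dv_conj, dv_conj]; exact P2_keep ht h4
  · rw [dv_conj, dv_conj]; exact P2_keep ht h5

theorem cent_of_sq {t : Γ} (ht : t ∈ G) (h : ∀ a ∈ U0, t * a * t⁻¹ ∈ U0) (h2 : t * t ∈ U0) :
    (∀ a ∈ U0, Commute t a) ∧ ∀ v, dv t v ∈ Fl c2 (-2) := by
  have hP := mem_P2_of_norm ht h
  have sP : ∀ k, sp k ∈ P2 := fun k => L2_le_P2 (sp_mem_L2 k)
  have r1 : ∀ k, Rel (uk k) (ak k) := fun k => rel_base.conj (sP k)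
  have r2 : ∀ {k a}, Rel (uk k) a → a - ak k ∈ Fl c2 (-2) := fun {k a} r => by
    have h3 := r.conj (inv_mem (sP k))
    rw [uk_eq, show (sp k)⁻¹ * (sp k * ub 0 * (sp k)⁻¹) * (sp k)⁻¹⁻¹ = ub 0 by group] at h3
    have h4 := P2_keep (sP k) (rel_unique h3)
    rwa [Matrix.mulVec_sub, mulVec_inv] at h4
  have iff : ∀ k, t * uk k * t⁻¹ = uk k ↔ dv t (ak k) ∈ Fl c2 (-2) := fun k => by
    have h3 := (r1 k).conj hP
    refine ⟨fun e => r2 (e ▸ h3), fun e => ?_⟩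
    rcases U0_cases (h _ (uk_mem k)) with e1 | ⟨j, e1⟩
    · exact absurd (by simpa using e1) (uk_ne_one k)
    · rw [e1] at h3 ⊢
      have h4 := sub_mem (r2 h3) e
      rw [dv_eq, sub_sub_sub_cancel_left] at h4
      rw [ak_inj h4]
  have all := comb127 (fun k => t * uk k * t⁻¹ = uk k) (fun i d hd h3 h4 => by
      have e : uk (i + zA d) = uk i * uk (i + d) := by
        rw [uk_add, uk_add, ← uk_mul hd, uk_zero, uk_eq i]; group
      rw [e, show t * (uk i * uk (i + d)) * t⁻¹ = t * uk i * t⁻¹ * (t * uk (i + d) * t⁻¹) by group, h3, h4])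
    (fun i d hd h3 h4 => by
      have e : ak (i + zB d) = ak i + ak (i + d) := by
        rw [ak_add', ak_add', ← ak_add hd, ak_zero, ak_eq i, Matrix.mulVec_add]
      rw [iff] at h3 h4 ⊢
      rw [e, dv_add]; exact add_mem h3 h4) (count h h2)
  have kp : ∀ v ∈ Fl c2 (-2), dv t v ∈ Fl c2 (-2) := fun v hv => sub_mem (P2_keep hP hv) hv
  refine ⟨fun a ha => ?_, fun v => ?_⟩
  · rcases U0_cases ha with rfl | ⟨k, rfl⟩
    · exact Commute.one_right _
    · exact mul_inv_eq_iff_eq_mul.1 (all k)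
  · rcases ak_cases v with hv | ⟨k, hv⟩
    · exact kp v hv
    · rw [← sub_add_cancel v (ak k), dv_add]
      exact add_mem (kp _ hv) ((iff k).1 (all k))

end Cfsg.Agent.E72
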