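import Mathlib
import Cfsg.Agent.E72.LNorm
import Cfsg.Agent.E72.LCent
import Cfsg.Agent.E72.Gen

/-! `E₇(2)`: a proper overgroup of `L₂(128)` contains no root involution. -/

set_option autoImplicit false

namespace Cfsg.Agent.E72

open Cfsg.Lie Cfsg.Lie.ChevalleyDatum Cfsg.Agent.Chev Cfsg.Agent.Chev.Chk
open scoped Matrix Pointwise

theorem LSyl.conj_mem {K : Type*} [Group K] [Finite K] {U : Subgroup K} (hU : IsPGroup 2 U)
    (h : ∀ t : K, (∀ a ∈ U, t * a * t⁻¹ ∈ U) → t * t ∈ U → t ∈ U) {a : K} (a2 : a * a = 1) :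
    ∃ m : K, m * a * m⁻¹ ∈ U := by
  have h1 : ∀ (k : ℕ) (t : K), (∀ a ∈ U, t * a * t⁻¹ ∈ U) → t ^ 2 ^ k ∈ U → t ∈ U := by
    intro k
    induction k with
    | zero => intro t _ ht; simpa using ht
    | succ k ih =>
      intro t hn ht
      refine h t hn (ih _ (fun a ha => ?_) (by rwa [← pow_two, ← pow_mul, ← pow_succ']))
      have := hn _ (hn a ha)
      rwa [show t * (t * a * t⁻¹) * t⁻¹ = t * t * a * (t * t)⁻¹ by group] at this
  obtain ⟨T, hT⟩ := hU.exists_le_sylow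
  have h2 : (T : Subgroup K) ≤ U := by
    by_contra hn
    have := T.2.isNilpotent
    obtain ⟨t, ht, ht'⟩ := SetLike.exists_of_lt (Group.normalizerCondition_of_isNilpotent
      (U.subgroupOf T) (lt_top_iff_ne_top.2 fun e => hn (Subgroup.subgroupOf_eq_top.1 e)))
    obtain ⟨k, hk⟩ := T.2 t
    refine ht' (h1 k t (fun a ha => (Subgroup.mem_normalizer_iff.1 ht ⟨a, hT ha⟩).1 ha) ?_)
    rw [← Subgroup.coe_pow, hk]
    exact one_mem _
  obtain ⟨Q, hQ⟩ := (IsPGroup.of_card_dvd_pow (G := Subgroup.zpowers a) (p := 2) (n := 1) (by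
    rw [Nat.card_zpowers, pow_one]
    exact orderOf_dvd_of_pow_eq_one (by rw [pow_two, a2]))).exists_le_sylow
  obtain ⟨g, rfl⟩ := MulAction.exists_smul_eq K T Q
  have := hQ (Subgroup.mem_zpowers _)
  rw [Sylow.coe_subgroup_smul, Subgroup.mem_pointwise_smul_iff_inv_smul_mem] at this
  exact ⟨g⁻¹, h2 (by simpa using this)⟩

theorem no_root_of_A12 {M : Subgroup Γ} (hA : A12 ≤ M) (hM : M ≤ G) (hne : M ≠ G) (g : Γ) :
    g * xr 125 * g⁻¹ ∉ M := by
  intro hg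
  have hs := hA sg_mem_A12
  have hu := hA ub_mem_A12
  have hn := hA n0_mem_A12
  have hU := U0_le_of hs hu
  obtain ⟨m, hm⟩ := LSyl.conj_mem (K := M) (U := U0.subgroupOf M)
    (fun a => ⟨1, Subtype.ext (Subtype.ext (by simpa [pow_two] using U0_sq a.2))⟩)
    (fun t h1 h2 => by
      obtain ⟨h3, h4⟩ := cent_of_sq (hM t.2) (fun a ha => h1 ⟨a, hU ha⟩ ha) h2
      obtain ⟨a, ha, z, hz, e⟩ := cent_R2 (mem_R2_of_triv (hM t.2) h4) h3
      by_cases h5 : z = 1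
      · rw [h5, mul_one] at e
        exact Subgroup.mem_subgroupOf.2 (e ▸ ha)
      have h6 := Z2_le_of hs hz h5 ((mul_mem_cancel_left (hU ha)).1 (e ▸ t.2))
      refine (hne (eq_G_of_A7 hM (fun r r1 r2 => ?_) hu)).elim
      have h7 : xr r ∈ M := h6 (xr_mem_XN r1)
      exact ⟨h7, n0_conj r1 r2 ▸ mul_mem (mul_mem hn h7) (inv_mem hn)⟩)
    (a := ⟨_, hg⟩) (Subtype.ext (by
      change g * xr 125 * g⁻¹ * (g * xr 125 * g⁻¹) = 1
      rw [conj_mul, xr_sq, mul_one, mul_inv_cancel]))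
  rcases U0_cases (show m.1 * (g * xr 125 * g⁻¹) * m.1⁻¹ ∈ U0 from hm) with e | ⟨k, e⟩
  · rw [conj_eq_one_iff, conj_eq_one_iff] at e
    exact one_ne_zero ((D.X_eq_one_iff F (mkR 125 (by norm_num)) 1).1 e)
  · refine ub_not_root (g := (sp k)⁻¹ * m.1 * g) ?_
    rw [uk_eq] at e
    calc _ = (sp k)⁻¹ * (m.1 * (g * xr 125 * g⁻¹) * m.1⁻¹) * sp k := by group
      _ = ub 0 := by rw [e]; group

end Cfsg.Agent.E72
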