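import Mathlib
import Cfsg.Agent.E72.Geo
import Cfsg.Agent.E72.Key
import Cfsg.Agent.E72.Gen

set_option autoImplicit false

namespace Cfsg.Agent.E72

open Cfsg.Lie Cfsg.Lie.ChevalleyDatum Cfsg.Agent.Chev Cfsg.Agent.Chev.Chk
open scoped Matrix

namespace Sep

theorem inj (g : Γ) : Function.Injective (Matrix.toLin' g.val) := fun v w e => by
  rw [Matrix.toLin'_apply, Matrix.toLin'_apply] at e
  rw [← inv_mulVec g v, e, inv_mulVec]

/-- Root vectors of root involutions of `M` not conjugate to `x` span little. -/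
theorem bound {A M : Subgroup Γ} {W : Submodule F V} {g : Γ} (h : CaseOK A W) (hA : A ≤ M) (hM : M ≤ G)
    (hne : M ≠ G) {s : Set V}
    (hs : ∀ v ∈ s, ∃ b ∈ M, Rt b (g.val *ᵥ v) ∧ ∀ m ∈ M, m * b * m⁻¹ ≠ xr 125) :
    Module.finrank F (Submodule.span F s) ≤ 26 := by
  rw [(Submodule.equivMapOfInjective _ (inj g) _).finrank_eq]
  refine h.fix _ ?_
  rintro _ ⟨w, hw, rfl⟩ m hm
  rw [Matrix.toLin'_apply]
  induction hw using Submodule.span_induction with
  | mem v hv =>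
    obtain ⟨b, hb, h1, h2⟩ := hs v hv
    have k := hA hm
    rcases lemK hM (hA h.x_mem) (hA h.y_mem) (h.isW M hA hM hne) h.nd (h1.conj (hM (inv_mem k)))
      (mul_mem (mul_mem (inv_mem k) hb) (inv_mem (inv_mem k))) with e | ⟨n, hn, e⟩
    · rw [mul_mulVec, mul_mulVec, e, mulVec_inv]
    · exact absurd (by rw [← e]; group) (h2 (n * m⁻¹) (mul_mem hn (inv_mem k)))
  | zero => rw [Matrix.mulVec_zero, Matrix.mulVec_zero]
  | add v w _ _ h1 h2 => rw [Matrix.mulVec_add, Matrix.mulVec_add, h1, h2]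
  | smul t v _ h1 => rw [Matrix.mulVec_smul, Matrix.mulVec_smul, h1]

theorem rank32 : Module.finrank F (Submodule.span F (Set.range fun i : Fin 32 => er (93 + i))) = 32 := by
  have := (Pi.basisFun F D.Idx).linearIndependent.comp
    (fun i : Fin 32 => (Sum.inr (mkR (93 + i) (by omega)) : D.Idx)) fun i j e => by
      have : 93 + (i : ℕ) = 93 + j := congrArg Fin.val (Sum.inr_injective e)
      exact Fin.ext (by omega)
  have e : (fun i : Fin 32 => er (93 + i)) = (Pi.basisFun F D.Idx) ∘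
      fun i : Fin 32 => (Sum.inr (mkR (93 + i) (by omega)) : D.Idx) := funext fun i => by
    rw [Function.comp_apply, Pi.basisFun_apply, ← D.eN_eq_single]
  rw [e, finrank_span_eq_card this, Fintype.card_fin]

theorem exists_conj {H : Type*} [Group H] {A M K : Subgroup H} {g m : H} (hM : M ≤ K) (hne : M ≠ K)
    (hg : g ∈ K) (hc : ∀ a ∈ A, g * a * g⁻¹ ∈ M) (hm : m ∈ M) :
    ∃ M' : Subgroup H, (∀ a, a ∈ M' ↔ m * g * a * (m * g)⁻¹ ∈ M) ∧ A ≤ M' ∧ M' ≤ K ∧ M' ≠ K := by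
  have hc' : m * g ∈ K := mul_mem (hM hm) hg
  refine ⟨M.comap (MulAut.conj (m * g)).toMonoidHom, fun _ => Iff.rfl, fun a ha => ?_, fun a ha => ?_,
    fun k => hne (le_antisymm hM fun a ha => ?_)⟩
  · show m * g * a * (m * g)⁻¹ ∈ M
    rw [show m * g * a * (m * g)⁻¹ = m * (g * a * g⁻¹) * m⁻¹ by group]
    exact mul_mem (mul_mem hm (hc a ha)) (inv_mem hm)
  · have : m * g * a * (m * g)⁻¹ ∈ K := hM ha
    exact (mul_mem_cancel_left hc').1 ((mul_mem_cancel_right (inv_mem hc')).1 this)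
  · have : m * g * ((m * g)⁻¹ * a * (m * g)) * (m * g)⁻¹ ∈ M :=
      k.ge (mul_mem (mul_mem (inv_mem hc') ha) hc')
    rwa [show m * g * ((m * g)⁻¹ * a * (m * g)) * (m * g)⁻¹ = a by group] at this

end Sep

theorem sep_cases {A A' M : Subgroup Γ} {W W' : Submodule F V} {g : Γ} (h : CaseOK A W) (h' : CaseOK A' W')
    (hb : Big A') (hA : A ≤ M) (hM : M ≤ G) (hne : M ≠ G) (hg : g ∈ G) (hc : ∀ a ∈ A', g * a * g⁻¹ ∈ M) :
    key W = key W' := by
  by_cases hx : ∃ m ∈ M, m * (g * xr 125 * g⁻¹) * m⁻¹ = xr 125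
  · obtain ⟨m, hm, e⟩ := hx
    obtain ⟨M', h1, h2, h3, h4⟩ := Sep.exists_conj hM hne hg hc hm
    exact key_eq_of_conj (mul_mem (hM hm) hg) (mul_inv_eq_iff_eq_mul.1 (Eq.trans (by group) e)) h1
      (h.isW M hA hM hne) (h'.isW _ h2 h3 h4)
  · have := Sep.bound (g := g) (s := {v | ∃ m ∈ A', v = m.val *ᵥ er 125}) h hA hM hne (by
      rintro _ ⟨a, ha, rfl⟩
      refine ⟨_, hc _ (mul_mem (mul_mem ha h'.x_mem) (inv_mem ha)), (Rt_x.conj (h'.le ha)).conj hg,
        fun m hm e => hx ⟨_, mul_mem hm (hc a ha), Eq.trans (by group) e⟩⟩)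
    unfold Big at hb
    exact absurd (le_trans hb this) (by norm_num)

theorem sep_Q {A M : Subgroup Γ} {W : Submodule F V} {g : Γ} (h : CaseOK A W) (hA : A ≤ M) (hM : M ≤ G)
    (hne : M ≠ G) (hg : g ∈ G) (hc : ∀ q ∈ Q, g * q * g⁻¹ ∈ M) : False := by
  by_cases hx : ∃ m ∈ M, m * (g * xr 125 * g⁻¹) * m⁻¹ = xr 125
  · obtain ⟨m, hm, e⟩ := hx
    have hc' : m * g ∈ G := mul_mem (hM hm) hg
    have k : Commute (m * g) (xr 125) := mul_inv_eq_iff_eq_mul.1 (Eq.trans (by group) e)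
    refine hne (eq_G_of_Q hM (hA h.y_mem) fun q hq => ?_)
    have := mul_mem (mul_mem hm (hc _ (conj_cent_Q (inv_mem hc') k.inv_left hq))) (inv_mem hm)
    rwa [show m * (g * ((m * g)⁻¹ * q * (m * g)⁻¹⁻¹) * g⁻¹) * m⁻¹ = q by group] at this
  · have := Sep.bound (g := g) (s := Set.range fun i : Fin 32 => er (93 + i)) h hA hM hne (by
      rintro _ ⟨i, rfl⟩
      have h1 : 93 ≤ 93 + (i : ℕ) := by omega
      have h2 : 93 + (i : ℕ) ≤ 124 := by omega
      refine ⟨_, hc _ (xr_mem_XN h1), (Rt_xr h1 h2).conj hg, fun m hm e => ?_⟩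
      obtain ⟨n, hn, n1, n2, -⟩ := exists_swap h1 h2
      have e1 : m * g * n * xr 125 * (m * g * n)⁻¹ = xr 125 := by
        rw [show m * g * n * xr 125 * (m * g * n)⁻¹ = m * (g * (n * xr 125 * n⁻¹) * g⁻¹) * m⁻¹ by group, n1, e]
      have e2 : m * g * n * xr (93 + i) * (m * g * n)⁻¹ = m * (g * xr 125 * g⁻¹) * m⁻¹ := by
        rw [← n2]; group
      obtain ⟨k, hk, e3⟩ := col hM (hA h.x_mem) (hA h.y_mem) (h.isW M hA hM hne) h.nd
        (mul_mem (mul_mem (hM hm) hg) hn) (mul_inv_eq_iff_eq_mul.1 e1) h1 h2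
        (e2 ▸ mul_mem (mul_mem hm (hc _ x_mem_Q)) (inv_mem hm))
      exact hx ⟨k * m, mul_mem hk hm, by
        rw [show k * m * (g * xr 125 * g⁻¹) * (k * m)⁻¹ = k * (m * (g * xr 125 * g⁻¹) * m⁻¹) * k⁻¹ by group,
          ← e2, e3]⟩)
    rw [Sep.rank32] at this
    omega

end Cfsg.Agent.E72
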