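import Mathlib
import Cfsg.Agent.E72.Sep
import Cfsg.Agent.E72.Cases
import Cfsg.Agent.E72.LSyl

/-! Nineteen pairwise non-conjugate maximal subgroups of `E₇(2)`. -/

set_option autoImplicit false

namespace Cfsg.Agent.E72

open Cfsg.Lie Cfsg.Lie.ChevalleyDatum Cfsg.Agent.Chev Cfsg.Agent.Chev.Chk
open scoped Matrix

namespace Main

variable {X : Type*} [Group X] {H : Subgroup X}

/-- Conjugacy of subgroups of `H`. -/
def Cj (A B : Subgroup H) : Prop := ∃ g : H, A.map (MulAut.conj g).toMonoidHom = B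

theorem Cj.symm {A B : Subgroup H} (h : Cj A B) : Cj B A := by
  obtain ⟨g, rfl⟩ := h
  refine ⟨g⁻¹, ?_⟩
  rw [Subgroup.map_map, show (MulAut.conj g⁻¹).toMonoidHom.comp (MulAut.conj g).toMonoidHom =
    MonoidHom.id _ from MonoidHom.ext fun a => by simp [mul_assoc], Subgroup.map_id]

theorem Cj.mem {A B : Subgroup H} (h : Cj A B) :
    ∃ g ∈ H, ∀ a ∈ A.map H.subtype, g * a * g⁻¹ ∈ B.map H.subtype := by
  obtain ⟨g, rfl⟩ := h
  refine ⟨g, g.2, ?_⟩
  rintro _ ⟨a, ha, rfl⟩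
  exact ⟨_, ⟨a, ha, rfl⟩, rfl⟩

theorem map_ne {N : Subgroup H} (h : IsCoatom N) : N.map H.subtype ≠ H := fun e =>
  h.1 (Subgroup.map_injective H.subtype_injective (by
    rw [e, ← MonoidHom.range_eq_map, Subgroup.range_subtype]))

theorem exists_up [Finite X] {A : Subgroup X} (h1 : A ≤ H) (h2 : A ≠ H) :
    ∃ N : Subgroup H, IsCoatom N ∧ A ≤ N.map H.subtype := by
  obtain h | ⟨N, hN, h⟩ := eq_top_or_exists_le_coatom (A.subgroupOf H)
  · exact absurd (le_antisymm h1 (Subgroup.subgroupOf_eq_top.1 h)) h2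
  · exact ⟨N, hN, fun a ha => ⟨⟨a, h1 ha⟩, h ha, rfl⟩⟩

end Main

open Main

theorem nineteen : ∃ M : Fin 19 → Subgroup ↥G, (∀ i, IsCoatom (M i)) ∧
    ∀ i j, (∃ g : ↥G, (M i).map (MulAut.conj g).toMonoidHom = M j) → i = j := by
  obtain ⟨P, p1, p2, p3⟩ := exists_par
  obtain ⟨A, W, a1, a2, a3⟩ := cases_all
  choose N n1 n2 using fun i => exists_up (a1 i).le (a1 i).ne
  obtain ⟨T, t1, t2⟩ := exists_up A12_le A12_ne
  have q1 : ∀ i, Q ≤ (P i).map G.subtype := fun i q hq => ⟨⟨q, XN_le_G _ hq⟩, p3 i _ hq, rfl⟩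
  have e1 : ∀ i j, ¬ Cj (P i) (N j) := fun i j h => by
    obtain ⟨g, hg, k⟩ := h.mem
    exact sep_Q (a1 j) (n2 j) (Subgroup.map_subtype_le _) (map_ne (n1 j)) hg fun q hq => k q (q1 i hq)
  have e2 : ∀ K : Subgroup G, xr 125 ∈ K.map G.subtype → ¬ Cj K T := fun K hK h => by
    obtain ⟨g, -, k⟩ := h.mem
    exact no_root_of_A12 t2 (Subgroup.map_subtype_le _) (map_ne t1) g (k _ hK)
  have e3 : ∀ i j, i ≠ 0 → Cj (N i) (N j) → i = j := fun i j hi h => by
    obtain ⟨g, hg, k⟩ := h.mem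
    exact (a2 j i (sep_cases (a1 j) (a1 i) (a3 i hi) (n2 j) (Subgroup.map_subtype_le _)
      (map_ne (n1 j)) hg fun a ha => k a (n2 i ha))).symm
  have x1 : ∀ i, xr 125 ∈ (P i).map G.subtype := fun i => q1 i (xr_mem_XN (by decide))
  have x2 : ∀ i, xr 125 ∈ (N i).map G.subtype := fun i => n2 i (a1 i).x_mem
  let e : Fin 7 ⊕ Fin 11 ⊕ Unit ≃ Fin 19 := Fintype.equivFinOfCardEq (by simp)
  refine ⟨fun i => Sum.elim P (Sum.elim N fun _ => T) (e.symm i), fun i => ?_,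
    fun i j (h : Cj _ _) => e.symm.injective ?_⟩
  · beta_reduce
    rcases e.symm i with i | i | i
    exacts [p1 i, n1 i, t1]
  · revert h
    beta_reduce
    rcases e.symm i with i | i | i <;> rcases e.symm j with j | j | j <;> intro h
    · rw [p2 i j h]
    · exact (e1 i j h).elim
    · exact (e2 _ (x1 i) h).elim
    · exact (e1 j i h.symm).elim
    · by_cases hi : i = 0
      · by_cases hj : j = 0
        · rw [hi, hj]
        · rw [e3 j i hj h.symm]
      · rw [e3 i j hi h]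
    · exact (e2 _ (x2 i) h).elim
    · exact (e2 _ (x1 j) h.symm).elim
    · exact (e2 _ (x2 j) h.symm).elim
    · rfl

end Cfsg.Agent.E72
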